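import Cfsg.Agent.Lib.Palfy.CaseB2

/-!
# The case of a minimal normal subgroup of order prime to `r`
-/

set_option autoImplicit false
set_option linter.unusedSectionVars false
set_option linter.style.haveILetI false
set_option linter.deprecated false

namespace Cfsg.Agent.Lib.Palfy.CaseA

open Cfsg Cfsg.Agent.Lib.Palfy.DualAct Cfsg.Agent.Lib.Palfy.Class2 Cfsg.Agent.Lib.Palfy.Spread
open Cfsg.Agent.Lib.Palfy.Setting Cfsg.Agent.Lib.Palfy.Moved Cfsg.Agent.Lib.Palfy.NormalSyl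
open Cfsg.Agent.Lib.Solvable.Basic
open Cfsg.Agent.Lib.Char.Basic Cfsg.Agent.Lib.Char.Ortho Cfsg.Agent.Lib.Char.Complete
open Cfsg.Agent.Lib.Char.Conj Cfsg.Agent.Lib.Char.Degree
open Cfsg.Agent.Lib.Char.Clifford Cfsg.Agent.Lib.Char.CliffordCorr
open scoped ComplexConjugate commutatorElement

universe u

variable {G : Type u} [Group G] [Finite G] [Group.IsSolvable G]

/-- Inflation of a character from a quotient. -/
theorem inflate {N : Subgroup G} [N.Normal] (χ : IrrCharacter (G ⧸ N)) :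
    ∃ χ' : IrrCharacter G, charDegree (χ' : G → ℂ) = charDegree (χ : G ⧸ N → ℂ) := by
  refine ⟨⟨(χ : G ⧸ N → ℂ) ∘ QuotientGroup.mk' N,
    isIrrCharacter_comp _ (QuotientGroup.mk'_surjective N) χ.2⟩, ?_⟩
  show ⌊((χ : G ⧸ N → ℂ) ((QuotientGroup.mk' N) 1)).re⌋₊ = ⌊((χ : G ⧸ N → ℂ) 1).re⌋₊
  rw [map_one]

/-- A Sylow subgroup being normal does not depend on the choice. -/
theorem all_normal {x : ℕ} [Fact x.Prime] {Γ : Type*} [Group Γ] [Finite Γ] {P₀ : Sylow x Γ}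
    (h : (P₀ : Subgroup Γ).Normal) (P' : Sylow x Γ) : (P' : Subgroup Γ).Normal := by
  obtain ⟨g, rfl⟩ := MulAction.exists_smul_eq Γ P₀ P'
  haveI := h
  rw [Sylow.smul_eq_of_normal]
  exact h

variable {V : Subgroup G} [hV : V.Normal] {r s : ℕ} [Fact r.Prime] [Fact s.Prime]

/-- The centralizer of `R` in `V` is normal. -/
theorem centr_normal (R : Sylow r G) (hcV : ∀ x ∈ V, ∀ y ∈ V, x * y = y * x)
    (hNR : ((R : Subgroup G) ⊔ V).Normal) :
    (V ⊓ Subgroup.centralizer ((R : Subgroup G) : Set G)).Normal := by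
  refine ⟨fun c hc g => ⟨hV.conj_mem c hc.1 g, ?_⟩⟩
  show g * c * g⁻¹ ∈ Subgroup.centralizer ((R : Subgroup G) : Set G)
  rw [Subgroup.mem_centralizer_iff]
  intro x hx
  obtain ⟨k, hk, hke⟩ := Cfsg.Agent.Lib.Palfy.KCore.exists_conj_of_sup_normal R V hNR (g⁻¹ • R)
  have h1 : g⁻¹ * x * g ∈ ((g⁻¹ • R : Sylow r G) : Subgroup G) := by
    rw [mem_smul_sylow]
    have e : g⁻¹⁻¹ * (g⁻¹ * x * g) * g⁻¹ = x := by group
    rw [e]
    exact hx
  rw [← hke, mem_smul_sylow] at h1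
  have h2 := Subgroup.mem_centralizer_iff.mp hc.2
  have h3 : Commute c (k⁻¹ * (g⁻¹ * x * g) * k) := (h2 _ h1).symm
  have h4 : Commute c k := hcV c hc.1 k hk
  have h5 : Commute c (g⁻¹ * x * g) := by
    have h6 := (h4.mul_right h3).mul_right h4.inv_right
    have h7 : k * (k⁻¹ * (g⁻¹ * x * g) * k) * k⁻¹ = g⁻¹ * x * g := by group
    rwa [h7] at h6
  have h6 : c * (g⁻¹ * x * g) = (g⁻¹ * x * g) * c := h5
  calc x * (g * c * g⁻¹) = g * ((g⁻¹ * x * g) * c) * g⁻¹ := by group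
    _ = g * (c * (g⁻¹ * x * g)) * g⁻¹ := by rw [h6]
    _ = g * c * g⁻¹ * x := by group

/-- The centralizer of `R` in `V` is trivial. -/
theorem centr_eq_bot (hVmin : IsMinNormal V) (R : Sylow r G) (hcV : ∀ x ∈ V, ∀ y ∈ V, x * y = y * x)
    (hNR : ((R : Subgroup G) ⊔ V).Normal) (hRn : ¬ (R : Subgroup G).Normal) :
    V ⊓ Subgroup.centralizer ((R : Subgroup G) : Set G) = ⊥ := by
  rcases hVmin.2.2 _ (centr_normal R hcV hNR) inf_le_left with h | h
  · exact h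
  · exfalso
    apply hRn
    have hall : ∀ R' : Sylow r G, R' = R := by
      intro R'
      obtain ⟨k, hk, rfl⟩ := Cfsg.Agent.Lib.Palfy.KCore.exists_conj_of_sup_normal R V hNR R'
      apply smul_sylow_eq_of_centralizes
      intro a ha
      have h1 : k ∈ V ⊓ Subgroup.centralizer ((R : Subgroup G) : Set G) := by rw [h]; exact hk
      exact ((Subgroup.mem_centralizer_iff.mp h1.2) a ha).symm
    haveI : Subsingleton (Sylow r G) := ⟨fun a b => by rw [hall a, hall b]⟩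
    exact Sylow.normal_of_subsingleton R

/-- `R` moves each nontrivial linear character of `V`. -/
theorem exists_moved_R (hsr : s ≠ r) (hVs : IsPGroup s V) (R : Sylow r G)
    (hC : V ⊓ Subgroup.centralizer ((R : Subgroup G) : Set G) = ⊥) {lam : V →* ℂˣ} (hlam : lam ≠ 1) :
    ∃ x ∈ (R : Subgroup G), dualAct hV x lam ≠ lam := by
  classical
  by_contra hcon
  push Not at hcon
  apply hlam
  have hAK : (R : Subgroup G) ≤ Subgroup.normalizer (V : Set G) := Subgroup.le_normalizer_of_normal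
  have hcop : (Nat.card (R : Subgroup G)).Coprime (Nat.card V) := by
    obtain ⟨a, ha⟩ := IsPGroup.iff_card.mp R.isPGroup'
    obtain ⟨b, hb⟩ := IsPGroup.iff_card.mp hVs
    rw [ha, hb]
    exact Nat.Coprime.pow _ _ ((Nat.coprime_primes Fact.out Fact.out).mpr hsr.symm)
  have hsolv : Group.IsSolvable (R : Subgroup G) ∨ Group.IsSolvable V := Or.inr inferInstance
  have h1 := Cfsg.Agent.Lib.Coprime.Action.commutator_sup_fixed hAK hcop hsolv
  rw [hC, sup_bot_eq] at h1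
  let K : Subgroup G := lam.ker.map V.subtype
  have hK : ∀ u : V, lam u = 1 → (u : G) ∈ K := fun u hu => ⟨u, hu, rfl⟩
  have h2 : ⁅V, (R : Subgroup G)⁆ ≤ K := by
    rw [Subgroup.commutator_le]
    intro u hu g hg
    have hmem : g * u⁻¹ * g⁻¹ ∈ V := hV.conj_mem _ (V.inv_mem hu) g
    have he : ⁅u, g⁆ = ((⟨u, hu⟩ : V) * ⟨g * u⁻¹ * g⁻¹, hmem⟩ : V) := by
      rw [commutatorElement_def]
      show _ = u * (g * u⁻¹ * g⁻¹)
      group
    rw [he]
    apply hK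
    rw [map_mul]
    have h3 := hcon g⁻¹ (R.toSubgroup.inv_mem hg)
    have h4 : dualAct hV g⁻¹ lam ⟨u⁻¹, V.inv_mem hu⟩ =
        lam ⟨g⁻¹⁻¹ * u⁻¹ * g⁻¹⁻¹⁻¹, hV.conj_mem _ (V.inv_mem hu) g⁻¹⁻¹⟩ := dualAct_apply hV g⁻¹ lam _
    have h5 : (⟨g⁻¹⁻¹ * u⁻¹ * g⁻¹⁻¹⁻¹, hV.conj_mem _ (V.inv_mem hu) g⁻¹⁻¹⟩ : V) =
        ⟨g * u⁻¹ * g⁻¹, hmem⟩ := Subtype.ext (by simp)
    rw [h3, h5] at h4
    rw [← h4]
    have h6 : (⟨u⁻¹, V.inv_mem hu⟩ : V) = (⟨u, hu⟩ : V)⁻¹ := rfl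
    rw [h6, map_inv, mul_inv_cancel]
  have h3 : V ≤ K := by
    rw [← h1]
    exact h2
  ext u
  obtain ⟨u', hu', hue⟩ := h3 u.2
  have h5 : u' = u := Subtype.ext hue
  rw [← h5]
  have h6 : lam u' = 1 := hu'
  rw [h6]
  rfl

/-- Hence the index of the inertia group is divisible by `r`. -/
theorem r_dvd_index (hsr : s ≠ r) (hVs : IsPGroup s V) (R : Sylow r G)
    (hC : V ⊓ Subgroup.centralizer ((R : Subgroup G) : Set G) = ⊥) {lam : V →* ℂˣ} (hlam : lam ≠ 1) :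
    r ∣ (inertia hV (linChar lam)).index := by
  classical
  by_contra hc
  obtain ⟨g, hg⟩ := Cfsg.Agent.Lib.Blk89.ItoMichler.exists_conj_le_of_not_dvd_index
    R.isPGroup' _ hc
  have hne : dualAct hV g lam ≠ 1 := by
    intro h
    apply hlam
    exact (map_eq_one_iff (dualAct hV g) (dualAct hV g).injective).mp h
  obtain ⟨x, hx, hxne⟩ := exists_moved_R hsr hVs R hC hne
  apply hxne
  have h1 := (mem_inertia_iff hV _ lam).mp (hg x hx)
  calc dualAct hV x (dualAct hV g lam) = (dualAct hV x * dualAct hV g) lam := rfl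
    _ = (dualAct hV g * dualAct hV (g⁻¹ * x * g)) lam := by
        rw [← map_mul, ← map_mul]
        congr 2
        group
    _ = dualAct hV g (dualAct hV (g⁻¹ * x * g) lam) := rfl
    _ = dualAct hV g lam := by rw [h1]

/-- The extension of a linear character to its inertia group, in the split situation. -/
theorem exists_ext (R : Sylow r G) (hsr : s ≠ r) (hVs : IsPGroup s V)
    (hNR : ((R : Subgroup G) ⊔ V).Normal)
    (hC : V ⊓ Subgroup.centralizer ((R : Subgroup G) : Set G) = ⊥) (lam : V →* ℂˣ) :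
    ∃ f : (inertia hV (linChar lam)) →* ℂˣ,
      ∀ n : V, f ⟨n, (mem_inertia_iff hV _ lam).mpr (triv_R _ n.2 lam)⟩ = lam n := by
  classical
  set T := inertia hV (linChar lam) with hT
  have hVT : V ≤ T := fun n hn => (mem_inertia_iff hV n lam).mpr (triv_R n hn lam)
  have hdisj := IsPGroup.disjoint_of_ne r s hsr.symm _ _ R.isPGroup' hVs
  -- `V ∩ N(R) = 1`
  have huniq : ∀ v ∈ V, v • R = R → v = 1 := by
    intro v hv hvR
    have h1 : v ∈ Subgroup.centralizer ((R : Subgroup G) : Set G) := by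
      rw [Subgroup.mem_centralizer_iff]
      intro x hx
      have h2 : v * x * v⁻¹ ∈ (R : Subgroup G) := by
        have h3 : v * x * v⁻¹ ∈ ((v • R : Sylow r G) : Subgroup G) := by
          rw [mem_smul_sylow]
          have e : v⁻¹ * (v * x * v⁻¹) * v = x := by group
          rw [e]
          exact hx
        rwa [hvR] at h3
      have h3 : v * x * v⁻¹ * x⁻¹ ∈ (R : Subgroup G) := R.toSubgroup.mul_mem h2 (R.toSubgroup.inv_mem hx)
      have h4 : v * x * v⁻¹ * x⁻¹ ∈ V := by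
        have h5 := hV.conj_mem _ (V.inv_mem hv) x
        have e : v * x * v⁻¹ * x⁻¹ = v * (x * v⁻¹ * x⁻¹) := by group
        rw [e]
        exact V.mul_mem hv h5
      have h5 := Subgroup.disjoint_def.mp hdisj h3 h4
      have h6 : v * x * v⁻¹ = x := by
        rw [mul_inv_eq_one] at h5
        exact h5
      rw [mul_inv_eq_iff_eq_mul] at h6
      exact h6.symm
    have h2 : v ∈ V ⊓ Subgroup.centralizer ((R : Subgroup G) : Set G) := ⟨hv, h1⟩
    rw [hC] at h2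
    exact h2
  -- the decomposition
  have hdec : ∀ t : T, ∃ v : V, ((v : G)⁻¹ * t) • R = R := by
    intro t
    obtain ⟨k, hk, hke⟩ := Cfsg.Agent.Lib.Palfy.KCore.exists_conj_of_sup_normal R V hNR ((t : G) • R)
    refine ⟨⟨k, hk⟩, ?_⟩
    rw [mul_smul, ← hke, inv_smul_smul]
  let dec : T → V := fun t => (hdec t).choose
  have hdecs : ∀ t : T, ((dec t : G)⁻¹ * t) • R = R := fun t => (hdec t).choose_spec
  have hde : ∀ (t : T) (v : V), ((v : G)⁻¹ * t) • R = R → dec t = v := by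
    intro t v hv
    have hb : ((v : G)⁻¹ * t)⁻¹ • R = R := by
      rw [inv_smul_eq_iff]
      exact hv.symm
    have h1 : (((dec t : G)⁻¹ * t) * ((v : G)⁻¹ * t)⁻¹) • R = R := by
      rw [mul_smul, hb, hdecs]
    have h2 : ((dec t : G)⁻¹ * t) * ((v : G)⁻¹ * t)⁻¹ = (dec t : G)⁻¹ * v := by group
    rw [h2] at h1
    have h3 := huniq _ (V.mul_mem (V.inv_mem (dec t).2) v.2) h1
    rw [inv_mul_eq_one] at h3
    exact Subtype.ext h3
  have hmul : ∀ t₁ t₂ : T, lam (dec (t₁ * t₂)) = lam (dec t₁) * lam (dec t₂) := by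
    intro t₁ t₂
    set v₁ := dec t₁ with hv₁
    set v₂ := dec t₂ with hv₂
    set h₁ : G := (v₁ : G)⁻¹ * t₁ with hh₁
    set h₂ : G := (v₂ : G)⁻¹ * t₂ with hh₂
    have hh₁T : h₁ ∈ T := T.mul_mem (T.inv_mem (hVT v₁.2)) t₁.2
    have hmem : h₁ * v₂ * h₁⁻¹ ∈ V := hV.conj_mem _ v₂.2 h₁
    have h1 : dec (t₁ * t₂) = v₁ * ⟨h₁ * v₂ * h₁⁻¹, hmem⟩ := by
      apply hde
      have e : (((v₁ * ⟨h₁ * v₂ * h₁⁻¹, hmem⟩ : V) : G))⁻¹ * ((t₁ * t₂ : T) : G) = h₁ * h₂ := by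
        show ((v₁ : G) * (h₁ * v₂ * h₁⁻¹))⁻¹ * ((t₁ : G) * t₂) = h₁ * h₂
        rw [hh₁, hh₂]
        group
      rw [e, mul_smul, hdecs t₂, hdecs t₁]
    have h2 : lam ⟨h₁ * v₂ * h₁⁻¹, hmem⟩ = lam v₂ := by
      have h3 : conjOn hV h₁ (linChar lam) = linChar lam := hh₁T
      have h4 := congrFun h3 v₂
      exact Units.ext h4
    rw [h1, map_mul, h2]
  refine ⟨MonoidHom.mk' (fun t => lam (dec t)) hmul, fun n => ?_⟩
  show lam (dec ⟨n, _⟩) = lam n
  congr 1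
  apply hde
  simp

/-- The Sylow subgroup is not normal in the quotient. -/
theorem not_normal_quot {x : ℕ} [Fact x.Prime] (hVbot : V ≠ ⊥) (hcV : ∀ x ∈ V, ∀ y ∈ V, x * y = y * x)
    (hgx : ∀ lam : V →* ℂˣ, lam ≠ 1 → GoodAt (G ⧸ V) x (stab (actX (R := V)) lam))
    (hdeg : ∀ lam : V →* ℂˣ, lam ≠ 1 → ∀ χ : IrrCharacter G, x ∣ charDegree (χ : G → ℂ) →
      ∀ [Fintype V], classInner (fun n : V => (χ : G → ℂ) n) (linChar lam) = 0)
    (hρ : ∃ χ : IrrCharacter G, x ∣ charDegree (χ : G → ℂ)) (P₀ : Sylow x (G ⧸ V)) :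
    ¬ (P₀ : Subgroup (G ⧸ V)).Normal := by
  classical
  letI := Fintype.ofFinite G
  letI : Fintype V := Fintype.ofFinite _
  intro hnorm
  have hcomm : ∀ a b : V, a * b = b * a := fun a b => Subtype.ext (hcV a a.2 b b.2)
  -- a nontrivial linear character
  obtain ⟨v₀, hv₀⟩ := Subgroup.ne_bot_iff_exists_ne_one.mp hVbot
  have h5 : v₀ ∉ commutator V := by
    rw [commutator_eq_bot_of_comm hcomm, Subgroup.mem_bot]
    exact hv₀
  obtain ⟨lam₀, -, hlam₀⟩ := exists_annihil_ne_one le_rfl h5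
  have hlam₀1 : lam₀ ≠ 1 := by
    intro h
    apply hlam₀
    rw [h]
    rfl
  obtain ⟨P₁, -, -, hP₁c⟩ := hgx lam₀ hlam₀1
  have hP₁ : P₁ = P₀ := by
    obtain ⟨k, hk⟩ := MulAction.exists_smul_eq (G ⧸ V) P₀ P₁
    haveI := hnorm
    rw [← hk, Sylow.smul_eq_of_normal]
  subst hP₁
  have hnot := (Cfsg.Agent.Lib.Blk89.ItoMichler.normal_comm_iff x
    (Cfsg.Agent.Lib.Core.PSolvable2.isPSolvable_of_isSolvable) P₁).mp
    ⟨hnorm, ⟨⟨fun a b => Subtype.ext (hP₁c a a.2 b b.2)⟩⟩⟩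
  obtain ⟨χ, hχ⟩ := hρ
  -- a constituent of the restriction
  have hres : (fun n : V => (χ : G → ℂ) n) ≠ 0 := by
    intro h
    have h1 := congrFun h 1
    exact irr_one_ne_zero χ.2 h1
  obtain ⟨θ, hθ, hθc⟩ := exists_irr_constituent
    (isClassFunction_of_isCharacter (isCharacter_restrict V (isCharacter_of_isIrrCharacter χ.2))) hres
  have hθ1 : θ 1 = 1 := Cfsg.Agent.Lib.Char.Linear.isIrr_deg_one_of_comm hcomm hθ
  obtain ⟨lam, rfl⟩ := Cfsg.Agent.Lib.Char.Linear.exists_hom_of_deg_one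
    (isCharacter_of_isIrrCharacter hθ) hθ1
  have hlam : lam = 1 := by
    by_contra hne
    exact hθc (hdeg lam hne χ hχ)
  subst hlam
  -- hence `χ` has `V` in its kernel
  have h1 := clifford_restrict hV χ.2 hθ hθc
  have horb : orbitFinset hV (fun g : V => (((1 : V →* ℂˣ) g : ℂˣ) : ℂ)) =
      {fun g : V => (((1 : V →* ℂˣ) g : ℂˣ) : ℂ)} := by
    ext ψ
    rw [mem_orbitFinset, Finset.mem_singleton]
    constructor
    · rintro ⟨g, rfl⟩
      funext z
      simp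
    · rintro rfl
      exact ⟨1, conjOn_one _ _⟩
  rw [horb, Finset.sum_singleton] at h1
  set c := classInner (fun n : V => (χ : G → ℂ) n) (fun g : V => (((1 : V →* ℂˣ) g : ℂˣ) : ℂ)) with hc
  have h2 : ∀ n : V, (χ : G → ℂ) n = c := by
    intro n
    have h3 := congrFun h1 n
    simpa using h3
  have h3 : (χ : G → ℂ) 1 = c := h2 1
  obtain ⟨φ, hφ, hφe⟩ := Cfsg.Agent.Lib.Char.Linear.isIrrCharacter_descend (QuotientGroup.mk' V)
    (QuotientGroup.mk'_surjective V) χ.2 (by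
      intro k hk
      rw [QuotientGroup.ker_mk'] at hk
      rw [h3]
      exact h2 ⟨k, hk⟩)
  apply hnot ⟨φ, hφ⟩
  have h4 : charDegree (χ : G → ℂ) = charDegree φ := by
    show ⌊((χ : G → ℂ) 1).re⌋₊ = ⌊(φ 1).re⌋₊
    rw [hφe]
    simp
  show x ∣ charDegree φ
  rw [← h4]
  exact hχ

/-- **Case A.** -/
theorem caseA {p q : ℕ} [Fact p.Prime] [Fact q.Prime] (hpq : p ≠ q)
    (hcop_pr : p.Coprime r) (hcop_qr : q.Coprime r)
    (hVmin : IsMinNormal V) (hcV : ∀ x ∈ V, ∀ y ∈ V, x * y = y * x) (hVs : IsPGroup s V)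
    (hsr : s ≠ r)
    (hno_pq : ∀ χ : IrrCharacter G, ¬ p * q ∣ charDegree (χ : G → ℂ))
    (hno_pr : ∀ χ : IrrCharacter G, ¬ p * r ∣ charDegree (χ : G → ℂ))
    (hno_qr : ∀ χ : IrrCharacter G, ¬ q * r ∣ charDegree (χ : G → ℂ))
    (hρp : ∃ χ : IrrCharacter G, p ∣ charDegree (χ : G → ℂ))
    (hρq : ∃ χ : IrrCharacter G, q ∣ charDegree (χ : G → ℂ))
    (hρr : ∃ χ : IrrCharacter G, r ∣ charDegree (χ : G → ℂ))
    (hr : ∀ χ : IrrCharacter (G ⧸ V), ¬ r ∣ charDegree (χ : G ⧸ V → ℂ)) : False := by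
  classical
  letI := Fintype.ofFinite G
  letI : Fintype V := Fintype.ofFinite _
  have hsp : s.Prime := Fact.out
  have hVbot : V ≠ ⊥ := hVmin.2.1
  have hdisj := fun (R : Sylow r G) => IsPGroup.disjoint_of_ne r s hsr.symm _ _ R.isPGroup' hVs
  -- Ito-Michler in the quotient
  obtain ⟨Pb⟩ : Nonempty (Sylow r (G ⧸ V)) := inferInstance
  obtain ⟨hPbn, hPbc⟩ := (Cfsg.Agent.Lib.Blk89.ItoMichler.normal_comm_iff r
    Cfsg.Agent.Lib.Core.PSolvable2.isPSolvable_of_isSolvable Pb).mpr hr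
  obtain ⟨R⟩ : Nonempty (Sylow r G) := inferInstance
  have hnR : ∀ R' : Sylow r (G ⧸ V), (R' : Subgroup (G ⧸ V)).Normal := fun R' => all_normal hPbn R'
  have hNR : ((R : Subgroup G) ⊔ V).Normal := sup_normal R hnR
  -- `R` is abelian
  have hRc : ∀ a ∈ (R : Subgroup G), ∀ b ∈ (R : Subgroup G), a * b = b * a := by
    intro a ha b hb
    let R' : Sylow r (G ⧸ V) := R.mapSurjective (QuotientGroup.mk'_surjective V)
    have he : (R' : Subgroup (G ⧸ V)) = (R : Subgroup G).map (QuotientGroup.mk' V) :=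
      Sylow.coe_mapSurjective _ _
    have hR' : R' = Pb := by
      obtain ⟨k, hk⟩ := MulAction.exists_smul_eq (G ⧸ V) Pb R'
      haveI := hPbn
      rw [← hk, Sylow.smul_eq_of_normal]
    have hmem : ∀ c ∈ (R : Subgroup G), (c : G ⧸ V) ∈ (Pb : Subgroup (G ⧸ V)) := by
      intro c hc
      rw [← hR', he]
      exact ⟨c, hc, rfl⟩
    have h1 := congrArg Subtype.val
      (hPbc.is_comm.comm ⟨_, hmem a ha⟩ ⟨_, hmem b hb⟩)
    have h8 : (a * b)⁻¹ * (b * a) ∈ V := by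
      apply QuotientGroup.eq.mp
      rw [QuotientGroup.mk_mul, QuotientGroup.mk_mul]
      exact h1
    have h9 : (a * b)⁻¹ * (b * a) ∈ (R : Subgroup G) :=
      R.toSubgroup.mul_mem (R.toSubgroup.inv_mem (R.toSubgroup.mul_mem ha hb))
        (R.toSubgroup.mul_mem hb ha)
    have h10 := Subgroup.disjoint_def.mp (hdisj R) h9 h8
    rwa [inv_mul_eq_one] at h10
  -- `R` is not normal
  have hRn : ¬ (R : Subgroup G).Normal := by
    intro hn
    obtain ⟨χ, hχ⟩ := hρr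
    exact (Cfsg.Agent.Lib.Blk89.ItoMichler.normal_comm_iff r
      Cfsg.Agent.Lib.Core.PSolvable2.isPSolvable_of_isSolvable R).mp
      ⟨hn, ⟨⟨fun a b => Subtype.ext (hRc a a.2 b b.2)⟩⟩⟩ χ hχ
  have hC := centr_eq_bot hVmin R hcV hNR hRn
  -- the degrees
  have hrdeg : ∀ lam : V →* ℂˣ, lam ≠ 1 → ∀ χ : IrrCharacter G,
      classInner (fun n : V => (χ : G → ℂ) n) (linChar lam) ≠ 0 → r ∣ charDegree (χ : G → ℂ) := by
    intro lam hlam χ hχ
    have h1 := r_dvd_index hsr hVs R hC hlam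
    have h2 := Cfsg.Agent.Lib.Blk89.ItoMichler.deg_mul_index_dvd hV χ.2 (isIrr_linChar lam) hχ
    exact h1.trans ((Dvd.intro _ rfl).trans h2)
  have hgood : ∀ {x : ℕ} [Fact x.Prime], x.Coprime r →
      (∀ χ : IrrCharacter G, ¬ x * r ∣ charDegree (χ : G → ℂ)) →
      ∀ lam : V →* ℂˣ, lam ≠ 1 → GoodAt (G ⧸ V) x (stab (actX (R := V)) lam) := by
    intro x _ hx hno lam hlam
    have h1 : stab (actX (R := V)) lam = (inertia hV (linChar lam)).map (QuotientGroup.mk' V) :=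
      stab_dualActQ hV triv_R lam
    rw [h1]
    obtain ⟨f, hf⟩ := exists_ext R hsr hVs hNR hC lam
    refine good_of_ext hV (isIrr_linChar lam)
      (fun n hn => (mem_inertia_iff hV n lam).mpr (triv_R n hn lam)) rfl (isIrr_linChar f) ?_ ?_
    · intro n
      have h2 := hf n
      show ((f _ : ℂˣ) : ℂ) = _
      rw [h2]
      rfl
    · intro χ hχ hdvd
      exact hno χ (hx.mul_dvd_of_dvd_of_dvd hdvd (hrdeg lam hlam χ hχ))
  have hgp := hgood hcop_pr hno_pr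
  have hgq := hgood hcop_qr hno_qr
  have hdeg : ∀ {x : ℕ} [Fact x.Prime], x.Coprime r →
      (∀ χ : IrrCharacter G, ¬ x * r ∣ charDegree (χ : G → ℂ)) →
      ∀ lam : V →* ℂˣ, lam ≠ 1 → ∀ χ : IrrCharacter G, x ∣ charDegree (χ : G → ℂ) →
      ∀ [Fintype V], classInner (fun n : V => (χ : G → ℂ) n) (linChar lam) = 0 := by
    intro x _ hx hno lam hlam χ hχ inst
    by_contra hne
    refine hno χ (hx.mul_dvd_of_dvd_of_dvd hχ (hrdeg lam hlam χ ?_))
    convert hne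
  obtain ⟨P₀⟩ : Nonempty (Sylow p (G ⧸ V)) := inferInstance
  obtain ⟨Q₀⟩ : Nonempty (Sylow q (G ⧸ V)) := inferInstance
  have hPn := not_normal_quot hVbot hcV hgp (hdeg hcop_pr hno_pr) hρp P₀
  have hQn := not_normal_quot hVbot hcV hgq (hdeg hcop_qr hno_qr) hρq Q₀
  -- the main lemma
  obtain ⟨n, hn⟩ := IsPGroup.iff_card.mp hVs
  have hn0 : 0 < n := by
    rcases Nat.eq_zero_or_pos n with rfl | h0
    · exfalso
      apply hVbot
      apply Subgroup.eq_bot_of_card_eq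
      simpa using hn
    · exact h0
  have hcomm : ∀ a b : V, a * b = b * a := fun a b => Subtype.ext (hcV a a.2 b b.2)
  have hW : Nat.card (V →* ℂˣ) = s ^ n := by
    rw [card_hom, commutator_eq_bot_of_comm hcomm, Subgroup.index_bot, hn]
  obtain ⟨χ, hχ⟩ := exists_deg_mul (actX (R := V)) hpq hsp hW hn0 hgp hgq P₀ Q₀ hPn hQn
  obtain ⟨χ', hχ'⟩ := inflate χ
  apply hno_pq χ'
  rw [hχ']
  exact hχ

end Cfsg.Agent.Lib.Palfy.CaseA
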