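import Cfsg.Agent.Lib.Palfy.NormalSyl

/-!
# The case of one Sylow subgroup normal modulo `R`
-/

set_option autoImplicit false
set_option linter.unusedSectionVars false
set_option linter.style.haveILetI false
set_option linter.deprecated false

namespace Cfsg.Agent.Lib.Palfy.CaseB2

open Cfsg Cfsg.Agent.Lib.Palfy.DualAct Cfsg.Agent.Lib.Palfy.Class2 Cfsg.Agent.Lib.Palfy.Spread
open Cfsg.Agent.Lib.Palfy.Setting Cfsg.Agent.Lib.Palfy.Moved Cfsg.Agent.Lib.Palfy.NormalSyl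
open Cfsg.Agent.Lib.Char.Basic Cfsg.Agent.Lib.Char.Ortho Cfsg.Agent.Lib.Char.Complete
open Cfsg.Agent.Lib.Char.Conj Cfsg.Agent.Lib.Char.Degree
open Cfsg.Agent.Lib.Char.Clifford Cfsg.Agent.Lib.Char.CliffordCorr
open scoped ComplexConjugate commutatorElement

universe u

/-- The valuation of `n - 1`. -/
theorem val_aux {r a b n : ℕ} (hr : r.Prime) (h1 : r ^ a = n * (r ^ b - 1) + 1) (hb0 : 0 < b)
    (hba : b < a) : ((r : ℤ) ^ b ∣ (n : ℤ) - 1) ∧ ¬ ((r : ℤ) ^ (b + 1) ∣ (n : ℤ) - 1) := by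
  have hrpos := hr.pos
  have hpow : 1 ≤ r ^ b := Nat.one_le_pow _ _ hrpos
  have h2 : (r : ℤ) ^ a = n * ((r : ℤ) ^ b - 1) + 1 := by
    have h := congrArg (Nat.cast : ℕ → ℤ) h1
    rw [Nat.cast_add, Nat.cast_mul, Nat.cast_sub hpow] at h
    simpa using h
  obtain ⟨e, rfl⟩ : ∃ e, a = b + e := ⟨a - b, by omega⟩
  have he : 0 < e := by omega
  have h3 : (n : ℤ) - 1 = (r : ℤ) ^ b * (n - (r : ℤ) ^ e) := by
    rw [pow_add] at h2
    linear_combination h2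
  constructor
  · exact ⟨_, h3⟩
  · rintro ⟨c, hc⟩
    have hr0 : (r : ℤ) ^ b ≠ 0 := pow_ne_zero _ (by exact_mod_cast hr.ne_zero)
    have h4 : (n : ℤ) - (r : ℤ) ^ e = r * c := by
      apply mul_left_cancel₀ hr0
      rw [← h3, hc, pow_succ]
      ring
    have h5 : (r : ℤ) ∣ n := by
      have h6 : (r : ℤ) ∣ (r : ℤ) ^ e := dvd_pow_self _ he.ne'
      have h7 : (r : ℤ) ∣ (n : ℤ) - (r : ℤ) ^ e := ⟨c, h4⟩
      have h8 := dvd_add h7 h6
      simpa using h8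
    have h8 : (r : ℤ) ∣ 1 := by
      have h9 : (r : ℤ) ∣ (r : ℤ) ^ (b + e) := dvd_pow_self _ (by omega)
      have h10 : (r : ℤ) ∣ n * ((r : ℤ) ^ b - 1) := h5.mul_right _
      have h11 : (1 : ℤ) = (r : ℤ) ^ (b + e) - n * ((r : ℤ) ^ b - 1) := by rw [h2]; ring
      rw [h11]
      exact dvd_sub h9 h10
    have h12 : r ∣ 1 := by exact_mod_cast h8
    exact hr.one_lt.ne' (Nat.dvd_one.mp h12)

theorem arith {r a b c d n : ℕ} (hr : r.Prime) (h1 : r ^ a = n * (r ^ b - 1) + 1)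
    (h2 : r ^ c = n * (r ^ d - 1) + 1) (hb : 0 < b) (hd : 0 < d) (hn : 2 ≤ n) (hac : a ≠ c) :
    False := by
  have key : ∀ {a b : ℕ}, r ^ a = n * (r ^ b - 1) + 1 → 0 < b → b < a := by
    intro a b h1 hb
    have h3 : 2 ≤ r ^ b := hr.two_le.trans (Nat.le_self_pow hb.ne' r)
    have h4 : 2 * (r ^ b - 1) ≤ n * (r ^ b - 1) := Nat.mul_le_mul_right _ hn
    have h5 : r ^ b < r ^ a := by omega
    exact (Nat.pow_lt_pow_iff_right hr.one_lt).mp h5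
  obtain ⟨h3, h4⟩ := val_aux hr h1 hb (key h1 hb)
  obtain ⟨h5, h6⟩ := val_aux hr h2 hd (key h2 hd)
  have hbd : b = d := by
    rcases lt_trichotomy b d with h | h | h
    · exact absurd ((pow_dvd_pow (r : ℤ) (by omega : b + 1 ≤ d)).trans h5) h4
    · exact h
    · exact absurd ((pow_dvd_pow (r : ℤ) (by omega : d + 1 ≤ b)).trans h3) h6
  subst hbd
  have h7 : r ^ a = r ^ c := h1.trans h2.symm
  exact hac (Nat.pow_right_injective hr.two_le h7)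

/-- A pure identity of groups. -/
theorem comm_aux {X : Type*} [Group X] {g x t v w : X} (hv : g * x * g⁻¹ = v * x)
    (hw : w = x * t * x⁻¹ * t⁻¹) (hgw : g * w * g⁻¹ = w)
    (hvb : v * (x * (g * t * g⁻¹) * x⁻¹) = (x * (g * t * g⁻¹) * x⁻¹) * v)
    (hwc : w * (g * t * g⁻¹ * t⁻¹) = (g * t * g⁻¹ * t⁻¹) * w) :
    x * (g * t * g⁻¹ * t⁻¹) = (g * t * g⁻¹ * t⁻¹) * x := by
  set b := g * t * g⁻¹ with hb
  have h1 : g * w * g⁻¹ = (g * x * g⁻¹) * b * (g * x * g⁻¹)⁻¹ * b⁻¹ := by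
    rw [hw, hb]
    group
  rw [hgw, hv] at h1
  have h2 : (v * x) * b * (v * x)⁻¹ * b⁻¹ = x * b * x⁻¹ * b⁻¹ := by
    have h3 : (v * x) * b * (v * x)⁻¹ = v * (x * b * x⁻¹) * v⁻¹ := by group
    rw [h3, hvb]
    group
  rw [h2] at h1
  -- `x b x⁻¹ = w b` and `x t x⁻¹ = w t`
  have h4 : x * b * x⁻¹ = w * b := by
    rw [h1]
    group
  have h5 : x * t * x⁻¹ = w * t := by
    rw [hw]
    group
  have h6 : x * (b * t⁻¹) * x⁻¹ = b * t⁻¹ := by
    calc x * (b * t⁻¹) * x⁻¹ = (x * b * x⁻¹) * (x * t * x⁻¹)⁻¹ := by group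
      _ = (w * b) * (w * t)⁻¹ := by rw [h4, h5]
      _ = w * (b * t⁻¹) * w⁻¹ := by group
      _ = b * t⁻¹ := by rw [hwc]; group
  rw [mul_inv_eq_iff_eq_mul] at h6
  exact h6

variable {G : Type u} [Group G] [Finite G] [Group.IsSolvable G]
variable {R V : Subgroup G} [hR : R.Normal] [hV : V.Normal] {r : ℕ} [Fact r.Prime]
variable {q : ℕ} [Fact q.Prime]

/-- The preimage of the fixed points of `Q` on `R / R'`. -/
def fixedMod (Q : Subgroup G) : Subgroup R where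
  carrier := {u | ∀ g ∈ Q, ∀ μ : R →* ℂˣ, dualAct hR g μ u = μ u}
  mul_mem' := by
    intro a b ha hb g hg μ
    rw [map_mul, ha g hg μ, hb g hg μ, map_mul]
  one_mem' := by
    intro g _ μ
    simp
  inv_mem' := by
    intro a ha g hg μ
    rw [map_inv, ha g hg μ, map_inv]

theorem mem_fixedMod {Q : Subgroup G} {u : R} :
    u ∈ fixedMod (hR := hR) Q ↔ ∀ g ∈ Q, ∀ μ : R →* ℂˣ, dualAct hR g μ u = μ u := Iff.rfl

theorem commutator_le_fixedMod (Q : Subgroup G) : commutator R ≤ fixedMod (hR := hR) Q := by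
  intro u hu g _ μ
  rw [hom_commutator _ hu, hom_commutator _ hu]

theorem dualAct_eq_of_mk_eq {a b : G} (h : (a : G ⧸ R) = (b : G ⧸ R)) :
    dualAct hR a = dualAct hR b := by
  have h1 := congrArg (dualActQ (N := R) hR triv_R) h
  exact h1

theorem conj_mem_fixedMod (Q : Sylow q G)
    (hn : ∀ Q' : Sylow q (G ⧸ R), (Q' : Subgroup (G ⧸ R)).Normal) {u : R}
    (hu : u ∈ fixedMod (hR := hR) (Q : Subgroup G)) (h : G) :
    (⟨h⁻¹ * u * h⁻¹⁻¹, hR.conj_mem u u.2 h⁻¹⟩ : R) ∈ fixedMod (hR := hR) (Q : Subgroup G) := by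
  intro g hg μ
  -- replace `h g h⁻¹` by an element of `Q`
  let Q' : Sylow q (G ⧸ R) := Q.mapSurjective (QuotientGroup.mk'_surjective R)
  have he : (Q' : Subgroup (G ⧸ R)) = (Q : Subgroup G).map (QuotientGroup.mk' R) :=
    Sylow.coe_mapSurjective _ _
  have h1 : ((h * g * h⁻¹ : G) : G ⧸ R) ∈ (Q' : Subgroup (G ⧸ R)) := by
    have h2 := (hn Q').conj_mem ((g : G) : G ⧸ R) (by rw [he]; exact ⟨g, hg, rfl⟩) (h : G ⧸ R)
    simpa using h2
  rw [he] at h1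
  obtain ⟨g₁, hg₁, hg₁e⟩ := h1
  have h2 : dualAct hR g₁ = dualAct hR (h * g * h⁻¹) := dualAct_eq_of_mk_eq hg₁e
  have h3 := hu g₁ hg₁ (dualAct hR h μ)
  rw [h2] at h3
  have h4 : dualAct hR (h * g * h⁻¹) (dualAct hR h μ) = dualAct hR h (dualAct hR g μ) := by
    have e : h * g * h⁻¹ * h = h * g := by group
    calc dualAct hR (h * g * h⁻¹) (dualAct hR h μ)
        = (dualAct hR (h * g * h⁻¹) * dualAct hR h) μ := rfl
      _ = dualAct hR (h * g) μ := by rw [← map_mul, e]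
      _ = dualAct hR h (dualAct hR g μ) := by rw [map_mul]; rfl
  rw [h4] at h3
  exact h3

variable (S : Setting R V r)

include S

/-- Nonlinear characters of `R` are fixed by `Q`. -/
theorem conj_of_nonlinear (hno : ∀ χ : IrrCharacter G, ¬ q * r ∣ charDegree (χ : G → ℂ))
    (hqr : q ≠ r) (Q : Sylow q G) (hN : ((Q : Subgroup G) ⊔ R).Normal) {θ : R → ℂ}
    (hθ : IsIrrCharacter R θ) (h1 : θ 1 ≠ 1) {g : G} (hg : g ∈ (Q : Subgroup G)) :
    conjOn hR g θ = θ := by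
  classical
  letI := Fintype.ofFinite G
  letI : Fintype R := Fintype.ofFinite _
  by_contra hne
  have hRT : R ≤ inertia hR θ := le_inertia hR (isClassFunction_of_isIrrCharacter hθ)
  have h2 := dvd_index_of_moved _ R hRT Q
    (Cfsg.Agent.Lib.Palfy.KCore.exists_conj_of_sup_normal Q R hN) hg (fun h => hne h)
  obtain ⟨χ, hχ⟩ := Cfsg.Agent.Lib.Blk89.ItoMichler.exists_irr_over (G := G) (N := R) hθ
  have h3 := Cfsg.Agent.Lib.Blk89.ItoMichler.deg_mul_index_dvd hR χ.2 hθ hχ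
  apply hno χ
  exact (mul_dvd_mul h2 (S.r_dvd_of_ne_one hθ h1)).trans h3

/-- The vanishing of nonlinear characters. -/
theorem vanish (hno : ∀ χ : IrrCharacter G, ¬ q * r ∣ charDegree (χ : G → ℂ))
    (hqr : q ≠ r) (Q : Sylow q G) (hN : ((Q : Subgroup G) ⊔ R).Normal) {u : R}
    (hu : u ∉ fixedMod (hR := hR) (Q : Subgroup G)) {θ : R → ℂ}
    (hθ : IsIrrCharacter R θ) (h1 : θ 1 ≠ 1) : θ u = 0 := by
  rw [mem_fixedMod] at hu
  push Not at hu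
  obtain ⟨g, hg, μ, hμ⟩ := hu
  have hg' : g⁻¹ ∈ (Q : Subgroup G) := Q.toSubgroup.inv_mem hg
  have h2 := congrFun (conj_of_nonlinear S hno hqr Q hN hθ h1 hg') u
  have h3 := congrFun (conj_of_nonlinear S hno hqr Q hN (isIrr_homMul μ hθ)
    (by rw [homMul_one_apply]; exact h1) hg') u
  simp only [conjOn_apply, homMul_apply] at h2 h3
  rw [h2] at h3
  have h4 : ((μ ⟨g⁻¹ * u * g⁻¹⁻¹, hR.conj_mem u u.2 g⁻¹⟩ : ℂˣ) : ℂ) ≠ ((μ u : ℂˣ) : ℂ) := by
    intro h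
    apply hμ
    exact Units.ext h
  by_contra hne
  exact h4 (mul_right_cancel₀ hne h3)

theorem card_centralizer_eq (hno : ∀ χ : IrrCharacter G, ¬ q * r ∣ charDegree (χ : G → ℂ))
    (hqr : q ≠ r) (Q : Sylow q G) (hN : ((Q : Subgroup G) ⊔ R).Normal) {u : R}
    (hu : u ∉ fixedMod (hR := hR) (Q : Subgroup G)) :
    Nat.card (Subgroup.centralizer ({u} : Set R)) = (commutator R).index :=
  card_centralizer_of_vanish fun χ hχ => vanish S hno hqr Q hN hu χ.2 hχ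

/-- `u₀ = [g₀, t]` does not lie in `D`. -/
theorem not_mem_fixedMod (hqr : q ≠ r) (Q : Sylow q G) {g₀ : G}
    (hg₀ : g₀ ∈ (Q : Subgroup G)) {μ₀ : R →* ℂˣ} {t : R}
    (hne : dualAct hR g₀ μ₀ t ≠ μ₀ t) :
    (⟨g₀⁻¹ * t * g₀⁻¹⁻¹, hR.conj_mem t t.2 g₀⁻¹⟩ : R) * t⁻¹ ∉
      fixedMod (hR := hR) (Q : Subgroup G) := by
  intro hmem
  set c : R := ⟨g₀⁻¹ * t * g₀⁻¹⁻¹, hR.conj_mem t t.2 g₀⁻¹⟩ with hc
  set u₀ : R := c * t⁻¹ with hu₀
  have hct : c = u₀ * t := by rw [hu₀]; group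
  have hact : ∀ ν : R →* ℂˣ, dualAct hR g₀ ν t = ν u₀ * ν t := by
    intro ν
    have h1 : dualAct hR g₀ ν t = ν c := dualAct_apply hR g₀ ν t
    rw [h1, hct, map_mul]
  -- iterate
  have hiter : ∀ (k : ℕ) (ν : R →* ℂˣ), dualAct hR (g₀ ^ k) ν t = ν u₀ ^ k * ν t := by
    intro k
    induction k with
    | zero =>
      intro ν
      rw [pow_zero, map_one, pow_zero, one_mul]
      rfl
    | succ k ih =>
      intro ν
      rw [pow_succ', map_mul, MulAut.mul_apply, hact, ih, hmem _ (Q.toSubgroup.pow_mem hg₀ k) ν,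
        pow_succ']
      rw [mul_assoc]
  obtain ⟨m, hm⟩ := Q.isPGroup' ⟨g₀, hg₀⟩
  have hm' : g₀ ^ q ^ m = 1 := by
    have h1 := congrArg (fun y : (Q : Subgroup G) => (y : G)) hm
    simpa using h1
  obtain ⟨k, hk⟩ := IsPGroup.iff_card.mp S.hRr
  have h1 : μ₀ u₀ ^ q ^ m = 1 := by
    have h2 := hiter (q ^ m) μ₀
    rw [hm', map_one] at h2
    have h3 : (1 : MulAut (R →* ℂˣ)) μ₀ t = μ₀ t := rfl
    rw [h3] at h2
    exact (mul_eq_right.mp h2.symm)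
  have h2 : μ₀ u₀ ^ r ^ k = 1 := by
    rw [← map_pow, ← hk, pow_card_eq_one', map_one]
  have h3 : orderOf (μ₀ u₀) ∣ Nat.gcd (q ^ m) (r ^ k) :=
    Nat.dvd_gcd (orderOf_dvd_of_pow_eq_one h1) (orderOf_dvd_of_pow_eq_one h2)
  rw [Nat.Coprime.pow _ _ ((Nat.coprime_primes Fact.out Fact.out).mpr hqr), Nat.dvd_one,
    orderOf_eq_one_iff] at h3
  apply hne
  rw [hact, h3, one_mul]

theorem card_commutator : Nat.card (commutator R) = Nat.card V := by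
  have h1 : commutator R = V.subgroupOf R := by
    ext u
    rw [S.hcomm, Subgroup.mem_subgroupOf]
  rw [h1]
  exact Nat.card_congr (Subgroup.subgroupOfEquivOfLe S.hVR).toEquiv

/-- The fixed part of `R` commutes with `u₀`. -/
theorem fixedMod_le_centralizer {q : ℕ} [Fact q.Prime] (Q : Sylow q G)
    (hn : ∀ Q' : Sylow q (G ⧸ R), (Q' : Subgroup (G ⧸ R)).Normal)
    (hgq : ∀ lam : V →* ℂˣ, lam ≠ 1 → GoodAt (G ⧸ R) q (stab S.actV lam))
    {g₀ : G} (hg₀ : g₀ ∈ (Q : Subgroup G)) (t : R) :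
    fixedMod (hR := hR) (Q : Subgroup G) ≤ Subgroup.centralizer
      ({(⟨g₀⁻¹ * t * g₀⁻¹⁻¹, hR.conj_mem t t.2 g₀⁻¹⟩ : R) * t⁻¹} : Set R) := by
  intro x hx
  rw [Subgroup.mem_centralizer_iff]
  intro y hy
  rw [Set.mem_singleton_iff] at hy
  subst hy
  apply Subtype.ext
  -- the commutator with `g₀`
  have hxc : (⟨g₀⁻¹ * x * g₀⁻¹⁻¹, hR.conj_mem x x.2 g₀⁻¹⟩ : R) * x⁻¹ ∈ commutator R := by
    apply mem_commutator_of_forall
    intro μ
    have h1 := hx g₀ hg₀ μ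
    have h2 : dualAct hR g₀ μ x = μ ⟨g₀⁻¹ * x * g₀⁻¹⁻¹, hR.conj_mem x x.2 g₀⁻¹⟩ :=
      dualAct_apply hR g₀ μ x
    rw [h2] at h1
    rw [map_mul, map_inv, h1, mul_inv_cancel]
  have hv : g₀⁻¹ * (x : G) * g₀⁻¹⁻¹ * (x : G)⁻¹ ∈ V := (S.hcomm _).mp hxc
  have hw : ⁅x, t⁆ ∈ commutator R := Subgroup.commutator_mem_commutator trivial trivial
  have hw' : (x : G) * (t : G) * (x : G)⁻¹ * (t : G)⁻¹ ∈ V := (S.hcomm _).mp hw
  have hgw := centralizes_V S Q hn hgq hg₀ hw'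
  have hgR : ∀ y ∈ R, g₀⁻¹ * y * g₀⁻¹⁻¹ ∈ R := fun y hy => hR.conj_mem y hy g₀⁻¹
  have h5 := comm_aux (g := g₀⁻¹) (x := (x : G)) (t := (t : G))
    (v := g₀⁻¹ * (x : G) * g₀⁻¹⁻¹ * (x : G)⁻¹)
    (w := (x : G) * (t : G) * (x : G)⁻¹ * (t : G)⁻¹) (by group) rfl
    (by rw [inv_inv]; exact hgw)
    (S.hcen _ hv _ (R.mul_mem (R.mul_mem x.2 (hgR _ t.2)) (R.inv_mem x.2)))
    (S.hcen _ hw' _ (R.mul_mem (hgR _ t.2) (R.inv_mem t.2)))
  exact h5.symm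

/-- The size of `D`. -/
theorem lt_index {q : ℕ} [Fact q.Prime] (hno : ∀ χ : IrrCharacter G, ¬ q * r ∣ charDegree (χ : G → ℂ))
    (hqr : q ≠ r) (Q : Sylow q G)
    (hn : ∀ Q' : Sylow q (G ⧸ R), (Q' : Subgroup (G ⧸ R)).Normal)
    (hgq : ∀ lam : V →* ℂˣ, lam ≠ 1 → GoodAt (G ⧸ R) q (stab S.actV lam))
    (hm : ∃ g ∈ (Q : Subgroup G), ∃ μ : R →* ℂˣ, dualAct hR g μ ≠ μ) :
    Nat.card V < (fixedMod (hR := hR) (Q : Subgroup G)).index := by
  classical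
  obtain ⟨g₀, hg₀, μ₀, hμ₀⟩ := hm
  obtain ⟨t, ht⟩ : ∃ t : R, dualAct hR g₀ μ₀ t ≠ μ₀ t := by
    by_contra hc
    push Not at hc
    exact hμ₀ (MonoidHom.ext hc)
  have hu₀ := not_mem_fixedMod S hqr Q hg₀ ht
  set u₀ : R := (⟨g₀⁻¹ * t * g₀⁻¹⁻¹, hR.conj_mem t t.2 g₀⁻¹⟩ : R) * t⁻¹ with hu₀def
  set D := fixedMod (hR := hR) (Q : Subgroup G) with hD
  set C := Subgroup.centralizer ({u₀} : Set R) with hC
  have hDC : D ≤ C := fixedMod_le_centralizer S Q hn hgq hg₀ t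
  have hCcard : Nat.card C = (commutator R).index :=
    card_centralizer_eq S hno hqr Q (sup_normal Q hn) hu₀
  have hu₀C : u₀ ∈ C := by
    rw [hC, Subgroup.mem_centralizer_iff]
    intro y hy
    rw [Set.mem_singleton_iff] at hy
    rw [hy]
  have hlt : Nat.card D < Nat.card C := by
    by_contra hc
    have h1 : D = C := Subgroup.eq_of_le_of_card_ge hDC (not_lt.mp hc)
    exact hu₀ (h1 ▸ hu₀C)
  have h1 : Nat.card D * D.index = Nat.card R := Subgroup.card_mul_index D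
  have h2 : Nat.card (commutator R) * (commutator R).index = Nat.card R :=
    Subgroup.card_mul_index _
  rw [card_commutator S] at h2
  rw [← hCcard] at h2
  by_contra hc
  have h3 : D.index ≤ Nat.card V := not_lt.mp hc
  have hVpos : 0 < Nat.card V := Nat.card_pos
  have h4 : Nat.card D * D.index ≤ Nat.card D * Nat.card V := Nat.mul_le_mul_left _ h3
  have h5 : Nat.card D * Nat.card V < Nat.card C * Nat.card V := Nat.mul_lt_mul_of_pos_right hlt hVpos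
  rw [mul_comm (Nat.card V)] at h2
  omega

/-- The annihilator of `D` meets the fixed points of `Q` trivially. -/
theorem eq_one_of_fixed (hqr : q ≠ r) (Q : Sylow q G) {y : R →* ℂˣ}
    (hy : y ∈ annihil (fixedMod (hR := hR) (Q : Subgroup G)))
    (hfix : ∀ g ∈ (Q : Subgroup G), dualAct hR g y = y) : y = 1 := by
  classical
  have hxp : q.Prime := Fact.out
  have hrp : r.Prime := Fact.out
  have hAK : (Q : Subgroup G) ≤ Subgroup.normalizer (R : Set G) := Subgroup.le_normalizer_of_normal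
  have hcop : (Nat.card (Q : Subgroup G)).Coprime (Nat.card R) := by
    obtain ⟨a, ha⟩ := IsPGroup.iff_card.mp Q.isPGroup'
    obtain ⟨b, hb⟩ := IsPGroup.iff_card.mp S.hRr
    rw [ha, hb]
    exact Nat.Coprime.pow _ _ ((Nat.coprime_primes hxp hrp).mpr hqr)
  have hsolv : Group.IsSolvable (Q : Subgroup G) ∨ Group.IsSolvable R := Or.inr inferInstance
  have h1 := Cfsg.Agent.Lib.Coprime.Action.commutator_sup_fixed hAK hcop hsolv
  let K : Subgroup G := y.ker.map R.subtype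
  have hK : ∀ u : R, y u = 1 → (u : G) ∈ K := fun u hu => ⟨u, hu, rfl⟩
  have h2 : ⁅R, (Q : Subgroup G)⁆ ≤ K := by
    rw [Subgroup.commutator_le]
    intro u hu g hg
    have hmem : g * u⁻¹ * g⁻¹ ∈ R := hR.conj_mem _ (R.inv_mem hu) g
    have he : ⁅u, g⁆ = ((⟨u, hu⟩ : R) * ⟨g * u⁻¹ * g⁻¹, hmem⟩ : R) := by
      rw [commutatorElement_def]
      show _ = u * (g * u⁻¹ * g⁻¹)
      group
    rw [he]
    apply hK
    rw [map_mul]
    have h3 := hfix g⁻¹ (Q.toSubgroup.inv_mem hg)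
    have h4 : dualAct hR g⁻¹ y ⟨u⁻¹, R.inv_mem hu⟩ =
        y ⟨g⁻¹⁻¹ * u⁻¹ * g⁻¹⁻¹⁻¹, hR.conj_mem _ (R.inv_mem hu) g⁻¹⁻¹⟩ := dualAct_apply hR g⁻¹ y _
    have h5 : (⟨g⁻¹⁻¹ * u⁻¹ * g⁻¹⁻¹⁻¹, hR.conj_mem _ (R.inv_mem hu) g⁻¹⁻¹⟩ : R) =
        ⟨g * u⁻¹ * g⁻¹, hmem⟩ := Subtype.ext (by simp)
    rw [h3, h5] at h4
    rw [← h4]
    have h6 : (⟨u⁻¹, R.inv_mem hu⟩ : R) = (⟨u, hu⟩ : R)⁻¹ := rfl
    rw [h6, map_inv, mul_inv_cancel]
  have h3 : R ⊓ Subgroup.centralizer ((Q : Subgroup G) : Set G) ≤ K := by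
    rintro c ⟨hc1, hc2⟩
    apply hK ⟨c, hc1⟩
    apply hy
    intro g hg μ
    have h4 : dualAct hR g μ ⟨c, hc1⟩ =
        μ ⟨g⁻¹ * c * g⁻¹⁻¹, hR.conj_mem c hc1 g⁻¹⟩ := dualAct_apply hR g μ _
    rw [h4]
    congr 1
    apply Subtype.ext
    have h5 := Subgroup.mem_centralizer_iff.mp hc2 g⁻¹ (Q.toSubgroup.inv_mem hg)
    show g⁻¹ * c * g⁻¹⁻¹ = c
    rw [h5]
    group
  have h4 : R ≤ K := by
    rw [← h1]
    exact sup_le h2 h3
  ext u
  obtain ⟨u', hu', hue⟩ := h4 u.2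
  have h5 : u' = u := Subtype.ext hue
  rw [← h5]
  have h6 : y u' = 1 := hu'
  rw [h6]
  rfl

/-- **The case of one Sylow subgroup normal modulo `R`.** -/
theorem caseB2 {p q : ℕ} [Fact p.Prime] [Fact q.Prime] (hqr : q ≠ r)
    (hV1 : V ≠ ⊥) (hno_pq : ∀ χ : IrrCharacter G, ¬ p * q ∣ charDegree (χ : G → ℂ))
    (hcop_pq : p.Coprime q) (hcop_pr : p.Coprime r) (hcop_qr : q.Coprime r)
    (hno_pr : ∀ χ : IrrCharacter G, ¬ p * r ∣ charDegree (χ : G → ℂ))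
    (hno_qr : ∀ χ : IrrCharacter G, ¬ q * r ∣ charDegree (χ : G → ℂ))
    (hρq : ∃ χ : IrrCharacter G, q ∣ charDegree (χ : G → ℂ))
    (Q : Sylow q G) (hn : ∀ Q' : Sylow q (G ⧸ R), (Q' : Subgroup (G ⧸ R)).Normal)
    (P₀ : Sylow p (G ⧸ R)) (hP₀ : ¬ (P₀ : Subgroup (G ⧸ R)).Normal) : False := by
  classical
  have hrp : r.Prime := Fact.out
  letI := Fintype.ofFinite G
  letI : Fintype R := Fintype.ofFinite _
  have hgp : ∀ lam : V →* ℂˣ, lam ≠ 1 → GoodAt (G ⧸ R) p (stab S.actV lam) := fun lam h =>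
    S.good_lam (fun χ h1 h2 => hno_pr χ (hcop_pr.mul_dvd_of_dvd_of_dvd h2 h1)) h
  have hgq : ∀ lam : V →* ℂˣ, lam ≠ 1 → GoodAt (G ⧸ R) q (stab S.actV lam) := fun lam h =>
    S.good_lam (fun χ h1 h2 => hno_qr χ (hcop_qr.mul_dvd_of_dvd_of_dvd h2 h1)) h
  have hm := exists_moved S hqr hV1 Q hn hgq hρq
  have hlt := lt_index S hno_qr hqr Q hn hgq hm
  set D := fixedMod (hR := hR) (Q : Subgroup G) with hD
  set Y := annihil D with hYdef
  have hD1 : commutator R ≤ D := commutator_le_fixedMod _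
  have hcardY : Nat.card Y = D.index := card_annihil hD1
  have hY : ∀ g : G ⧸ R, ∀ y ∈ Y, actX (R := R) g y ∈ Y := by
    intro x y hy u hu
    obtain ⟨g, rfl⟩ := QuotientGroup.mk_surjective x
    have h1 : actX (R := R) (g : G ⧸ R) y u = y ⟨g⁻¹ * u * g⁻¹⁻¹, hR.conj_mem u u.2 g⁻¹⟩ := rfl
    rw [h1]
    exact hy _ (conj_mem_fixedMod Q hn hu g)
  have hgY : ∀ y ∈ Y, y ≠ 1 → GoodAt (G ⧸ R) p (stab (actX (R := R)) y) := by
    intro y hy hy1
    refine S.good_hom y fun χ hχ hdvd => ?_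
    have hex : ∃ g ∈ (Q : Subgroup G), dualAct hR g y ≠ y := by
      by_contra hc
      push Not at hc
      exact hy1 (eq_one_of_fixed S hqr Q hy hc)
    obtain ⟨g, hg, hgy⟩ := hex
    have h1 := dvd_index_hom Q (sup_normal Q hn) hg hgy
    have h2 := Cfsg.Agent.Lib.Blk89.ItoMichler.deg_mul_index_dvd hR χ.2 (isIrr_linChar y) hχ
    exact hno_pq χ (hcop_pq.mul_dvd_of_dvd_of_dvd hdvd (h1.trans ((Dvd.intro _ rfl).trans h2)))
  have hpart := card_partition (actX (R := R)) Y hY hgY P₀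
  obtain ⟨m, hm'⟩ := IsPGroup.iff_card.mp S.hRr
  have h1 : D.index ∣ r ^ m := by
    rw [← hm']
    exact Subgroup.index_dvd_card D
  obtain ⟨a, -, ha⟩ := (Nat.dvd_prime_pow hrp).mp h1
  have h2 : Nat.card ↥(Y ⊓ fixW (actX (R := R)) (P₀ : Subgroup (G ⧸ R))) ∣ r ^ a := by
    rw [← ha, ← hcardY]
    exact Subgroup.card_dvd_of_le inf_le_left
  obtain ⟨b, -, hb⟩ := (Nat.dvd_prime_pow hrp).mp h2
  rw [hcardY, ha, hb] at hpart
  have hVr : IsPGroup r V := S.hRr.to_le S.hVR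
  obtain ⟨c, hc⟩ := IsPGroup.iff_card.mp hVr
  have hc0 : 0 < c := by
    rcases Nat.eq_zero_or_pos c with rfl | h0
    · exfalso
      apply hV1
      apply Subgroup.eq_bot_of_card_eq
      simpa using hc
    · exact h0
  have hW : Nat.card (V →* ℂˣ) = r ^ c := by
    have hcomm : ∀ a b : V, a * b = b * a := fun a b =>
      Subtype.ext (S.hcen a a.2 b (S.hVR b.2))
    rw [card_hom, commutator_eq_bot_of_comm hcomm, Subgroup.index_bot, hc]
  obtain ⟨d, hd0, -, -, hdeq⟩ := Cfsg.Agent.Lib.Palfy.Zee.exists_part_card S.actV hrp hW hc0 hgp P₀ hP₀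
  have hn2 := Cfsg.Agent.Lib.Palfy.Zee.two_le_card_sylow P₀ hP₀
  have hac : c < a := by
    rw [hc, ha] at hlt
    exact (Nat.pow_lt_pow_iff_right hrp.one_lt).mp hlt
  have hb0 : 0 < b := by
    rcases Nat.eq_zero_or_pos b with rfl | h0
    · exfalso
      have h3 : 2 ≤ r ^ a := hrp.two_le.trans (Nat.le_self_pow (by omega) r)
      rw [pow_zero, Nat.sub_self, Nat.mul_zero, Nat.zero_add] at hpart
      omega
    · exact h0
  exact arith hrp hpart hdeq hb0 hd0 hn2 (by omega)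


end Cfsg.Agent.Lib.Palfy.CaseB2
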