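import Cfsg.Agent.Lib.Palfy.Field
import Cfsg.Agent.Lib.FusionTheory.CoprimeAut
import Cfsg.Agent.Lib.CharP.Basic

/-!
# A Sylow subgroup centralizing the centre of a normal `s`-subgroup centralizes it
-/

set_option autoImplicit false
set_option linter.unusedSectionVars false
set_option linter.unusedVariables false

namespace Cfsg.Agent.Lib.Palfy.Center

open scoped Pointwise
open Cfsg.Agent.Lib.Palfy.Mod Cfsg.Agent.Lib.Palfy.Uniq Cfsg.Agent.Lib.Palfy.Field Subgroup
open Cfsg.Agent.Lib.FusionTheory.CoprimeAut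

universe u v

/-- A coprime element centralizing all elements of small exponent centralizes. -/
theorem commute_of_fix_small {Γ : Type*} [Group Γ] [Finite Γ] {s : ℕ} [Fact s.Prime] {C : Subgroup Γ}
    (hC : IsPGroup s C) {a : Γ} (haC : ∀ c ∈ C, a * c * a⁻¹ ∈ C) (hord : (orderOf a).Coprime s)
    {N : ℕ} (hN : smallExp s ∣ N) (hfix : ∀ c ∈ C, c ^ N = 1 → a * c = c * a) :
    ∀ c ∈ C, a * c = c * a := by
  classical
  let f : C → C := fun c => ⟨a * c * a⁻¹, haC c c.2⟩
  have hfinj : Function.Injective f := by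
    intro c d h
    have h1 : a * (c : Γ) * a⁻¹ = a * (d : Γ) * a⁻¹ := congrArg Subtype.val h
    exact Subtype.ext (by simpa using h1)
  have hfbij : Function.Bijective f := Finite.injective_iff_bijective.mp hfinj
  let f' : C →* C :=
    { toFun := f
      map_one' := Subtype.ext (by simp [f])
      map_mul' := fun c d => Subtype.ext (by simp [f, mul_assoc]) }
  let β : MulAut C := MulEquiv.ofBijective f' hfbij
  have hβ : ∀ c : C, ((β c : C) : Γ) = a * c * a⁻¹ := fun c => rfl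
  by_cases h1 : β = 1
  · intro c hc
    have h2 := hβ ⟨c, hc⟩
    rw [h1] at h2
    have h3 : c = a * c * a⁻¹ := h2
    calc a * c = a * c * a⁻¹ * a := by group
      _ = c * a := by rw [← h3]
  exfalso
  -- the order of β
  have hpow : ∀ (k : ℕ) (c : C), (((β ^ k) c : C) : Γ) = a ^ k * c * (a ^ k)⁻¹ := by
    intro k
    induction k with
    | zero => intro c; simp
    | succ k ih =>
      intro c
      rw [pow_succ, MulAut.mul_apply, ih, hβ, pow_succ]
      group
  have hβord : orderOf β ∣ orderOf a := by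
    apply orderOf_dvd_of_pow_eq_one
    ext c
    rw [hpow, pow_orderOf_eq_one]
    simp
  let A : Subgroup (MulAut C) := zpowers β
  have hcop : (Nat.card A).Coprime s := by
    rw [Nat.card_zpowers]
    exact Nat.Coprime.coprime_dvd_left hβord hord
  obtain ⟨D, hDinv, hDc, hDne, hDexp⟩ := exists_small_invariant hC A hcop
    ⟨β, mem_zpowers β, h1⟩
  apply hDne
  rw [← hDc]
  rw [eq_bot_iff]
  apply commAut_le
  intro γ hγ u hu
  -- β fixes u
  have hbu : β u = u := by
    apply Subtype.ext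
    rw [hβ]
    have h2 : (u : Γ) ^ N = 1 := by
      obtain ⟨m, hm⟩ := hN
      have h3 : (u : C) ^ smallExp s = 1 := hDexp u hu
      have h4 : (u : Γ) ^ smallExp s = 1 := by
        have := congrArg Subtype.val h3
        simpa using this
      rw [hm, pow_mul, h4, one_pow]
    have h5 := hfix u u.2 h2
    rw [h5]
    simp
  obtain ⟨k, rfl⟩ := mem_zpowers_iff.mp hγ
  have h6 : (β ^ k) u = u := by
    have hmem : β ∈ MulAction.stabilizer (MulAut C) u := hbu
    exact (MulAction.stabilizer (MulAut C) u).zpow_mem hmem k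
  rw [h6, inv_mul_cancel]
  exact Subgroup.one_mem _

variable {H : Type u} [Group H] [Finite H] {M : Type v} [AddCommGroup M] [DistribMulAction H M]

/-- The standing hypotheses for homogeneity. -/
structure Good (H : Type u) [Group H] (M : Type v) [AddCommGroup M] [DistribMulAction H M]
    (p : ℕ) [Fact p.Prime] : Prop where
  hU : UniqSyl H M p
  hodd : p ≠ 2
  hdvd : p ∣ Nat.card H
  hirr : ∀ W : AddSubgroup M, (∀ g : H, ∀ w ∈ W, g • w ∈ W) → W = ⊥ ∨ W = ⊤

variable [Finite M] [FaithfulSMul H M] [Nontrivial M] {p : ℕ} [Fact p.Prime]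

/-- Abelian normal subgroups act faithfully on minimal invariant subgroups. -/
theorem exists_vec_fix (hG : Good H M p) {B Z : Subgroup H} (hZ : Z.Normal) (hZB : Z ≤ B)
    (hc : ∀ a ∈ B, ∀ b ∈ B, a * b = b * a) (hexp : ∀ b ∈ B, b ^ Nat.card Z = 1) :
    ∃ v : M, v ≠ 0 ∧ ∀ b ∈ B, ∃ z ∈ Z, b • v = z • v := by
  obtain ⟨U₀, -, hU₀⟩ := exists_minInv_le (X := B) (U := (⊤ : AddSubgroup M))
    (fun _ _ _ _ => AddSubgroup.mem_top _) top_ne_bot
  have hZinv : IsInv Z U₀ := fun z hz u hu => hU₀.inv z (hZB hz) u hu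
  obtain ⟨U', hU'le, hU'⟩ := exists_minInv_le hZinv hU₀.ne
  have hf : ∀ z ∈ Z, (∀ u ∈ U₀, z • u = u) → z = 1 := by
    intro z hz hfix
    exact eq_one_of_fix hG.hU hG.hodd hG.hdvd hG.hirr hZ hU' hz (fun u hu => hfix u (hU'le hu))
  obtain ⟨⟨v, hv⟩, hv0'⟩ := (AddSubgroup.ne_bot_iff_exists_ne_zero).mp hU₀.ne
  refine ⟨v, fun h => hv0' (Subtype.ext h), ?_⟩
  intro b hb
  obtain ⟨z, hz, hzu⟩ := exists_mem_fix hU₀ hZB hc hf Nat.card_pos rfl hexp hb
  exact ⟨z, hz, hzu v hv⟩

/-- The Sylow subgroup fixing such a vector centralizes `B`. -/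
theorem commute_B {u : ℕ} [Fact u.Prime] (hUu : UniqSyl H M u) {B Z S₀ : Subgroup H} (hZB : Z ≤ B)
    (hBS : B ≤ S₀) (hS₀ : S₀.Normal) (hcop : (Nat.card S₀).Coprime u) {v : M} (hv0 : v ≠ 0)
    (hvB : ∀ b ∈ B, ∃ z ∈ Z, b • v = z • v) {P : Sylow u H}
    (hP : (P : Subgroup H) ≤ MulAction.stabilizer H v)
    (hZc : ∀ x ∈ (P : Subgroup H), ∀ z ∈ Z, x * z = z * x) {b y : H} (hb : b ∈ B)
    (hy : y ∈ (P : Subgroup H)) : y * b = b * y := by
  obtain ⟨z, hz, hbz⟩ := hvB b hb
  have h1 : (z⁻¹ * b) • v = v := by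
    rw [mul_smul, hbz, inv_smul_smul]
  have h2 : z⁻¹ * b ∈ S₀ := S₀.mul_mem (S₀.inv_mem (hBS (hZB hz))) (hBS hb)
  have h3 := commute_of_fix hUu hS₀ hcop hv0 hP h2 h1 hy
  have h4 := hZc y hy z hz
  calc y * b = y * z * (z⁻¹ * b) := by group
    _ = z * y * (z⁻¹ * b) := by rw [h4]
    _ = z * (y * (z⁻¹ * b)) := by group
    _ = z * ((z⁻¹ * b) * y) := by rw [← h3]
    _ = b * y := by group

/-- The centre of a normal subgroup, inside the group. -/
def zc (S : Subgroup H) : Subgroup H := S ⊓ centralizer (S : Set H)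

omit [Finite H] [Finite M] [FaithfulSMul H M] [Nontrivial M] in
theorem zc_le (S : Subgroup H) : zc S ≤ S := inf_le_left

omit [Finite H] [Finite M] [FaithfulSMul H M] [Nontrivial M] in
theorem zc_comm (S : Subgroup H) {a b : H} (ha : a ∈ zc S) (hb : b ∈ S) : a * b = b * a :=
  (Subgroup.mem_centralizer_iff.mp ha.2 b hb).symm

omit [Finite H] [Finite M] [FaithfulSMul H M] [Nontrivial M] in
theorem zc_normal {S : Subgroup H} (hS : S.Normal) : (zc S).Normal := by
  refine ⟨fun a ha g => ⟨hS.conj_mem a ha.1 g, Subgroup.mem_centralizer_iff.mpr ?_⟩⟩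
  intro b hb
  have h1 : g⁻¹ * b * g ∈ S := by simpa using hS.conj_mem b hb g⁻¹
  have h2 := zc_comm S ha h1
  calc b * (g * a * g⁻¹) = g * ((g⁻¹ * b * g) * a) * g⁻¹ := by group
    _ = g * (a * (g⁻¹ * b * g)) * g⁻¹ := by rw [h2]
    _ = g * a * g⁻¹ * b := by group

/-- **Key lemma.** A Sylow `u`-subgroup centralizing the centre of a normal `s`-subgroup `S₀` centralizes
`S₀`, if `s` is odd or the centre has order at least `4`. -/
theorem sylow_commute_of_center (hG : Good H M p) {u s : ℕ} [Fact u.Prime] [Fact s.Prime]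
    (hUu : UniqSyl H M u) (hus : u ≠ s) {S₀ : Subgroup H} (hS₀ : S₀.Normal) (hsg : IsPGroup s S₀)
    (hsmall : smallExp s ∣ Nat.card (zc S₀))
    (hZc : ∀ P : Sylow u H, ∀ x ∈ (P : Subgroup H), ∀ z ∈ zc S₀, x * z = z * x) :
    ∀ P : Sylow u H, ∀ x ∈ (P : Subgroup H), ∀ y ∈ S₀, x * y = y * x := by
  classical
  set Z := zc S₀ with hZdef
  set n := Nat.card Z with hn
  have hZn : Z.Normal := zc_normal hS₀
  have hcop : (Nat.card S₀).Coprime u := by
    obtain ⟨k, hk⟩ := IsPGroup.iff_card.mp hsg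
    rw [hk]
    exact Nat.Coprime.pow_left k ((Nat.coprime_primes Fact.out Fact.out).mpr hus.symm)
  -- the maximal B
  let 𝓑 : Subgroup H → Prop := fun B =>
    Z ≤ B ∧ B ≤ S₀ ∧ (∀ a ∈ B, ∀ b ∈ B, a * b = b * a) ∧ ∀ b ∈ B, b ^ n = 1
  have hZ𝓑 : 𝓑 Z := by
    refine ⟨le_rfl, zc_le S₀, ?_, ?_⟩
    · intro a ha b hb
      exact zc_comm S₀ ha hb.1
    · intro b hb
      have := pow_card_eq_one' (x := (⟨b, hb⟩ : Z))
      exact congrArg Subtype.val this
  obtain ⟨B, hB⟩ := exists_maximal_of_wellFoundedGT 𝓑 ⟨Z, hZ𝓑⟩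
  obtain ⟨hZB, hBS, hBc, hBe⟩ := hB.1
  obtain ⟨v, hv0, hvB⟩ := exists_vec_fix hG hZn hZB hBc hBe
  obtain ⟨P₀, hP₀, -⟩ := hUu v hv0
  have hxB : ∀ x ∈ (P₀ : Subgroup H), ∀ b ∈ B, x * b = b * x := by
    intro x hx b hb
    exact commute_B hUu hZB hBS hS₀ hcop hv0 hvB hP₀ (hZc P₀) hb hx
  have hord : ∀ x ∈ (P₀ : Subgroup H), (orderOf x).Coprime s := by
    intro x hx
    obtain ⟨k, hk⟩ := (IsPGroup.iff_orderOf.mp P₀.isPGroup') ⟨x, hx⟩
    have h5 : orderOf x = u ^ k := by
      rw [← Subgroup.orderOf_mk x hx]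
      exact hk
    rw [h5]
    exact Nat.Coprime.pow_left k ((Nat.coprime_primes Fact.out Fact.out).mpr hus)
  have hP₀S : ∀ x ∈ (P₀ : Subgroup H), ∀ y ∈ S₀, x * y = y * x := by
    intro x hx
    -- centralizer of B in S₀
    let C₂ : Subgroup H := S₀ ⊓ centralizer (B : Set H)
    have hC₂p : IsPGroup s C₂ := hsg.to_le inf_le_left
    have hinv : ∀ c ∈ C₂, x * c * x⁻¹ ∈ C₂ := by
      intro c hc
      refine ⟨hS₀.conj_mem c hc.1 x, Subgroup.mem_centralizer_iff.mpr ?_⟩
      intro b hb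
      have h1 := hxB x hx b hb
      have h2 := Subgroup.mem_centralizer_iff.mp hc.2 b hb
      have h3 : x⁻¹ * b = b * x⁻¹ := by
        calc x⁻¹ * b = x⁻¹ * (b * x) * x⁻¹ := by group
          _ = x⁻¹ * (x * b) * x⁻¹ := by rw [h1]
          _ = b * x⁻¹ := by group
      calc b * (x * c * x⁻¹) = x * (b * c) * x⁻¹ := by
            rw [← mul_assoc, ← mul_assoc, ← h1]; group
        _ = x * (c * b) * x⁻¹ := by rw [h2]
        _ = x * c * (b * x⁻¹) := by group
        _ = x * c * (x⁻¹ * b) := by rw [h3]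
        _ = x * c * x⁻¹ * b := by group
    have hfix : ∀ c ∈ C₂, c ^ n = 1 → x * c = c * x := by
      intro c hc hcn
      -- maximality of B
      have hcomm : ∀ b ∈ B, b * c = c * b := fun b hb =>
        Subgroup.mem_centralizer_iff.mp hc.2 b hb
      have hcommz : ∀ b ∈ B, ∀ i : ℤ, b * c ^ i = c ^ i * b := fun b hb i =>
        (Commute.zpow_right (hcomm b hb) i)
      let B' : Subgroup H :=
        { carrier := {g | ∃ b ∈ B, ∃ i : ℤ, g = b * c ^ i}
          one_mem' := ⟨1, B.one_mem, 0, by simp⟩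
          mul_mem' := by
            rintro _ _ ⟨b, hb, i, rfl⟩ ⟨b', hb', j, rfl⟩
            refine ⟨b * b', B.mul_mem hb hb', i + j, ?_⟩
            rw [zpow_add, mul_assoc, mul_assoc, ← mul_assoc (c ^ i), ← hcommz b' hb' i]
            simp [mul_assoc]
          inv_mem' := by
            rintro _ ⟨b, hb, i, rfl⟩
            refine ⟨b⁻¹, B.inv_mem hb, -i, ?_⟩
            rw [mul_inv_rev, zpow_neg]
            exact ((Commute.zpow_right (hcomm b hb) i).inv_inv).eq.symm }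
      have hBB' : B ≤ B' := fun b hb => ⟨b, hb, 0, by simp⟩
      have hcB' : c ∈ B' := ⟨1, B.one_mem, 1, by simp⟩
      have hB'𝓑 : 𝓑 B' := by
        refine ⟨hZB.trans hBB', ?_, ?_, ?_⟩
        · rintro _ ⟨b, hb, i, rfl⟩
          exact S₀.mul_mem (hBS hb) (S₀.zpow_mem hc.1 i)
        · rintro _ ⟨b, hb, i, rfl⟩ _ ⟨b', hb', j, rfl⟩
          have e1 := hBc b hb b' hb'
          have e2 : b * c ^ j = c ^ j * b := hcommz b hb j
          have e3 : b' * c ^ i = c ^ i * b' := hcommz b' hb' i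
          have e4 : c ^ i * c ^ j = c ^ j * c ^ i := (Commute.refl c).zpow_zpow i j
          calc b * c ^ i * (b' * c ^ j) = b * (c ^ i * b') * c ^ j := by group
            _ = b * (b' * c ^ i) * c ^ j := by rw [e3]
            _ = (b * b') * (c ^ i * c ^ j) := by group
            _ = (b' * b) * (c ^ j * c ^ i) := by rw [e1, e4]
            _ = b' * (b * c ^ j) * c ^ i := by group
            _ = b' * (c ^ j * b) * c ^ i := by rw [e2]
            _ = b' * c ^ j * (b * c ^ i) := by group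
        · rintro _ ⟨b, hb, i, rfl⟩
          have e : Commute b (c ^ i) := Commute.zpow_right (hcomm b hb) i
          rw [e.mul_pow, hBe b hb, one_mul, ← zpow_natCast, ← zpow_mul, mul_comm, zpow_mul,
            zpow_natCast, hcn, one_zpow]
      have hle : B' ≤ B := hB.2 hB'𝓑 hBB'
      exact hxB x hx c (hle hcB')
    have hC₂ : ∀ c ∈ C₂, x * c = c * x :=
      commute_of_fix_small hC₂p hinv (hord x hx) hsmall hfix
    have hBp : IsPGroup s B := hsg.to_le hBS
    exact Cfsg.Agent.Lib.CharP.Basic.thompson_AB (p := s) S₀ B hsg hBp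
      (fun r hr y hy => hS₀.conj_mem y hy r) x (fun y hy => hS₀.conj_mem y hy x)
      (fun r hr => hxB x hx r hr) (hord x hx)
      (fun y hy hyc => hC₂ y ⟨hy, Subgroup.mem_centralizer_iff.mpr (fun b hb => (hyc b hb))⟩)
  -- conjugates
  intro P x hx y hy
  obtain ⟨g, rfl⟩ := MulAction.exists_smul_eq H P₀ P
  have hx' : g⁻¹ * x * g ∈ (P₀ : Subgroup H) := by
    have h1 : x ∈ MulAut.conj g • (P₀ : Subgroup H) := by
      rw [← Sylow.coe_subgroup_smul]
      exact hx
    have h2 := (Subgroup.mem_pointwise_smul_iff_inv_smul_mem).mp h1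
    simpa [MulAut.smul_def, MulAut.conj_apply, mul_assoc] using h2
  have hy' : g⁻¹ * y * g ∈ S₀ := by simpa using hS₀.conj_mem y hy g⁻¹
  have h3 := hP₀S _ hx' _ hy'
  have h4 : g * ((g⁻¹ * x * g) * (g⁻¹ * y * g)) * g⁻¹ = g * ((g⁻¹ * y * g) * (g⁻¹ * x * g)) * g⁻¹ := by
    rw [h3]
  simpa [mul_assoc] using h4

end Cfsg.Agent.Lib.Palfy.Center
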