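import Cfsg.Agent.Lib.Palfy.Red
import Cfsg.Agent.Lib.CharDeep.GallagherExt

/-!
# Duals of abelian groups; degrees over an inertia group; the application of Theorem Z
-/

set_option autoImplicit false
set_option linter.unusedSectionVars false
set_option linter.unusedVariables false

namespace Cfsg.Agent.Lib.Palfy.Dual

open scoped Pointwise ComplexConjugate commutatorElement
open Cfsg Subgroup
open Cfsg.Agent.Lib.Char.Basic Cfsg.Agent.Lib.Char.Ortho Cfsg.Agent.Lib.Char.Complete
  Cfsg.Agent.Lib.Char.Clifford Cfsg.Agent.Lib.Char.CliffordCorr Cfsg.Agent.Lib.Char.Conj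
  Cfsg.Agent.Lib.Char.Degree Cfsg.Agent.Lib.Char.Linear Cfsg.Agent.Lib.CharDeg.SmallDegree
  Cfsg.Agent.Lib.CharDeg.ItoMichlerSolv Cfsg.Agent.Lib.Solvable.Basic
  Cfsg.Agent.Lib.Palfy.Uniq Cfsg.Agent.Lib.Palfy.ThmZ Cfsg.Agent.Lib.Palfy.Red

universe u v

section abstract

variable {A : Type v} [Group A] [Finite A]

theorem sep (hc : ∀ a b : A, a * b = b * a) {a : A} (ha : a ≠ 1) : ∃ ν : A →* ℂˣ, ν a ≠ 1 := by
  letI : CommGroup A := { (inferInstance : Group A) with mul_comm := hc }
  exact CommGroup.exists_apply_ne_one_of_hasEnoughRootsOfUnity A ℂ ha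

theorem dual_card (hc : ∀ a b : A, a * b = b * a) : Nat.card (A →* ℂˣ) = Nat.card A := by
  letI : CommGroup A := { (inferInstance : Group A) with mul_comm := hc }
  exact CommGroup.card_monoidHom_of_hasEnoughRootsOfUnity A ℂ

theorem dual_finite (hc : ∀ a b : A, a * b = b * a) : Finite (A →* ℂˣ) := by
  have h1 := dual_card hc
  apply Nat.finite_of_card_ne_zero
  rw [h1]
  exact Nat.card_pos.ne'

theorem dual_annihilator (hc : ∀ a b : A, a * b = b * a) (Φ : Subgroup (A →* ℂˣ))
    (h : ∀ a : A, (∀ φ ∈ Φ, φ a = 1) → a = 1) : Φ = ⊤ := by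
  letI : CommGroup A := { (inferInstance : Group A) with mul_comm := hc }
  let iso := CommGroup.subgroupOrderIsoSubgroupMonoidHom A ℂ
  have h1 : iso.symm (OrderDual.toDual Φ) = ⊥ := by
    rw [eq_bot_iff]
    intro a ha
    rw [CommGroup.mem_subgroupOrderIsoSubgroupMonoidHom_symm_iff] at ha
    rw [Subgroup.mem_bot]
    exact h a ha
  have h2 : iso ⊥ = OrderDual.toDual Φ := by
    rw [← h1, OrderIso.apply_symm_apply]
  rw [eq_top_iff]
  intro φ _
  have h3 : φ ∈ (iso ⊥).ofDual := by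
    rw [CommGroup.mem_subgroupOrderIsoSubgroupMonoidHom_iff]
    intro g hg
    rw [Subgroup.mem_bot] at hg
    rw [hg, map_one]
  rw [h2] at h3
  exact h3

/-- Separation modulo a subgroup containing the commutators. -/
theorem sep_quot (B : Subgroup A) (hB : ∀ a b : A, a * b * a⁻¹ * b⁻¹ ∈ B) {y : A} (hy : y ∉ B) :
    ∃ φ : A →* ℂˣ, (∀ b ∈ B, φ b = 1) ∧ φ y ≠ 1 := by
  haveI hn : B.Normal := ⟨fun b hb g => by
    have h1 := hB g b
    have h2 := B.mul_mem h1 hb
    simpa [mul_assoc] using h2⟩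
  have hc : ∀ s t : A ⧸ B, s * t = t * s := by
    intro s t
    induction s using QuotientGroup.induction_on with
    | H s =>
    induction t using QuotientGroup.induction_on with
    | H t =>
    rw [← QuotientGroup.mk_mul, ← QuotientGroup.mk_mul, QuotientGroup.eq]
    have h2 := hB t⁻¹ s⁻¹
    convert h2 using 1
    group
  have hne : (y : A ⧸ B) ≠ 1 := fun h => hy ((QuotientGroup.eq_one_iff y).mp h)
  obtain ⟨ν, hν⟩ := sep hc hne
  refine ⟨ν.comp (QuotientGroup.mk' B), ?_, hν⟩
  intro b hb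
  have h0 : QuotientGroup.mk' B b = 1 := (QuotientGroup.eq_one_iff b).mpr hb
  rw [MonoidHom.comp_apply, h0, map_one]

/-- Extension of a linear character to an overgroup, if the commutators are in its kernel. -/
theorem exists_ext_lin (B : Subgroup A) (μ : B →* ℂˣ)
    (hB : ∀ a b : A, ∃ h : a * b * a⁻¹ * b⁻¹ ∈ B, μ ⟨_, h⟩ = 1) :
    ∃ ζ : A →* ℂˣ, ∀ b : B, ζ b = μ b := by
  classical
  -- the kernel of `μ`, as a subgroup of `A`
  let K : Subgroup A := μ.ker.map B.subtype
  have hKB : K ≤ B := by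
    rintro _ ⟨x, -, rfl⟩
    exact x.2
  have hmemK : ∀ a b : A, a * b * a⁻¹ * b⁻¹ ∈ K := by
    intro a b
    obtain ⟨h, h'⟩ := hB a b
    exact ⟨⟨_, h⟩, h', rfl⟩
  haveI hn : K.Normal := ⟨fun b hb g => by
    have h1 := hmemK g b
    have h2 := K.mul_mem h1 hb
    simpa [mul_assoc] using h2⟩
  have hc : ∀ s t : A ⧸ K, s * t = t * s := by
    intro s t
    induction s using QuotientGroup.induction_on with
    | H s =>
    induction t using QuotientGroup.induction_on with
    | H t =>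
    rw [← QuotientGroup.mk_mul, ← QuotientGroup.mk_mul, QuotientGroup.eq]
    have h2 := hmemK t⁻¹ s⁻¹
    convert h2 using 1
    group
  letI : CommGroup (A ⧸ K) := { (inferInstance : Group (A ⧸ K)) with mul_comm := hc }
  let ψ : B →* (A ⧸ K) := (QuotientGroup.mk' K).comp B.subtype
  have hker : ψ.ker ≤ μ.ker := by
    intro x hx
    have h1 : ((x : A) : A ⧸ K) = 1 := hx
    obtain ⟨y, hy, hye⟩ := (QuotientGroup.eq_one_iff _).mp h1
    have : y = x := Subtype.ext hye
    rwa [← this]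
  have hsurj : Function.Surjective ψ.rangeRestrict := MonoidHom.rangeRestrict_surjective ψ
  have hker' : ψ.rangeRestrict.ker ≤ μ.ker := by
    rw [MonoidHom.ker_rangeRestrict]
    exact hker
  let mub : ψ.range →* ℂˣ := MonoidHom.liftOfSurjective ψ.rangeRestrict hsurj ⟨μ, hker'⟩
  have hmub : ∀ x : B, mub (ψ.rangeRestrict x) = μ x := fun x =>
    MonoidHom.liftOfRightInverse_comp_apply _ _ _ _ x
  obtain ⟨ζ, hζ⟩ := MonoidHom.domRestrict_surjective (G := A ⧸ K) (M := ℂ) ψ.range mub
  refine ⟨ζ.comp (QuotientGroup.mk' K), ?_⟩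
  intro b
  rw [← hmub b, ← hζ]
  rfl

end abstract

section deg

variable {G : Type u} [Group G] [Fintype G]

/-- **Clifford and Gallagher.** -/
theorem exists_irr_of_ext {R₀ : Subgroup G} [Fintype R₀] (hR : R₀.Normal) {θ : R₀ → ℂ}
    (hθ : IsIrrCharacter R₀ θ) {T : Subgroup G} [Fintype T] (hRT : R₀ ≤ T) (hT : T = inertia hR θ)
    {χ₀ : T → ℂ} (hχ₀ : IsIrrCharacter T χ₀) (hres : res hRT χ₀ = θ) {X : Type u} [Group X] [Finite X]
    (f : T →* X) (hf : Function.Surjective f) (hfk : ∀ r : R₀, f ⟨r, hRT r.2⟩ = 1) (β : IrrCharacter X) :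
    ∃ χ : IrrCharacter G, classInner (fun n : R₀ => (χ : G → ℂ) n) θ ≠ 0 ∧
      charDegree (χ : G → ℂ) = T.index * charDegree θ * charDegree (β : X → ℂ) := by
  classical
  let R' : Subgroup T := R₀.subgroupOf T
  haveI : R₀.Normal := hR
  haveI : R'.Normal := inferInstance
  letI : Fintype R' := Fintype.ofFinite R'
  have hres' : IsIrrCharacter R' (fun n : R' => χ₀ n) := by
    let e : R' ≃* R₀ := Subgroup.subgroupOfEquivOfLe hRT
    have he : (fun n : R' => χ₀ n) = θ ∘ e := by
      funext n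
      have := congrFun hres (e n)
      rw [Function.comp_apply, ← this]
      rfl
    rw [he]
    exact isIrrCharacter_comp_mulEquiv e hθ
  let β' : T → ℂ := (β : X → ℂ) ∘ f
  have hβ' : IsIrrCharacter T β' := Cfsg.Agent.Lib.Char.Linear.isIrrCharacter_comp f hf β.2
  have hleft : Cfsg.Agent.Lib.CharDeep.GallagherExt.LeftInv R' β' := by
    intro n g
    have h1 : f (n : T) = 1 := hfk ⟨_, n.2⟩
    change (β : X → ℂ) (f ((n : T) * g)) = (β : X → ℂ) (f g)
    rw [map_mul, h1, one_mul]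
  have hψ : IsIrrCharacter T (χ₀ * β') :=
    Cfsg.Agent.Lib.CharDeep.GallagherExt.isIrr_mul R' (isCharacter_of_isIrrCharacter hχ₀) hres' hβ' hleft
  have hres2 : res hRT (χ₀ * β') = ((β : X → ℂ) 1) • θ := by
    funext r
    have h1 : f ⟨r, hRT r.2⟩ = 1 := hfk r
    have h2 : res hRT χ₀ r = θ r := congrFun hres r
    change χ₀ ⟨r, hRT r.2⟩ * (β : X → ℂ) (f ⟨r, hRT r.2⟩) = (β : X → ℂ) 1 * θ r
    rw [h1, mul_comm, ← h2]
  have hβ1 : (β : X → ℂ) 1 ≠ 0 := irr_one_ne_zero β.2
  have hcon : classInner (res hRT (χ₀ * β')) θ ≠ 0 := by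
    rw [hres2]
    have h3 : classInner (((β : X → ℂ) 1) • θ) θ = (β : X → ℂ) 1 * classInner θ θ := by
      unfold classInner
      simp only [Pi.smul_apply, smul_eq_mul]
      have h4 : ∑ g : R₀, (β : X → ℂ) 1 * θ g * conj (θ g) =
          (β : X → ℂ) 1 * ∑ g : R₀, θ g * conj (θ g) := by
        rw [Finset.mul_sum]
        exact Finset.sum_congr rfl fun g _ => by ring
      rw [h4]
      ring
    rw [h3, classInner_self_of_isIrr hθ, mul_one]
    exact hβ1
  obtain ⟨hχ, hχ2⟩ := isIrrCharacter_indFun_of_lies_over hR hRT hθ hT hψ hcon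
  refine ⟨⟨_, hχ⟩, ?_, ?_⟩
  · change classInner (fun n : R₀ => indFun T (χ₀ * β') n) θ ≠ 0
    rw [hχ2]
    exact hcon
  · apply charDegree_eq_of_eq_natCast
    change indFun T (χ₀ * β') 1 = _
    rw [Cfsg.Agent.Lib.Char.Induced.indFun_one]
    have h5 : (χ₀ * β') 1 = (charDegree θ : ℂ) * (charDegree (β : X → ℂ) : ℂ) := by
      have h6 : χ₀ 1 = θ 1 := by
        have := congrFun hres 1
        rw [← this]
        rfl
      change χ₀ 1 * (β : X → ℂ) (f 1) = _
      rw [map_one, h6, charDegree_natCast (isCharacter_of_isIrrCharacter hθ),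
        charDegree_natCast (isCharacter_of_isIrrCharacter β.2)]
    rw [h5]
    push_cast
    ring

omit [Fintype G] in
/-- The inertia group of a linear character. -/
theorem inertia_lin [Finite G] {A : Subgroup G} (hA : A.Normal) (ν : A →* ℂˣ) :
    haveI := hA
    inertia hA (fun a : A => ((ν a : ℂˣ) : ℂ)) = stabHom A ν := by
  haveI := hA
  ext g
  constructor
  · intro hg a
    have h1 := congrFun hg a
    simp only [conjOn_apply] at h1
    exact Units.ext h1
  · intro hg
    funext a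
    have h1 := hg a
    simp only [conjOn_apply]
    exact congrArg Units.val h1

end deg

end Cfsg.Agent.Lib.Palfy.Dual
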