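import Cfsg.Agent.Lib.Palfy.Center

/-!
# Odd Sylow subgroups acting on a normal `2`-subgroup with centre of order `2`
-/

set_option autoImplicit false
set_option linter.unusedSectionVars false
set_option linter.unusedVariables false

namespace Cfsg.Agent.Lib.Palfy.Extra

open scoped Pointwise commutatorElement
open Cfsg.Agent.Lib.Palfy.Mod Cfsg.Agent.Lib.Palfy.Uniq Cfsg.Agent.Lib.Palfy.Field
  Cfsg.Agent.Lib.Palfy.Center Subgroup
open Cfsg.Agent.Lib.FusionTheory.CoprimeAut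

universe u v

section group

variable {H : Type u} [Group H]

/-- An element acting trivially modulo a centralized element of coprime order acts trivially. -/
theorem commute_of_quot [Finite H] {x c d : H} (h : x * c * x⁻¹ = c * d) (hd : x * d = d * x)
    (hcop : (orderOf x).Coprime (orderOf d)) : x * c = c * x := by
  have key : ∀ k : ℕ, x ^ k * c * (x ^ k)⁻¹ = c * d ^ k := by
    intro k
    induction k with
    | zero => simp
    | succ k ih =>
      have hc : Commute x d := hd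
      have e : x ^ (k + 1) * c * (x ^ (k + 1))⁻¹ = x * (x ^ k * c * (x ^ k)⁻¹) * x⁻¹ := by
        rw [pow_succ']
        group
      rw [e, ih]
      have e2 : x * (c * d ^ k) * x⁻¹ = (x * c * x⁻¹) * (x * d ^ k * x⁻¹) := by group
      rw [e2, h, (hc.pow_right k).eq, mul_inv_cancel_right, pow_succ', mul_assoc]
  have h1 := key (orderOf x)
  rw [pow_orderOf_eq_one] at h1
  simp only [one_mul, inv_one, mul_one] at h1
  have h2 : d ^ orderOf x = 1 := by
    have : c * d ^ orderOf x = c * 1 := by rw [← h1, mul_one]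
    exact mul_left_cancel this
  have h3 : orderOf d ∣ orderOf x := orderOf_dvd_of_pow_eq_one h2
  have h4 : orderOf d = 1 := by
    have := Nat.Coprime.eq_one_of_dvd hcop.symm h3
    exact this
  have h5 : d = 1 := orderOf_eq_one_iff.mp h4
  rw [h5, mul_one] at h
  calc x * c = x * c * x⁻¹ * x := by group
    _ = c * x := by rw [h]

/-- Extending an abelian subgroup of exponent dividing `n`. -/
theorem exists_ext {B : Subgroup H} {c : H} {n : ℕ} (hBc : ∀ a ∈ B, ∀ b ∈ B, a * b = b * a)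
    (hcomm : ∀ b ∈ B, b * c = c * b) (hBe : ∀ b ∈ B, b ^ n = 1) (hcn : c ^ n = 1) :
    ∃ B' : Subgroup H, B ≤ B' ∧ c ∈ B' ∧ (∀ a ∈ B', ∀ b ∈ B', a * b = b * a) ∧
      (∀ b ∈ B', b ^ n = 1) ∧ ∀ S₀ : Subgroup H, B ≤ S₀ → c ∈ S₀ → B' ≤ S₀ := by
  have hcommz : ∀ b ∈ B, ∀ i : ℤ, b * c ^ i = c ^ i * b := fun b hb i =>
    (Commute.zpow_right (hcomm b hb) i)
  let B' : Subgroup H :=
    { carrier := {g | ∃ b ∈ B, ∃ i : ℤ, g = b * c ^ i}
      one_mem' := ⟨1, B.one_mem, 0, by simp⟩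
      mul_mem' := by
        rintro _ _ ⟨b, hb, i, rfl⟩ ⟨b', hb', j, rfl⟩
        refine ⟨b * b', B.mul_mem hb hb', i + j, ?_⟩
        rw [zpow_add, mul_assoc, mul_assoc, ← mul_assoc (c ^ i), ← hcommz b' hb' i]
        simp [mul_assoc]
      inv_mem' := by
        rintro _ ⟨b, hb, i, rfl⟩
        refine ⟨b⁻¹, B.inv_mem hb, -i, ?_⟩
        rw [mul_inv_rev, zpow_neg]
        exact ((Commute.zpow_right (hcomm b hb) i).inv_inv).eq.symm }
  refine ⟨B', fun b hb => ⟨b, hb, 0, by simp⟩, ⟨1, B.one_mem, 1, by simp⟩, ?_, ?_, ?_⟩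
  · rintro _ ⟨b, hb, i, rfl⟩ _ ⟨b', hb', j, rfl⟩
    have e1 := hBc b hb b' hb'
    have e2 : b * c ^ j = c ^ j * b := hcommz b hb j
    have e3 : b' * c ^ i = c ^ i * b' := hcommz b' hb' i
    have e4 : c ^ i * c ^ j = c ^ j * c ^ i := (Commute.refl c).zpow_zpow i j
    calc b * c ^ i * (b' * c ^ j) = b * (c ^ i * b') * c ^ j := by group
      _ = b * (b' * c ^ i) * c ^ j := by rw [e3]
      _ = (b * b') * (c ^ i * c ^ j) := by group
      _ = (b' * b) * (c ^ j * c ^ i) := by rw [e1, e4]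
      _ = b' * (b * c ^ j) * c ^ i := by group
      _ = b' * (c ^ j * b) * c ^ i := by rw [e2]
      _ = b' * c ^ j * (b * c ^ i) := by group
  · rintro _ ⟨b, hb, i, rfl⟩
    have e : Commute b (c ^ i) := Commute.zpow_right (hcomm b hb) i
    rw [e.mul_pow, hBe b hb, one_mul, ← zpow_natCast, ← zpow_mul, mul_comm, zpow_mul,
      zpow_natCast, hcn, one_zpow]
  · rintro S₀ hB hc _ ⟨b, hb, i, rfl⟩
    exact S₀.mul_mem (hB hb) (S₀.zpow_mem hc i)

/-- Conjugation as an automorphism of an invariant subgroup. -/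
theorem exists_conjAut [Finite H] {C : Subgroup H} {a : H} (haC : ∀ c ∈ C, a * c * a⁻¹ ∈ C) :
    ∃ β : MulAut C, (∀ c : C, ((β c : C) : H) = a * c * a⁻¹) ∧ orderOf β ∣ orderOf a := by
  let f : C → C := fun c => ⟨a * c * a⁻¹, haC c c.2⟩
  have hfinj : Function.Injective f := by
    intro c d h
    have h1 : a * (c : H) * a⁻¹ = a * (d : H) * a⁻¹ := congrArg Subtype.val h
    exact Subtype.ext (by simpa using h1)
  have hfbij : Function.Bijective f := Finite.injective_iff_bijective.mp hfinj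
  let f' : C →* C :=
    { toFun := f
      map_one' := Subtype.ext (by simp [f])
      map_mul' := fun c d => Subtype.ext (by simp [f, mul_assoc]) }
  let β : MulAut C := MulEquiv.ofBijective f' hfbij
  have hβ : ∀ c : C, ((β c : C) : H) = a * c * a⁻¹ := fun c => rfl
  refine ⟨β, hβ, ?_⟩
  have hpow : ∀ (k : ℕ) (c : C), (((β ^ k) c : C) : H) = a ^ k * c * (a ^ k)⁻¹ := by
    intro k
    induction k with
    | zero => intro c; simp
    | succ k ih =>
      intro c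
      rw [pow_succ, MulAut.mul_apply, ih, hβ, pow_succ]
      group
  apply orderOf_dvd_of_pow_eq_one
  ext c
  rw [hpow, pow_orderOf_eq_one]
  simp

/-- An element of odd order centralizes a cyclic `2`-subgroup which it normalizes. -/
theorem commute_cyclic_two [Finite H] {C : Subgroup H} (hcyc : IsCyclic C) (h2 : IsPGroup 2 C) {a : H}
    (haC : ∀ c ∈ C, a * c * a⁻¹ ∈ C) (hodd : Odd (orderOf a)) : ∀ c ∈ C, a * c = c * a := by
  classical
  obtain ⟨β, hβ, hord⟩ := exists_conjAut haC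
  obtain ⟨n, hn⟩ := IsPGroup.iff_card.mp h2
  have h1 : Nat.card (MulAut C) = Nat.totient (2 ^ n) := by
    rw [IsCyclic.card_mulAut, hn]
  have h2' : orderOf β ∣ Nat.totient (2 ^ n) := by
    rw [← h1]
    exact orderOf_dvd_natCard β
  have h3 : ∃ m, Nat.totient (2 ^ n) = 2 ^ m := by
    rcases n with _ | n
    · exact ⟨0, by simp⟩
    · refine ⟨n, ?_⟩
      rw [Nat.totient_prime_pow_succ Nat.prime_two]
      simp
  obtain ⟨m, hm⟩ := h3
  have h4 : (orderOf β).Coprime 2 := by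
    have : Odd (orderOf β) := Odd.of_dvd_nat hodd hord
    exact Nat.Coprime.symm (Nat.coprime_two_left.mpr this)
  have h5 : orderOf β = 1 := by
    rw [hm] at h2'
    exact Nat.Coprime.eq_one_of_dvd (Nat.Coprime.pow_right m h4) h2'
  have h6 : β = 1 := orderOf_eq_one_iff.mp h5
  intro c hc
  have h7 := hβ ⟨c, hc⟩
  rw [h6] at h7
  have h8 : c = a * c * a⁻¹ := h7
  calc a * c = a * c * a⁻¹ * a := by group
    _ = c * a := by rw [← h8]

end group

section second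

variable {H : Type u} [Group H]

/-- The second centre of `S`. -/
def T (S : Subgroup H) : Subgroup H where
  carrier := {a | a ∈ S ∧ ∀ b ∈ S, a * b * a⁻¹ * b⁻¹ ∈ zc S}
  one_mem' := ⟨S.one_mem, fun b _ => by simpa using (zc S).one_mem⟩
  mul_mem' := by
    rintro a₁ a₂ ⟨h₁, h₁'⟩ ⟨h₂, h₂'⟩
    refine ⟨S.mul_mem h₁ h₂, fun b hb => ?_⟩
    have h3 := h₂' b hb
    have h4 := h₁' b hb
    set ζ := a₂ * b * a₂⁻¹ * b⁻¹ with hζ
    have e1 : a₁ * ζ = ζ * a₁ := (zc_comm S h3 h₁).symm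
    have e2 : a₁ * a₂ * b * (a₁ * a₂)⁻¹ * b⁻¹ = ζ * (a₁ * b * a₁⁻¹ * b⁻¹) := by
      have e3 : a₁ * a₂ * b * (a₁ * a₂)⁻¹ * b⁻¹ = a₁ * ζ * b * a₁⁻¹ * b⁻¹ := by
        rw [hζ]; group
      rw [e3, e1]
      group
    rw [e2]
    exact (zc S).mul_mem h3 h4
  inv_mem' := by
    rintro a ⟨h₁, h₁'⟩
    refine ⟨S.inv_mem h₁, fun b hb => ?_⟩
    have h3 := h₁' b hb
    set ζ := a * b * a⁻¹ * b⁻¹ with hζ
    have e1 : ζ⁻¹ * a = a * ζ⁻¹ := zc_comm S ((zc S).inv_mem h3) h₁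
    have e2 : a⁻¹ * b * a⁻¹⁻¹ * b⁻¹ = a⁻¹ * (ζ⁻¹ * a) := by
      rw [hζ]; group
    rw [e2, e1]
    simpa using (zc S).inv_mem h3

theorem T_le (S : Subgroup H) : T S ≤ S := fun _ h => h.1

theorem zc_le_T (S : Subgroup H) : zc S ≤ T S := fun a ha =>
  ⟨ha.1, fun b hb => by
    have h := zc_comm S ha hb
    rw [h]
    simpa using (zc S).one_mem⟩

theorem T_normal {S : Subgroup H} (hS : S.Normal) : (T S).Normal := by
  refine ⟨fun a ha g => ⟨hS.conj_mem a ha.1 g, fun b hb => ?_⟩⟩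
  have h1 : g⁻¹ * b * g ∈ S := by simpa using hS.conj_mem b hb g⁻¹
  have h2 := ha.2 _ h1
  have h3 := (zc_normal hS).conj_mem _ h2 g
  convert h3 using 1
  group

/-- The data of the centre of order `2`. -/
structure ZData (S : Subgroup H) (z : H) : Prop where
  mem : z ∈ zc S
  ne : z ≠ 1
  eq : ∀ a ∈ zc S, a = 1 ∨ a = z
  sq : z * z = 1
  comm : ∀ g : H, g * z = z * g

theorem exists_zData {S : Subgroup H} (hS : S.Normal) (hZ2 : Nat.card (zc S) = 2) :
    ∃ z, ZData S z := by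
  have h := (Nat.card_eq_two_iff' (1 : zc S)).mp hZ2
  obtain ⟨y, hy, huniq⟩ := h
  have hne : (y : H) ≠ 1 := fun h => hy (Subtype.ext h)
  have heq : ∀ a ∈ zc S, a = 1 ∨ a = (y : H) := by
    intro a ha
    by_cases h1 : a = 1
    · exact Or.inl h1
    · right
      have := huniq ⟨a, ha⟩ (fun h => h1 (congrArg Subtype.val h))
      exact congrArg Subtype.val this
  refine ⟨y, y.2, hne, heq, ?_, ?_⟩
  · rcases heq _ ((zc S).mul_mem y.2 y.2) with h1 | h1
    · exact h1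
    · exfalso
      apply hne
      exact mul_eq_left.mp h1
  · intro g
    have h1 := (zc_normal hS).conj_mem _ y.2 g
    rcases heq _ h1 with h2 | h2
    · exfalso
      apply hne
      have h3 : g * (y : H) * g⁻¹ = g * 1 * g⁻¹ := by rw [h2]; group
      simpa using h3
    · calc g * (y : H) = g * y * g⁻¹ * g := by group
        _ = y * g := by rw [h2]

/-- A normal subgroup not contained in `zc S` meets the second centre outside `zc S`. -/
theorem exists_second {S K : Subgroup H} [Finite H] (h2 : IsPGroup 2 S)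
    (hK : ∀ k ∈ K, ∀ g ∈ S, k * g * k⁻¹ * g⁻¹ ∈ K) {k : H} (hkS : k ∈ S) (hkK : k ∈ K)
    (hkZ : k ∉ zc S) : ∃ k' ∈ K, k' ∈ S ∧ k' ∉ zc S ∧ ∀ g ∈ S, k' * g * k'⁻¹ * g⁻¹ ∈ zc S := by
  haveI : Fact (Nat.Prime 2) := ⟨Nat.prime_two⟩
  haveI : Group.IsNilpotent S := h2.isNilpotent
  obtain ⟨n₀, hn₀⟩ := (Subgroup.isNilpotent_iff_lowerCentralSeries S).mp inferInstance
  have key : ∀ m n : ℕ, n₀ ≤ n + m → ∀ k : H, k ∈ S → k ∈ S.lowerCentralSeries n → k ∈ K →
      k ∉ zc S → ∃ k' ∈ K, k' ∈ S ∧ k' ∉ zc S ∧ ∀ g ∈ S, k' * g * k'⁻¹ * g⁻¹ ∈ zc S := by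
    intro m
    induction m with
    | zero =>
      intro n hn k hkS hk hkK hkZ
      exfalso
      have h3 : S.lowerCentralSeries n ≤ S.lowerCentralSeries n₀ :=
        Subgroup.lowerCentralSeries_antitone S hn
      rw [hn₀] at h3
      have h4 : k = 1 := Subgroup.mem_bot.mp (h3 hk)
      apply hkZ
      rw [h4]
      exact (zc S).one_mem
    | succ m ih =>
      intro n hn k hkS hk hkK hkZ
      by_cases h5 : ∀ g ∈ S, k * g * k⁻¹ * g⁻¹ ∈ zc S
      · exact ⟨k, hkK, hkS, hkZ, h5⟩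
      · push Not at h5
        obtain ⟨g, hg, h6⟩ := h5
        have h7 : ⁅k, g⁆ ∈ S.lowerCentralSeries (n + 1) := by
          rw [Subgroup.lowerCentralSeries_succ]
          exact Subgroup.commutator_mem_commutator hk hg
        have h8 : ⁅k, g⁆ = k * g * k⁻¹ * g⁻¹ := rfl
        rw [h8] at h7
        refine ih (n + 1) (by omega) _ ?_ h7 (hK _ hkK g hg) h6
        exact S.mul_mem (S.mul_mem (S.mul_mem hkS hg) (S.inv_mem hkS)) (S.inv_mem hg)
  exact key n₀ 0 (by omega) k hkS (by rw [Subgroup.lowerCentralSeries_zero]; exact hkS) hkK hkZ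

end second

section main

variable {H : Type u} [Group H] [Finite H] {M : Type v} [AddCommGroup M] [DistribMulAction H M]
  [Finite M] [FaithfulSMul H M] [Nontrivial M] {p : ℕ} [Fact p.Prime]

/-- Normal abelian subgroups are cyclic. -/
theorem isCyclic_of_normal (hG : Good H M p) {A : Subgroup H} (hA : A.Normal)
    (hc : ∀ a ∈ A, ∀ b ∈ A, a * b = b * a) : IsCyclic A := by
  obtain ⟨U₀, -, hU₀⟩ := exists_minInv_le (X := A) (U := (⊤ : AddSubgroup M))
    (fun _ _ _ _ => AddSubgroup.mem_top _) top_ne_bot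
  exact isCyclic_of_faithful hU₀ hc (fun x hx hfix =>
    eq_one_of_fix hG.hU hG.hodd hG.hdvd hG.hirr hA hU₀ hx hfix)

omit [Finite M] [FaithfulSMul H M] [Nontrivial M] in
theorem orderOf_sylow {w : ℕ} [Fact w.Prime] (P : Sylow w H) {x : H} (hx : x ∈ (P : Subgroup H)) :
    ∃ k, orderOf x = w ^ k := by
  obtain ⟨k, hk⟩ := (IsPGroup.iff_orderOf.mp P.isPGroup') ⟨x, hx⟩
  exact ⟨k, by rw [← Subgroup.orderOf_mk x hx]; exact hk⟩

omit [Finite M] [FaithfulSMul H M] [Nontrivial M] in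
theorem orderOf_pGroup {w : ℕ} [Fact w.Prime] {S : Subgroup H} (hS : IsPGroup w S) {x : H} (hx : x ∈ S) :
    ∃ k, orderOf x = w ^ k := by
  obtain ⟨k, hk⟩ := (IsPGroup.iff_orderOf.mp hS) ⟨x, hx⟩
  exact ⟨k, by rw [← Subgroup.orderOf_mk x hx]; exact hk⟩

omit [Finite H] [Finite M] [FaithfulSMul H M] [Nontrivial M] in
theorem coprime_orders {w s : ℕ} (hw : w.Prime) (hs : s.Prime) (hws : w ≠ s) {x y : H}
    (hx : ∃ k, orderOf x = w ^ k) (hy : ∃ k, orderOf y = s ^ k) : (orderOf x).Coprime (orderOf y) := by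
  obtain ⟨k, hk⟩ := hx
  obtain ⟨l, hl⟩ := hy
  rw [hk, hl]
  exact Nat.Coprime.pow k l ((Nat.coprime_primes hw hs).mpr hws)

omit [Finite M] [FaithfulSMul H M] [Nontrivial M] in
/-- From one Sylow subgroup to all of them. -/
theorem sylow_conj_commute {w : ℕ} [Fact w.Prime] {S₀ : Subgroup H} (hS₀ : S₀.Normal) (P₀ : Sylow w H)
    (h : ∀ x ∈ (P₀ : Subgroup H), ∀ y ∈ S₀, x * y = y * x) :
    ∀ P : Sylow w H, ∀ x ∈ (P : Subgroup H), ∀ y ∈ S₀, x * y = y * x := by
  intro P x hx y hy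
  obtain ⟨g, rfl⟩ := MulAction.exists_smul_eq H P₀ P
  have hx' : g⁻¹ * x * g ∈ (P₀ : Subgroup H) := by
    have h1 : x ∈ MulAut.conj g • (P₀ : Subgroup H) := by
      rw [← Sylow.coe_subgroup_smul]
      exact hx
    have h2 := (Subgroup.mem_pointwise_smul_iff_inv_smul_mem).mp h1
    simpa [MulAut.smul_def, MulAut.conj_apply, mul_assoc] using h2
  have hy' : g⁻¹ * y * g ∈ S₀ := by simpa using hS₀.conj_mem y hy g⁻¹
  have h3 := h _ hx' _ hy'
  have h4 : g * ((g⁻¹ * x * g) * (g⁻¹ * y * g)) * g⁻¹ = g * ((g⁻¹ * y * g) * (g⁻¹ * x * g)) * g⁻¹ := by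
    rw [h3]
  simpa [mul_assoc] using h4

/-- The elements of exponent `4` of an abelian subgroup. -/
def omega4 (A : Subgroup H) (hc : ∀ a ∈ A, ∀ b ∈ A, a * b = b * a) : Subgroup H where
  carrier := {a | a ∈ A ∧ a ^ 4 = 1}
  one_mem' := ⟨A.one_mem, one_pow _⟩
  mul_mem' := by
    rintro a b ⟨ha, ha'⟩ ⟨hb, hb'⟩
    refine ⟨A.mul_mem ha hb, ?_⟩
    have : Commute a b := hc a ha b hb
    rw [this.mul_pow, ha', hb', one_mul]
  inv_mem' := by
    rintro a ⟨ha, ha'⟩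
    exact ⟨A.inv_mem ha, by rw [inv_pow, ha', inv_one]⟩

/-- The case where the centre of the second centre is large. -/
theorem commute_case_four (hG : Good H M p) {w : ℕ} [Fact w.Prime] (hUw : UniqSyl H M w) (hw2 : w ≠ 2)
    {S : Subgroup H} (hS : S.Normal) (h2 : IsPGroup 2 S) {z : H} (hz : ZData S z)
    (h4 : 4 ∣ Nat.card (zc (T S))) :
    ∀ P : Sylow w H, ∀ x ∈ (P : Subgroup H), ∀ y ∈ S, x * y = y * x := by
  classical
  haveI : Fact (Nat.Prime 2) := ⟨Nat.prime_two⟩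
  have hw : w.Prime := Fact.out
  have hTn := T_normal hS
  set A := zc (T S) with hA
  have hAn : A.Normal := zc_normal hTn
  have hAS : A ≤ S := (zc_le _).trans (T_le S)
  have hAc : ∀ a ∈ A, ∀ b ∈ A, a * b = b * a := fun a ha b hb => zc_comm _ ha (zc_le _ hb)
  have hA2 : IsPGroup 2 A := h2.to_le hAS
  have hAcyc : IsCyclic A := isCyclic_of_normal hG hAn hAc
  have hoddx : ∀ P : Sylow w H, ∀ x ∈ (P : Subgroup H), Odd (orderOf x) := by
    intro P x hx
    obtain ⟨k, hk⟩ := orderOf_sylow P hx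
    rw [hk]
    exact (hw.odd_of_ne_two hw2).pow
  let Ω := omega4 A hAc
  have hΩn : Ω.Normal := by
    refine ⟨fun a ha g => ⟨hAn.conj_mem a ha.1 g, ?_⟩⟩
    have : (g * a * g⁻¹) ^ 4 = g * a ^ 4 * g⁻¹ := by
      rw [conj_pow]
    rw [this, ha.2]
    simp
  -- an element of order 4
  obtain ⟨c, hcΩ, hcord⟩ : ∃ c ∈ Ω, orderOf c = 4 := by
    obtain ⟨g, hg⟩ := IsCyclic.exists_ofOrder_eq_natCard (α := A)
    obtain ⟨m, hm⟩ := h4
    have hmpos : 0 < m := by
      rcases Nat.eq_zero_or_pos m with h | h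
      · rw [h, mul_zero] at hm
        exact absurd hm Nat.card_pos.ne'
      · exact h
    have hord : orderOf ((g : H) ^ m) = 4 := by
      have h5 : orderOf (g : H) = 4 * m := by
        rw [Subgroup.orderOf_coe, hg, hm]
      rw [orderOf_pow_of_dvd (by omega) (Dvd.intro_left _ h5.symm), h5]
      exact Nat.mul_div_cancel _ hmpos
    refine ⟨(g : H) ^ m, ⟨A.pow_mem g.2 m, ?_⟩, hord⟩
    rw [← hord]
    exact pow_orderOf_eq_one _
  let S₀ : Subgroup H := S ⊓ centralizer (Ω : Set H)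
  haveI : Ω.Normal := hΩn
  haveI : S.Normal := hS
  have hS₀n : S₀.Normal := inferInstance
  have hS₀2 : IsPGroup 2 S₀ := h2.to_le inf_le_left
  have hcS₀ : c ∈ zc S₀ := by
    refine ⟨⟨hAS hcΩ.1, mem_centralizer_iff.mpr fun a ha => hAc a ha.1 c hcΩ.1⟩,
      mem_centralizer_iff.mpr ?_⟩
    intro b hb
    exact (mem_centralizer_iff.mp hb.2 c hcΩ).symm
  have h4' : smallExp 2 ∣ Nat.card (zc S₀) := by
    have h5 : orderOf (⟨c, hcS₀⟩ : zc S₀) = 4 := by
      rw [Subgroup.orderOf_mk, hcord]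
    have h6 := orderOf_dvd_natCard (⟨c, hcS₀⟩ : zc S₀)
    rw [h5] at h6
    simpa [smallExp] using h6
  have hZn : (zc S₀).Normal := zc_normal hS₀n
  have hZ0c : ∀ a ∈ zc S₀, ∀ b ∈ zc S₀, a * b = b * a := fun a ha b hb => zc_comm _ ha (zc_le _ hb)
  have hZ0cyc : IsCyclic (zc S₀) := isCyclic_of_normal hG hZn hZ0c
  have hZ02 : IsPGroup 2 (zc S₀) := hS₀2.to_le (zc_le _)
  have hkey := sylow_commute_of_center hG hUw hw2 hS₀n hS₀2 h4' (fun P x hx a ha =>
    commute_cyclic_two hZ0cyc hZ02 (fun y hy => hZn.conj_mem y hy x) (hoddx P x hx) a ha)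
  intro P x hx g hg
  set d := g⁻¹ * (x * g * x⁻¹) with hd
  have hdS : d ∈ S := S.mul_mem (S.inv_mem hg) (hS.conj_mem g hg x)
  have hdc : d ∈ S₀ := by
    refine ⟨hdS, mem_centralizer_iff.mpr ?_⟩
    intro a ha
    have hxa : x * a = a * x :=
      commute_cyclic_two hAcyc hA2 (fun y hy => hAn.conj_mem y hy x) (hoddx P x hx) a ha.1
    have hga : g * a * g⁻¹ * a⁻¹ ∈ zc S := by
      have h5 := (zc_le _ ha.1 : a ∈ T S).2 g hg
      have h6 := (zc S).inv_mem h5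
      convert h6 using 1
      group
    have hxζ : ∀ t ∈ zc S, x * t = t * x := by
      intro t ht
      rcases hz.eq t ht with rfl | rfl
      · simp
      · exact hz.comm x
    set ζ := g * a * g⁻¹ * a⁻¹ with hζ
    have e1 : g * a * g⁻¹ = ζ * a := by rw [hζ]; group
    have hxinv : x⁻¹ * a * x = a := by
      rw [mul_assoc, ← hxa]
      group
    have e2 : x * (ζ * a) * x⁻¹ = ζ * a := by
      rw [← mul_assoc, hxζ ζ hga, mul_assoc ζ, hxa]
      group
    have e3 : d * a * d⁻¹ = g⁻¹ * (x * (g * (x⁻¹ * a * x) * g⁻¹) * x⁻¹) * g := by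
      rw [hd]; group
    have e4 : d * a * d⁻¹ = a := by
      rw [e3, hxinv, show g * a * g⁻¹ = ζ * a from e1, e2, ← e1]
      group
    calc a * d = d * a * d⁻¹ * d := by rw [e4]
      _ = d * a := by group
  have hxd := hkey P x hx d hdc
  refine commute_of_quot (d := d) ?_ hxd (coprime_orders hw Nat.prime_two hw2 (orderOf_sylow P hx)
    (orderOf_pGroup h2 hdS))
  rw [hd]
  group

/-- The commutator of elements of `D`'s centralizer, from the squares. -/
theorem comm_eq_z_of_sq {a b z : H} (hzc : ∀ g : H, g * z = z * g) (hzz : z * z = 1)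
    (ha : a * a = z) (hb : b * b = z) (hab : a * b * (a * b) = z) : b * a * b⁻¹ * a⁻¹ = z := by
  have hzi : z⁻¹ = z := by
    rw [inv_eq_iff_mul_eq_one]
    exact hzz
  have e1 : b⁻¹ * b⁻¹ = z := by
    have : (b * b)⁻¹ = z⁻¹ := by rw [hb]
    rw [mul_inv_rev, hzi] at this
    exact this
  have e2 : a⁻¹ * a⁻¹ = z := by
    have : (a * a)⁻¹ = z⁻¹ := by rw [ha]
    rw [mul_inv_rev, hzi] at this
    exact this
  calc b * a * b⁻¹ * a⁻¹ = a⁻¹ * (a * b * (a * b)) * (b⁻¹ * b⁻¹) * a⁻¹ := by group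
    _ = a⁻¹ * z * z * a⁻¹ := by rw [hab, e1]
    _ = a⁻¹ * (z * z) * a⁻¹ := by group
    _ = a⁻¹ * a⁻¹ := by rw [hzz]; group
    _ = z := e2

/-- The case where the centre of the second centre is `zc S`. -/
theorem commute_case_two (hG : Good H M p) {w : ℕ} [Fact w.Prime] (hUw : UniqSyl H M w) (hw2 : w ≠ 2)
    (hw3 : w ≠ 3) {S : Subgroup H} (hS : S.Normal) (h2 : IsPGroup 2 S) {z : H} (hz : ZData S z)
    (hZT : zc (T S) = zc S) :
    ∀ P : Sylow w H, ∀ x ∈ (P : Subgroup H), ∀ y ∈ S, x * y = y * x := by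
  classical
  haveI : Fact (Nat.Prime 2) := ⟨Nat.prime_two⟩
  have hw : w.Prime := Fact.out
  have hTn := T_normal hS
  have hZn : (zc S).Normal := zc_normal hS
  have hTZ : zc S ≤ T S := zc_le_T S
  have hZcard : Nat.card (zc S) = 2 := by
    rw [Nat.card_eq_two_iff' (1 : zc S)]
    refine ⟨⟨z, hz.mem⟩, fun h => hz.ne (congrArg Subtype.val h), ?_⟩
    intro y hy
    rcases hz.eq y y.2 with h | h
    · exact absurd (Subtype.ext h) hy
    · exact Subtype.ext h
  have hcop : (Nat.card S).Coprime w := by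
    obtain ⟨k, hk⟩ := IsPGroup.iff_card.mp h2
    rw [hk]
    exact Nat.Coprime.pow_left k ((Nat.coprime_primes Nat.prime_two hw).mpr hw2.symm)
  -- the centralizer of `T` in `S` is the centre
  have hK : ∀ k ∈ S, k ∈ centralizer ((T S : Subgroup H) : Set H) → k ∈ zc S := by
    intro k hkS hkC
    by_contra hkZ
    let K : Subgroup H := S ⊓ centralizer ((T S : Subgroup H) : Set H)
    haveI : (T S).Normal := hTn
    haveI : S.Normal := hS
    have hKn : K.Normal := inferInstance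
    have hKK : ∀ k ∈ K, ∀ g ∈ S, k * g * k⁻¹ * g⁻¹ ∈ K := by
      intro k hk g hg
      have h3 := hKn.conj_mem k⁻¹ (K.inv_mem hk) g
      have e : k * g * k⁻¹ * g⁻¹ = k * (g * k⁻¹ * g⁻¹) := by group
      rw [e]
      exact K.mul_mem hk h3
    obtain ⟨k', hk'K, hk'S, hk'Z, hk'T⟩ := exists_second h2 hKK hkS ⟨hkS, hkC⟩ hkZ
    apply hk'Z
    rw [← hZT]
    refine ⟨⟨hk'S, hk'T⟩, ?_⟩
    exact hk'K.2
  -- squares
  have hsq : ∀ a ∈ T S, a * a ∈ zc S := by
    intro a ha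
    rw [← hZT]
    refine ⟨(T S).mul_mem ha ha, mem_centralizer_iff.mpr ?_⟩
    intro b hb
    have h3 := ha.2 b hb.1
    set ζ := a * b * a⁻¹ * b⁻¹ with hζ
    have e1 : a * b = ζ * b * a := by rw [hζ]; group
    have e2 : a * ζ = ζ * a := (zc_comm S h3 ha.1).symm
    have e3 : ζ * ζ = 1 := by
      rcases hz.eq ζ h3 with h | h
      · rw [h, one_mul]
      · rw [h, hz.sq]
    calc b * (a * a) = ζ⁻¹ * (a * b) * a := by rw [e1]; group
      _ = ζ⁻¹ * (a * b * a) := by group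
      _ = ζ * (a * b * a) := by
        rw [show ζ⁻¹ = ζ from inv_eq_iff_mul_eq_one.mpr e3]
      _ = a * ζ * b * a := by rw [e2]; group
      _ = a * (ζ * b * a) := by group
      _ = a * (a * b) := by rw [e1]
      _ = a * a * b := by group
  -- the maximal `D`
  let 𝓑 : Subgroup H → Prop := fun B =>
    zc S ≤ B ∧ B ≤ T S ∧ (∀ a ∈ B, ∀ b ∈ B, a * b = b * a) ∧ ∀ b ∈ B, b ^ 2 = 1
  have hZ𝓑 : 𝓑 (zc S) := by
    refine ⟨le_rfl, hTZ, ?_, ?_⟩
    · intro a ha b hb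
      exact zc_comm _ ha (zc_le _ hb)
    · intro b hb
      rw [pow_two]
      rcases hz.eq b hb with h | h
      · rw [h, one_mul]
      · rw [h, hz.sq]
  obtain ⟨D, hD⟩ := exists_maximal_of_wellFoundedGT 𝓑 ⟨_, hZ𝓑⟩
  obtain ⟨hZD, hDT, hDc, hDe⟩ := hD.1
  obtain ⟨v, hv0, hvD⟩ := exists_vec_fix hG hZn hZD hDc (by rw [hZcard]; exact hDe)
  obtain ⟨P₀, hP₀, -⟩ := hUw v hv0
  have hDS : D ≤ S := hDT.trans (T_le S)
  have hzc : ∀ t ∈ zc S, ∀ g : H, g * t = t * g := by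
    intro t ht g
    rcases hz.eq t ht with rfl | rfl
    · simp
    · exact hz.comm g
  have hxD : ∀ x ∈ (P₀ : Subgroup H), ∀ b ∈ D, x * b = b * x := by
    intro x hx b hb
    exact commute_B hUw hZD hDS hS hcop hv0 hvD hP₀ (fun x _ t ht => hzc t ht x) hb hx
  -- the centralizer of `D` in `T`
  let C₂ : Subgroup H := T S ⊓ centralizer (D : Set H)
  have hC₂D : ∀ c ∈ C₂, ∀ d ∈ D, d * c = c * d := fun c hc d hd =>
    mem_centralizer_iff.mp hc.2 d hd
  have hsqC : ∀ e ∈ C₂, e ∉ D → e * e = z := by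
    intro e he heD
    rcases hz.eq _ (hsq e he.1) with h | h
    · exfalso
      have he2 : e ^ 2 = 1 := by rw [pow_two, h]
      obtain ⟨B', hB', heB', hB'c, hB'e, hB'S⟩ := exists_ext hDc (fun b hb => hC₂D e he b hb) hDe he2
      have h𝓑 : 𝓑 B' := ⟨hZD.trans hB', hB'S _ hDT he.1, hB'c, hB'e⟩
      exact heD (hD.2 h𝓑 hB' heB')
    · exact h
  have hzD : z ∈ D := hZD hz.mem
  have hcomm3 : ∀ a ∈ C₂, ∀ b ∈ C₂, a ∉ D → b ∉ D → a * b ∉ D → b * a * b⁻¹ * a⁻¹ = z := by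
    intro a ha b hb haD hbD habD
    exact comm_eq_z_of_sq hz.comm hz.sq (hsqC a ha haD) (hsqC b hb hbD)
      (hsqC _ (C₂.mul_mem ha hb) habD)
  have hno3 : ∀ c₁ ∈ C₂, ∀ c₂ ∈ C₂, ∀ c₃ ∈ C₂, c₁ ∉ D → c₂ ∉ D → c₃ ∉ D → c₁ * c₂ ∉ D → c₁ * c₃ ∉ D →
      c₂ * c₃ ∉ D → c₁ * c₂ * c₃ ∉ D → False := by
    intro c₁ h₁ c₂ h₂ c₃ h₃ n₁ n₂ n₃ n₁₂ n₁₃ n₂₃ n₁₂₃
    have e₁ := hcomm3 c₁ h₁ c₂ h₂ n₁ n₂ n₁₂
    have e₂ := hcomm3 c₁ h₁ c₃ h₃ n₁ n₃ n₁₃
    have e₃ := hcomm3 c₁ h₁ (c₂ * c₃) (C₂.mul_mem h₂ h₃) n₁ (by simpa using n₂₃)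
      (by rwa [← mul_assoc])
    have e₄ : c₂ * c₃ * c₁ * (c₂ * c₃)⁻¹ * c₁⁻¹ = z * z := by
      calc c₂ * c₃ * c₁ * (c₂ * c₃)⁻¹ * c₁⁻¹
          = c₂ * (c₃ * c₁ * c₃⁻¹ * c₁⁻¹) * c₁ * c₂⁻¹ * c₁⁻¹ := by group
        _ = c₂ * z * c₁ * c₂⁻¹ * c₁⁻¹ := by rw [e₂]
        _ = z * (c₂ * c₁ * c₂⁻¹ * c₁⁻¹) := by
          rw [hz.comm c₂]
          group
        _ = z * z := by rw [e₁]
    rw [e₃, hz.sq] at e₄
    exact hz.ne e₄
  -- the Sylow subgroup fixes the cosets
  have hfixC : ∀ x ∈ (P₀ : Subgroup H), ∀ c ∈ C₂, c⁻¹ * (x * c * x⁻¹) ∈ D := by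
    intro x hx c hc
    by_cases hcD : c ∈ D
    · have : x * c * x⁻¹ = c := by rw [hxD x hx c hcD]; group
      rw [this]
      simpa using D.one_mem
    have hxC : ∀ y : H, (∀ b ∈ D, y * b = b * y) → ∀ t ∈ C₂, y * t * y⁻¹ ∈ C₂ := by
      intro y hy t ht
      refine ⟨hTn.conj_mem t ht.1 y, mem_centralizer_iff.mpr ?_⟩
      intro b hb
      have h3 : y⁻¹ * b = b * y⁻¹ := by
        calc y⁻¹ * b = y⁻¹ * (b * y) * y⁻¹ := by group
          _ = y⁻¹ * (y * b) * y⁻¹ := by rw [hy b hb]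
          _ = b * y⁻¹ := by group
      have h4 := hC₂D t ht b hb
      calc b * (y * t * y⁻¹) = (b * y) * t * y⁻¹ := by group
        _ = (y * b) * t * y⁻¹ := by rw [hy b hb]
        _ = y * (b * t) * y⁻¹ := by group
        _ = y * (t * b) * y⁻¹ := by rw [h4]
        _ = y * t * (b * y⁻¹) := by group
        _ = y * t * (y⁻¹ * b) := by rw [h3]
        _ = y * t * y⁻¹ * b := by group
    have hxnot : ∀ t : H, t ∉ D → x * t * x⁻¹ ∉ D := by
      intro t ht h3
      apply ht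
      have h4 := hxD x hx _ h3
      have h5 : x * t * x⁻¹ = t := by
        have h6 : x * (x * t * x⁻¹) * x⁻¹ = x * t * x⁻¹ := by rw [h4]; group
        have h7 : x * (x * t * x⁻¹) * x⁻¹ = x * (x * t * x⁻¹ * x⁻¹) := by group
        rw [h7] at h6
        have h8 := mul_left_cancel (a := x) (b := x * t * x⁻¹ * x⁻¹) (c := t * x⁻¹) (by
          rw [h6]; group)
        have h9 : x * t * x⁻¹ = t := by
          have := mul_right_cancel h8
          exact this
        exact h9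
      rwa [h5] at h3
    set σ₁ := x * c * x⁻¹ with hσ₁
    set σ₂ := x * σ₁ * x⁻¹ with hσ₂
    have hxD' : ∀ b ∈ D, x * b = b * x := hxD x hx
    have hσ₁C : σ₁ ∈ C₂ := hxC x hxD' c hc
    have hσ₂C : σ₂ ∈ C₂ := hxC x hxD' σ₁ hσ₁C
    have hσ₁D : σ₁ ∉ D := hxnot c hcD
    have hσ₂D : σ₂ ∉ D := hxnot σ₁ hσ₁D
    -- general principle
    have hpow : ∀ (y : H), (∀ b ∈ D, y * b = b * y) → ∀ j : ℕ, c⁻¹ * (y * c * y⁻¹) ∈ D →
        c⁻¹ * (y ^ j * c * (y ^ j)⁻¹) ∈ D := by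
      intro y hy j hfix
      induction j with
      | zero => simpa using D.one_mem
      | succ j ih =>
        set d := c⁻¹ * (y * c * y⁻¹) with hd
        have e1 : y * c * y⁻¹ = c * d := by rw [hd]; group
        have e2 : y ^ j * d * (y ^ j)⁻¹ = d := by
          have h3 : y ^ j * d = d * y ^ j := (Commute.pow_left (hy d hfix) j)
          rw [h3]
          group
        have e3 : y ^ (j + 1) * c * (y ^ (j + 1))⁻¹ = y ^ j * (y * c * y⁻¹) * (y ^ j)⁻¹ := by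
          rw [pow_succ]
          group
        have e4 : c⁻¹ * (y ^ (j + 1) * c * (y ^ (j + 1))⁻¹)
            = (c⁻¹ * (y ^ j * c * (y ^ j)⁻¹)) * (y ^ j * d * (y ^ j)⁻¹) := by
          rw [e3, e1]
          group
        rw [e4, e2]
        exact D.mul_mem ih hfix
    have hxk : ∀ k : ℕ, ∀ b ∈ D, x ^ k * b = b * x ^ k := fun k b hb =>
      (Commute.pow_left (hxD' b hb) k)
    obtain ⟨kk, hkk⟩ := orderOf_sylow P₀ hx
    have hup : ∀ m : ℕ, m.Coprime w → c⁻¹ * (x ^ m * c * (x ^ m)⁻¹) ∈ D → c⁻¹ * (x * c * x⁻¹) ∈ D := by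
      intro m hm hfix
      have h3 : m.Coprime (orderOf x) := by
        rw [hkk]
        exact Nat.Coprime.pow_right kk hm
      obtain ⟨j, hj⟩ := exists_pow_eq_self_of_coprime h3
      have h4 := hpow (x ^ m) (hxk m) j hfix
      rwa [hj] at h4
    have hcc : c * c = z := hsqC c hc hcD
    have hcinv : ∀ t : H, c * t ∈ D → c⁻¹ * t ∈ D := by
      intro t ht
      have e : c⁻¹ * t = (c * c)⁻¹ * (c * t) := by group
      rw [e, hcc]
      exact D.mul_mem (D.inv_mem hzD) ht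
    by_contra hnot
    have hc1 : c * σ₁ ∉ D := fun h => hnot (hcinv _ h)
    have hc2 : c * σ₂ ∉ D := by
      intro h
      apply hnot
      apply hup 2 ((Nat.coprime_primes Nat.prime_two hw).mpr hw2.symm)
      have e : x ^ 2 * c * (x ^ 2)⁻¹ = σ₂ := by
        rw [hσ₂, hσ₁, pow_two]
        group
      rw [e]
      exact hcinv _ h
    have hc12 : σ₁ * σ₂ ∉ D := by
      intro h
      apply hc1
      have e : x * (c * σ₁) * x⁻¹ = σ₁ * σ₂ := by
        rw [hσ₂, hσ₁]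
        group
      by_contra h3
      exact hxnot _ h3 (by rw [e]; exact h)
    have hc123 : c * σ₁ * σ₂ ∉ D := by
      intro h
      apply hnot
      apply hup 3 ((Nat.coprime_primes Nat.prime_three hw).mpr hw3.symm)
      set d := c * σ₁ * σ₂ with hd
      have e1 : σ₂ = σ₁⁻¹ * c⁻¹ * d := by rw [hd]; group
      have e2 : x * σ₂ * x⁻¹ = σ₂⁻¹ * σ₁⁻¹ * d := by
        have e5 : x * d * x⁻¹ = d := by rw [hxD' d h]; group
        have e6 : x * σ₂ * x⁻¹ = (x * σ₁ * x⁻¹)⁻¹ * (x * c * x⁻¹)⁻¹ * (x * d * x⁻¹) := by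
          conv_lhs => rw [e1]
          group
        rw [e6, e5]
      have e3 : x ^ 3 * c * (x ^ 3)⁻¹ = c := by
        have e4 : x ^ 3 * c * (x ^ 3)⁻¹ = x * σ₂ * x⁻¹ := by
          rw [hσ₂, hσ₁, pow_succ, pow_two]
          group
        rw [e4, e2]
        have e7 : σ₂⁻¹ = d⁻¹ * c * σ₁ := by rw [e1]; group
        rw [e7]
        have e8 : d⁻¹ * c * σ₁ * σ₁⁻¹ * d = d⁻¹ * c * d := by group
        rw [e8]
        have h5 := hC₂D c hc d h
        calc d⁻¹ * c * d = d⁻¹ * (c * d) := by group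
          _ = d⁻¹ * (d * c) := by rw [h5]
          _ = c := by group
      rw [e3]
      simpa using D.one_mem
    exact hno3 c hc σ₁ hσ₁C σ₂ hσ₂C hcD hσ₁D hσ₂D hc1 hc2 hc12 hc123
  -- hence the Sylow subgroup centralizes `C₂`
  have hcopD : ∀ x ∈ (P₀ : Subgroup H), ∀ d ∈ S, (orderOf x).Coprime (orderOf d) := fun x hx d hd =>
    coprime_orders hw Nat.prime_two hw2 (orderOf_sylow P₀ hx) (orderOf_pGroup h2 hd)
  have hC₂c : ∀ x ∈ (P₀ : Subgroup H), ∀ c ∈ C₂, x * c = c * x := by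
    intro x hx c hc
    have hd := hfixC x hx c hc
    refine commute_of_quot (d := c⁻¹ * (x * c * x⁻¹)) (by group) (hxD x hx _ hd) (hcopD x hx _ (hDS hd))
  have hT2 : IsPGroup 2 (T S) := h2.to_le (T_le S)
  have hD2 : IsPGroup 2 D := hT2.to_le hDT
  have hxT : ∀ x ∈ (P₀ : Subgroup H), ∀ y ∈ T S, x * y = y * x := by
    intro x hx
    have hordx : (orderOf x).Coprime 2 := by
      obtain ⟨k, hk⟩ := orderOf_sylow P₀ hx
      rw [hk]
      exact Nat.Coprime.pow_left k ((Nat.coprime_primes hw Nat.prime_two).mpr hw2)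
    exact Cfsg.Agent.Lib.CharP.Basic.thompson_AB (p := 2) (T S) D hT2 hD2
      (fun r hr y hy => hTn.conj_mem y hy r) x (fun y hy => hTn.conj_mem y hy x)
      (fun r hr => hxD x hx r hr) hordx
      (fun y hy hyc => hC₂c x hx y ⟨hy, Subgroup.mem_centralizer_iff.mpr (fun b hb => (hyc b hb))⟩)
  -- and `S`
  apply sylow_conj_commute hS P₀
  intro x hx g hg
  set d := g⁻¹ * (x * g * x⁻¹) with hd
  have hdS : d ∈ S := S.mul_mem (S.inv_mem hg) (hS.conj_mem g hg x)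
  have hdc : d ∈ centralizer ((T S : Subgroup H) : Set H) := by
    refine mem_centralizer_iff.mpr ?_
    intro a ha
    have hxa : x * a = a * x := hxT x hx a ha
    have hga : g * a * g⁻¹ * a⁻¹ ∈ zc S := by
      have h5 := (ha : a ∈ T S).2 g hg
      have h6 := (zc S).inv_mem h5
      convert h6 using 1
      group
    set ζ := g * a * g⁻¹ * a⁻¹ with hζ
    have e1 : g * a * g⁻¹ = ζ * a := by rw [hζ]; group
    have hxinv : x⁻¹ * a * x = a := by
      rw [mul_assoc, ← hxa]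
      group
    have e2 : x * (ζ * a) * x⁻¹ = ζ * a := by
      rw [← mul_assoc, hzc ζ hga x, mul_assoc ζ, hxa]
      group
    have e3 : d * a * d⁻¹ = g⁻¹ * (x * (g * (x⁻¹ * a * x) * g⁻¹) * x⁻¹) * g := by
      rw [hd]; group
    have e4 : d * a * d⁻¹ = a := by
      rw [e3, hxinv, show g * a * g⁻¹ = ζ * a from e1, e2, ← e1]
      group
    calc a * d = d * a * d⁻¹ * d := by rw [e4]
      _ = d * a := by group
  have hdZ := hK d hdS hdc
  refine commute_of_quot (d := d) ?_ (hzc d hdZ x) (hcopD x hx d hdS)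
  rw [hd]
  group

/-- **Theorem X.** A Sylow subgroup for a prime at least `5` centralizes a normal `2`-subgroup whose
centre has order `2`. -/
theorem sylow_commute_two (hG : Good H M p) {w : ℕ} [Fact w.Prime] (hUw : UniqSyl H M w) (hw2 : w ≠ 2)
    (hw3 : w ≠ 3) {S : Subgroup H} (hS : S.Normal) (h2 : IsPGroup 2 S) (hZ2 : Nat.card (zc S) = 2) :
    ∀ P : Sylow w H, ∀ x ∈ (P : Subgroup H), ∀ y ∈ S, x * y = y * x := by
  classical
  haveI : Fact (Nat.Prime 2) := ⟨Nat.prime_two⟩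
  obtain ⟨z, hz⟩ := exists_zData hS hZ2
  by_cases h4 : 4 ∣ Nat.card (zc (T S))
  · exact commute_case_four hG hUw hw2 hS h2 hz h4
  · apply commute_case_two hG hUw hw2 hw3 hS h2 hz
    -- the two centres agree
    have hle : zc S ≤ zc (T S) := by
      intro a ha
      refine ⟨zc_le_T S ha, mem_centralizer_iff.mpr ?_⟩
      intro b hb
      exact (zc_comm S ha (T_le S hb)).symm
    have hT2 : IsPGroup 2 (zc (T S)) := (h2.to_le (T_le S)).to_le (zc_le _)
    obtain ⟨n, hn⟩ := IsPGroup.iff_card.mp hT2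
    have hn1 : n ≤ 1 := by
      by_contra h5
      apply h4
      rw [hn]
      exact pow_dvd_pow 2 (show 2 ≤ n by omega)
    have hcard : Nat.card (zc (T S)) ≤ Nat.card (zc S) := by
      rw [hn, hZ2]
      calc 2 ^ n ≤ 2 ^ 1 := Nat.pow_le_pow_right (by norm_num) hn1
        _ = 2 := by norm_num
    exact (Subgroup.eq_of_le_of_card_ge hle hcard).symm

end main

end Cfsg.Agent.Lib.Palfy.Extra
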