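import Cfsg.Agent.Lib.Palfy.Uniq

/-!
# Schur's lemma for minimal invariant subgroups
-/

set_option autoImplicit false

namespace Cfsg.Agent.Lib.Palfy.Field

open scoped Pointwise
open Cfsg.Agent.Lib.Palfy.Mod Subgroup

universe u v

variable {H : Type u} [Group H] {M : Type v} [AddCommGroup M] [DistribMulAction H M]

theorem mul_ap {U : Type*} [AddCommGroup U] (f g : AddMonoid.End U) (u : U) : (f * g) u = f (g u) := rfl

/-- The action of `X` on an invariant subgroup. -/
def rho {X : Subgroup H} {U : AddSubgroup M} (hinv : IsInv X U) : X →* AddMonoid.End U where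
  toFun x :=
    { toFun := fun u => ⟨(x : H) • (u : M), hinv x x.2 u u.2⟩
      map_zero' := Subtype.ext (by simp)
      map_add' := fun a b => Subtype.ext (by simp [smul_add]) }
  map_one' := by
    apply AddMonoidHom.ext
    intro u
    apply Subtype.ext
    change ((1 : X) : H) • (u : M) = u
    simp
  map_mul' a b := by
    apply AddMonoidHom.ext
    intro u
    apply Subtype.ext
    change ((a * b : X) : H) • (u : M) = (a : H) • (b : H) • (u : M)
    simp [mul_smul]

theorem rho_apply {X : Subgroup H} {U : AddSubgroup M} (hinv : IsInv X U) (x : X) (u : U) :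
    ((rho hinv x u : U) : M) = (x : H) • (u : M) := rfl

/-- Equivariant endomorphisms are zero or injective. -/
theorem eq_zero_or_injective {X : Subgroup H} {U : AddSubgroup M} (hU : IsMinInv X U)
    (a : AddMonoid.End U) (ha : ∀ x : X, a * rho hU.inv x = rho hU.inv x * a) :
    a = 0 ∨ Function.Injective a := by
  let K : AddSubgroup M :=
    { carrier := {m | ∃ h : m ∈ U, a ⟨m, h⟩ = 0}
      zero_mem' := ⟨U.zero_mem, map_zero a⟩
      add_mem' := by
        rintro x y ⟨hx, ex⟩ ⟨hy, ey⟩
        refine ⟨U.add_mem hx hy, ?_⟩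
        have : (⟨x + y, U.add_mem hx hy⟩ : U) = ⟨x, hx⟩ + ⟨y, hy⟩ := rfl
        rw [this, map_add, ex, ey, add_zero]
      neg_mem' := by
        rintro x ⟨hx, ex⟩
        refine ⟨U.neg_mem hx, ?_⟩
        have : (⟨-x, U.neg_mem hx⟩ : U) = -⟨x, hx⟩ := rfl
        rw [this, map_neg, ex, neg_zero] }
  have hKinv : IsInv X K := by
    rintro x hx y ⟨hy, ey⟩
    refine ⟨hU.inv x hx y hy, ?_⟩
    have h1 := congrArg (fun f : AddMonoid.End U => f ⟨y, hy⟩) (ha ⟨x, hx⟩)
    simp only [mul_ap] at h1
    rw [ey, map_zero] at h1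
    exact h1
  have hKle : K ≤ U := fun m hm => hm.1
  rcases hU.min K hKle hKinv with h | h
  · right
    rw [injective_iff_map_eq_zero]
    intro u hu
    have h1 : (u : M) ∈ K := ⟨u.2, hu⟩
    rw [h, AddSubgroup.mem_bot] at h1
    exact Subtype.ext h1
  · left
    apply AddMonoidHom.ext
    intro u
    have h1 : (u : M) ∈ K := by rw [h]; exact u.2
    obtain ⟨_, e⟩ := h1
    exact e

/-- A subring of equivariant endomorphisms has no zero divisors. -/
theorem noZeroDivisors_of_equivariant {X : Subgroup H} {U : AddSubgroup M} (hU : IsMinInv X U)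
    (R : Subring (AddMonoid.End U))
    (hR : ∀ a ∈ R, ∀ x : X, a * rho hU.inv x = rho hU.inv x * a) : NoZeroDivisors R := by
  refine ⟨?_⟩
  rintro ⟨a, ha⟩ ⟨b, hb⟩ hab
  have hab' : a * b = 0 := congrArg Subtype.val hab
  rcases eq_zero_or_injective hU a (hR a ha) with h | h
  · left
    exact Subtype.ext h
  · right
    apply Subtype.ext
    change b = 0
    apply AddMonoidHom.ext
    intro u
    have h1 := congrArg (fun f : AddMonoid.End U => f u) hab'
    simp only [mul_ap] at h1
    have h2 : a (b u) = a 0 := by rw [h1, map_zero]; rfl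
    exact h h2

variable [Finite M]

/-- If equivariant endomorphisms act transitively on the nonzero vectors, `X` acts commutatively. -/
theorem comm_of_transitive {X : Subgroup H} {U : AddSubgroup M} (hU : IsMinInv X U)
    (htrans : ∀ v ∈ U, ∀ w ∈ U, v ≠ 0 → w ≠ 0 → ∃ f : U →+ U,
      (∀ x ∈ X, ∀ u u' : U, (u' : M) = x • (u : M) → (f u' : M) = x • (f u : M)) ∧
        ∃ (hv : v ∈ U) (hw : w ∈ U), f ⟨v, hv⟩ = ⟨w, hw⟩)
    {a b : H} (ha : a ∈ X) (hb : b ∈ X) {v : M} (hv : v ∈ U) : a • b • v = b • a • v := by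
  classical
  by_cases hv0 : v = 0
  · rw [hv0]
    simp
  let R : Subring (AddMonoid.End U) := Subring.centralizer (Set.range (rho hU.inv))
  have hRe : ∀ f ∈ R, ∀ x : X, f * rho hU.inv x = rho hU.inv x * f := by
    intro f hf x
    exact ((Subring.mem_centralizer_iff.mp hf) _ ⟨x, rfl⟩).symm
  haveI : NoZeroDivisors R := noZeroDivisors_of_equivariant hU R hRe
  haveI : Nontrivial (AddMonoid.End U) := by
    refine ⟨⟨0, 1, ?_⟩⟩
    intro h
    apply hv0
    have h1 := congrArg (fun f : AddMonoid.End U => f ⟨v, hv⟩) h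
    have h2 : (0 : U) = ⟨v, hv⟩ := h1
    exact (congrArg Subtype.val h2).symm
  haveI : Nontrivial R := by
    refine ⟨⟨0, 1, ?_⟩⟩
    intro h
    exact zero_ne_one (congrArg Subtype.val h)
  haveI : IsDomain R := NoZeroDivisors.to_isDomain R
  haveI : Finite (AddMonoid.End U) := by
    apply Finite.of_injective (fun f : AddMonoid.End U => (f : U → U))
    intro f g h
    exact DFunLike.coe_injective h
  have hfield := Finite.isDomain_to_isField R
  have hcomm : ∀ f g : R, f * g = g * f := hfield.mul_comm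
  -- the endomorphisms
  have hex : ∀ c ∈ X, ∃ f ∈ R, ((f ⟨v, hv⟩ : U) : M) = c • v := by
    intro c hc
    have hcv : c • v ∈ U := hU.inv c hc v hv
    have hcv0 : c • v ≠ 0 := by
      intro h
      apply hv0
      have := congrArg (c⁻¹ • ·) h
      simpa using this
    obtain ⟨f₀, hf, _, hw, hfv⟩ := htrans v hv (c • v) hcv hv0 hcv0
    let f : AddMonoid.End U := f₀
    have hmem : f ∈ R := by
      apply Subring.mem_centralizer_iff.mpr
      rintro _ ⟨x, rfl⟩
      apply AddMonoidHom.ext
      intro u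
      have h1 := hf x x.2 u (rho hU.inv x u) rfl
      apply Subtype.ext
      change (x : H) • ((f₀ u : U) : M) = ((f₀ (rho hU.inv x u) : U) : M)
      exact h1.symm
    refine ⟨f, hmem, ?_⟩
    have h2 : f₀ ⟨v, hv⟩ = ⟨c • v, hw⟩ := hfv
    exact congrArg Subtype.val h2
  obtain ⟨fa, hfa, hfav⟩ := hex a ha
  obtain ⟨fb, hfb, hfbv⟩ := hex b hb
  have h1 : a • b • v = ((fb (fa ⟨v, hv⟩) : U) : M) := by
    rw [← hfbv]
    have h2 := hRe fb hfb ⟨a, ha⟩
    have h3 := congrArg (fun f : AddMonoid.End U => ((f ⟨v, hv⟩ : U) : M)) h2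
    simp only [mul_ap] at h3
    have h4 : rho hU.inv ⟨a, ha⟩ ⟨v, hv⟩ = fa ⟨v, hv⟩ := Subtype.ext hfav.symm
    rw [h4] at h3
    rw [h3]
    rfl
  have h1' : b • a • v = ((fa (fb ⟨v, hv⟩) : U) : M) := by
    rw [← hfav]
    have h2 := hRe fa hfa ⟨b, hb⟩
    have h3 := congrArg (fun f : AddMonoid.End U => ((f ⟨v, hv⟩ : U) : M)) h2
    simp only [mul_ap] at h3
    have h4 : rho hU.inv ⟨b, hb⟩ ⟨v, hv⟩ = fb ⟨v, hv⟩ := Subtype.ext hfbv.symm
    rw [h4] at h3
    rw [h3]
    rfl
  rw [h1, h1']
  have h5 := hcomm ⟨fb, hfb⟩ ⟨fa, hfa⟩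
  have h6 : fb * fa = fa * fb := congrArg Subtype.val h5
  have h7 := congrArg (fun f : AddMonoid.End U => ((f ⟨v, hv⟩ : U) : M)) h6
  simpa only [mul_ap] using h7

/-- Commutative case: the image of `X` in the endomorphism ring is in a domain. -/
theorem exists_domain {X : Subgroup H} {U : AddSubgroup M} (hU : IsMinInv X U)
    (hc : ∀ a ∈ X, ∀ b ∈ X, ∀ u ∈ U, a • b • u = b • a • u) :
    ∃ (R : Type v) (_ : CommRing R) (_ : IsDomain R) (f : X →* R),
      ∀ a b : X, f a = f b ↔ ∀ u ∈ U, (a : H) • u = (b : H) • u := by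
  classical
  have hcomm : ∀ a ∈ Set.range (rho hU.inv), ∀ b ∈ Set.range (rho hU.inv), a * b = b * a := by
    rintro _ ⟨a, rfl⟩ _ ⟨b, rfl⟩
    apply AddMonoidHom.ext
    intro u
    apply Subtype.ext
    change (a : H) • (b : H) • (u : M) = (b : H) • (a : H) • (u : M)
    exact hc a a.2 b b.2 u u.2
  letI inst : CommRing (Subring.closure (Set.range (rho hU.inv))) :=
    Subring.closureCommRingOfComm hcomm
  have hle : Subring.closure (Set.range (rho hU.inv)) ≤
      Subring.centralizer (Set.range (rho hU.inv)) := by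
    rw [Subring.closure_le]
    intro a ha
    change a ∈ Subring.centralizer (Set.range (rho hU.inv))
    rw [Subring.mem_centralizer_iff]
    intro b hb
    exact hcomm b hb a ha
  have hRe : ∀ f ∈ Subring.closure (Set.range (rho hU.inv)), ∀ x : X,
      f * rho hU.inv x = rho hU.inv x * f := by
    intro f hf x
    exact ((Subring.mem_centralizer_iff.mp (hle hf)) _ ⟨x, rfl⟩).symm
  have hnz : NoZeroDivisors (Subring.closure (Set.range (rho hU.inv))) :=
    noZeroDivisors_of_equivariant hU _ hRe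
  obtain ⟨⟨v, hv⟩, hv0'⟩ := (AddSubgroup.ne_bot_iff_exists_ne_zero).mp hU.ne
  have hnt : Nontrivial (AddMonoid.End U) := by
    refine ⟨⟨0, 1, ?_⟩⟩
    intro h
    apply hv0'
    have h1 := congrArg (fun f : AddMonoid.End U => f ⟨v, hv⟩) h
    exact h1.symm
  have hnt' : Nontrivial (Subring.closure (Set.range (rho hU.inv))) := by
    refine ⟨⟨0, 1, ?_⟩⟩
    intro h
    exact zero_ne_one (congrArg Subtype.val h)
  haveI hdom : @IsDomain (Subring.closure (Set.range (rho hU.inv))) inst.toSemiring :=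
    @NoZeroDivisors.to_isDomain _ inst.toRing hnt' hnz
  let f : X →* Subring.closure (Set.range (rho hU.inv)) :=
    { toFun := fun x => ⟨rho hU.inv x, Subring.subset_closure ⟨x, rfl⟩⟩
      map_one' := Subtype.ext (map_one (rho hU.inv))
      map_mul' := fun a b => Subtype.ext (map_mul (rho hU.inv) a b) }
  refine ⟨_, inst, hdom, f, ?_⟩
  intro a b
  constructor
  · intro h u hu
    have h1 : rho hU.inv a = rho hU.inv b := congrArg Subtype.val h
    have h2 := congrArg (fun f : AddMonoid.End U => ((f ⟨u, hu⟩ : U) : M)) h1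
    exact h2
  · intro h
    apply Subtype.ext
    change rho hU.inv a = rho hU.inv b
    apply AddMonoidHom.ext
    intro u
    apply Subtype.ext
    exact h u u.2

/-- Faithful commutative irreducible action: the group is cyclic. -/
theorem isCyclic_of_faithful [Finite H] {X : Subgroup H} {U : AddSubgroup M} (hU : IsMinInv X U)
    (hc : ∀ a ∈ X, ∀ b ∈ X, a * b = b * a)
    (hf : ∀ x ∈ X, (∀ u ∈ U, x • u = u) → x = 1) : IsCyclic X := by
  obtain ⟨R, _, _, f, hfi⟩ := exists_domain hU (fun a ha b hb u _ => by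
    rw [← mul_smul, ← mul_smul, hc a ha b hb])
  apply isCyclic_of_subgroup_isDomain f
  intro a b hab
  have h1 := (hfi a b).mp hab
  have h2 : ((a : H)⁻¹ * b) = 1 := by
    apply hf _ (X.mul_mem (X.inv_mem a.2) b.2)
    intro u hu
    rw [mul_smul, ← h1 u hu, inv_smul_smul]
  have h3 : (b : H) = a := (inv_mul_eq_one.mp h2).symm
  exact Subtype.ext h3.symm

/-- Commutative irreducible action of exponent dividing `n`, `Z` faithful of order `n`: `X = Z C_X(U)`. -/
theorem exists_mem_fix [Finite H] {X Z : Subgroup H} {U : AddSubgroup M} (hU : IsMinInv X U) (hZX : Z ≤ X)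
    (hc : ∀ a ∈ X, ∀ b ∈ X, a * b = b * a) (hf : ∀ z ∈ Z, (∀ u ∈ U, z • u = u) → z = 1)
    {n : ℕ} (hn : 0 < n) (hZcard : Nat.card Z = n) (hexp : ∀ x ∈ X, x ^ n = 1) {x : H} (hx : x ∈ X) :
    ∃ z ∈ Z, ∀ u ∈ U, x • u = z • u := by
  classical
  obtain ⟨R, _, _, f, hfi⟩ := exists_domain hU (fun a ha b hb u _ => by
    rw [← mul_smul, ← mul_smul, hc a ha b hb])
  let g : Z → R := fun z => f ⟨z, hZX z.2⟩
  have hg : Function.Injective g := by
    intro a b hab
    have h1 := (hfi _ _).mp hab
    have h2 : ((a : H)⁻¹ * b) = 1 := by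
      apply hf _ (Z.mul_mem (Z.inv_mem a.2) b.2)
      intro u hu
      rw [mul_smul]
      have := h1 u hu
      simp only at this
      rw [← this, inv_smul_smul]
    exact Subtype.ext (inv_mul_eq_one.mp h2)
  haveI : NeZero n := ⟨hn.ne'⟩
  have hroot : ∀ a : X, f a ∈ Polynomial.nthRootsFinset n (1 : R) := by
    intro a
    rw [Polynomial.mem_nthRootsFinset hn]
    rw [← map_pow]
    have : a ^ n = 1 := Subtype.ext (hexp a a.2)
    rw [this, map_one]
  cases nonempty_fintype Z
  let S : Finset R := Finset.univ.image g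
  have hS : S ⊆ Polynomial.nthRootsFinset n (1 : R) := by
    intro r hr
    obtain ⟨z, -, rfl⟩ := Finset.mem_image.mp hr
    exact hroot _
  have hcard : (Polynomial.nthRootsFinset n (1 : R)).card ≤ n := by
    have h1 := Polynomial.card_nthRoots n (1 : R)
    have h2 : (Polynomial.nthRootsFinset n (1 : R)).card ≤ Multiset.card (Polynomial.nthRoots n (1 : R)) := by
      rw [Polynomial.nthRootsFinset]
      exact Multiset.toFinset_card_le _
    exact h2.trans h1
  have hScard : S.card = n := by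
    rw [Finset.card_image_of_injective _ hg, Finset.card_univ, ← hZcard, Nat.card_eq_fintype_card]
  have hSeq : S = Polynomial.nthRootsFinset n (1 : R) := by
    apply Finset.eq_of_subset_of_card_le hS
    rw [hScard]
    exact hcard
  have h1 : f ⟨x, hx⟩ ∈ S := by
    rw [hSeq]
    exact hroot _
  obtain ⟨z, -, hz⟩ := Finset.mem_image.mp h1
  refine ⟨z, z.2, ?_⟩
  intro u hu
  exact ((hfi _ _).mp hz u hu).symm

end Cfsg.Agent.Lib.Palfy.Field
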