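import Cfsg.Agent.Lib.Palfy.CaseA
import Cfsg.Agent.Lib.SolvStruct.Fit

/-!
# Pálfy's theorem on three primes dividing character degrees of solvable groups
-/

set_option autoImplicit false
set_option linter.unusedSectionVars false
set_option linter.style.haveILetI false
set_option linter.deprecated false

namespace Cfsg.Agent.Lib.Palfy.Main

open Cfsg Cfsg.Agent.Lib.Palfy.DualAct Cfsg.Agent.Lib.Palfy.Class2 Cfsg.Agent.Lib.Palfy.Spread
open Cfsg.Agent.Lib.Palfy.Setting Cfsg.Agent.Lib.Palfy.Moved Cfsg.Agent.Lib.Palfy.NormalSyl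
open Cfsg.Agent.Lib.Palfy.CaseA Cfsg.Agent.Lib.Palfy.CaseB2
open Cfsg.Agent.Lib.Solvable.Basic
open Cfsg.Agent.Lib.Char.Basic Cfsg.Agent.Lib.Char.Ortho Cfsg.Agent.Lib.Char.Complete
open Cfsg.Agent.Lib.Char.Conj Cfsg.Agent.Lib.Char.Degree
open Cfsg.Agent.Lib.Char.Clifford Cfsg.Agent.Lib.Char.CliffordCorr
open scoped ComplexConjugate commutatorElement

universe u

variable {G : Type u} [Group G] [Finite G] [Group.IsSolvable G]

/-- The structure of `R` when the minimal normal subgroup is an `r`-group. -/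
theorem exists_setting {r : ℕ} [Fact r.Prime] {V : Subgroup G} [hV : V.Normal]
    (hVmin : IsMinNormal V) (hVr : IsPGroup r V)
    (hρr : ∃ χ : IrrCharacter G, r ∣ charDegree (χ : G → ℂ))
    (hr : ∀ χ : IrrCharacter (G ⧸ V), ¬ r ∣ charDegree (χ : G ⧸ V → ℂ)) :
    ∃ (R : Subgroup G) (_ : R.Normal), Setting R V r := by
  classical
  obtain ⟨Pb⟩ : Nonempty (Sylow r (G ⧸ V)) := inferInstance
  obtain ⟨hPbn, hPbc⟩ := (Cfsg.Agent.Lib.Blk89.ItoMichler.normal_comm_iff r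
    Cfsg.Agent.Lib.Core.PSolvable2.isPSolvable_of_isSolvable Pb).mpr hr
  let R : Subgroup G := (Pb : Subgroup (G ⧸ V)).comap (QuotientGroup.mk' V)
  haveI hR : R.Normal := hPbn.comap (QuotientGroup.mk' V)
  have hVR : V ≤ R := by
    intro v hv
    show ((v : G) : G ⧸ V) ∈ (Pb : Subgroup (G ⧸ V))
    rw [(QuotientGroup.eq_one_iff v).mpr hv]
    exact Subgroup.one_mem _
  have hRr : IsPGroup r R := by
    rintro ⟨u, hu⟩
    obtain ⟨a, ha⟩ := Pb.isPGroup' ⟨(u : G ⧸ V), hu⟩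
    have ha' : ((u : G) : G ⧸ V) ^ r ^ a = 1 := by
      have h1 := congrArg Subtype.val ha
      simpa using h1
    have h2 : u ^ r ^ a ∈ V := by
      rw [← QuotientGroup.eq_one_iff, QuotientGroup.mk_pow]
      exact ha'
    obtain ⟨b, hb⟩ := hVr ⟨_, h2⟩
    have hb' : (u ^ r ^ a) ^ r ^ b = 1 := by
      have h1 := congrArg Subtype.val hb
      simpa using h1
    refine ⟨a + b, Subtype.ext ?_⟩
    show u ^ r ^ (a + b) = 1
    rw [pow_add, pow_mul, hb']
  have hidx : ¬ r ∣ R.index := by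
    have h1 : R.index = (Pb : Subgroup (G ⧸ V)).index :=
      Subgroup.index_comap_of_surjective _ (QuotientGroup.mk'_surjective V)
    rw [h1]
    exact Pb.not_dvd_index
  have hcommV : ∀ a ∈ R, ∀ b ∈ R, ⁅a, b⁆ ∈ V := by
    intro a ha b hb
    rw [← QuotientGroup.eq_one_iff, commutatorElement_def, QuotientGroup.mk_mul,
      QuotientGroup.mk_mul, QuotientGroup.mk_mul, QuotientGroup.mk_inv, QuotientGroup.mk_inv]
    have h1 := congrArg Subtype.val (hPbc.is_comm.comm ⟨_, ha⟩ ⟨_, hb⟩)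
    have h2 : ((a : G) : G ⧸ V) * ((b : G) : G ⧸ V) = ((b : G) : G ⧸ V) * ((a : G) : G ⧸ V) := h1
    rw [h2]
    group
  have hRR : ⁅R, R⁆ = V := by
    rcases hVmin.2.2 ⁅R, R⁆ (Subgroup.commutator_normal R R)
      (Subgroup.commutator_le.mpr hcommV) with h | h
    · exfalso
      obtain ⟨χ, hχ⟩ := hρr
      have hcomm : ∀ a ∈ R, ∀ b ∈ R, a * b = b * a := by
        intro a ha b hb
        have h1 := Subgroup.commutator_mem_commutator ha hb
        rw [h, Subgroup.mem_bot, commutatorElement_def, mul_inv_eq_one, mul_inv_eq_iff_eq_mul] at h1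
        exact h1
      let R' : Sylow r G := hRr.toSylow hidx
      have hR' : (R' : Subgroup G) = R := IsPGroup.toSylow_coe hRr hidx
      have hRc : IsMulCommutative (R' : Subgroup G) := by
        refine ⟨⟨fun a b => Subtype.ext ?_⟩⟩
        exact hcomm _ (hR'.le a.2) _ (hR'.le b.2)
      refine (Cfsg.Agent.Lib.Blk89.ItoMichler.normal_comm_iff r
        Cfsg.Agent.Lib.Core.PSolvable2.isPSolvable_of_isSolvable R').mp
        ⟨by rw [hR']; exact hR, hRc⟩ χ hχ
    · exact h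
  have hcomm : ∀ u : R, u ∈ commutator R ↔ (u : G) ∈ V := by
    intro u
    rw [← hRR, ← Subgroup.map_subtype_commutator]
    constructor
    · intro h
      exact ⟨u, h, rfl⟩
    · rintro ⟨u', hu', hue⟩
      have h1 : u' = u := Subtype.ext hue
      rwa [← h1]
  have hcen : ∀ v ∈ V, ∀ u ∈ R, v * u = u * v := by
    set Z := V ⊓ Subgroup.centralizer (R : Set G) with hZ
    have hZn : Z.Normal := by
      refine ⟨fun c hc g => ⟨hV.conj_mem c hc.1 g, ?_⟩⟩
      show g * c * g⁻¹ ∈ Subgroup.centralizer (R : Set G)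
      rw [Subgroup.mem_centralizer_iff]
      intro x hx
      have h1 : g⁻¹ * x * g⁻¹⁻¹ ∈ R := hR.conj_mem x hx g⁻¹
      have h2 := (Subgroup.mem_centralizer_iff.mp hc.2) _ h1
      rw [inv_inv] at h2
      calc x * (g * c * g⁻¹) = g * ((g⁻¹ * x * g) * c) * g⁻¹ := by group
        _ = g * (c * (g⁻¹ * x * g)) * g⁻¹ := by rw [h2]
        _ = g * c * g⁻¹ * x := by group
    have hZ1 : Z ≠ ⊥ := by
      haveI : Group.IsNilpotent R := hRr.isNilpotent
      let N : Subgroup R := V.subgroupOf R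
      haveI hNn : N.Normal := hV.subgroupOf R
      have hN1 : N ≠ ⊥ := by
        obtain ⟨v, hv⟩ := Subgroup.ne_bot_iff_exists_ne_one.mp hVmin.2.1
        intro h
        have h1 : (⟨v, hVR v.2⟩ : R) ∈ N := by
          simpa [N, Subgroup.mem_subgroupOf] using v.2
        rw [h, Subgroup.mem_bot] at h1
        apply hv
        have h2 : ((v : V) : G) = 1 := congrArg Subtype.val h1
        exact Subtype.ext h2
      have h1 := Cfsg.Agent.Lib.SolvStruct.Fit.inf_center_ne_bot N hN1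
      obtain ⟨z, hz⟩ := Subgroup.ne_bot_iff_exists_ne_one.mp h1
      intro h
      have h2 : ((z : R) : G) ∈ Z := by
        refine ⟨z.2.1, ?_⟩
        show ((z : R) : G) ∈ Subgroup.centralizer (R : Set G)
        rw [Subgroup.mem_centralizer_iff]
        intro x hx
        have h3 := Subgroup.mem_center_iff.mp z.2.2 ⟨x, hx⟩
        exact congrArg Subtype.val h3
      rw [h, Subgroup.mem_bot] at h2
      apply hz
      exact Subtype.ext (Subtype.ext h2)
    rcases hVmin.2.2 Z hZn inf_le_left with h | h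
    · exact absurd h hZ1
    · intro v hv u hu
      have h1 : v ∈ Z := by rw [h]; exact hv
      exact (Subgroup.mem_centralizer_iff.mp h1.2 u hu).symm
  exact ⟨R, hR, hVR, hRr, hidx, hcomm, hcen⟩

/-- **Case B.** -/
theorem caseB {p q r : ℕ} [Fact p.Prime] [Fact q.Prime] [Fact r.Prime] (hpq : p ≠ q)
    (hpr : p ≠ r) (hqr : q ≠ r) {V : Subgroup G} [hV : V.Normal]
    (hVmin : IsMinNormal V) (hVr : IsPGroup r V)
    (hno_pq : ∀ χ : IrrCharacter G, ¬ p * q ∣ charDegree (χ : G → ℂ))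
    (hno_pr : ∀ χ : IrrCharacter G, ¬ p * r ∣ charDegree (χ : G → ℂ))
    (hno_qr : ∀ χ : IrrCharacter G, ¬ q * r ∣ charDegree (χ : G → ℂ))
    (hρp : ∃ χ : IrrCharacter G, p ∣ charDegree (χ : G → ℂ))
    (hρq : ∃ χ : IrrCharacter G, q ∣ charDegree (χ : G → ℂ))
    (hρr : ∃ χ : IrrCharacter G, r ∣ charDegree (χ : G → ℂ))
    (hr : ∀ χ : IrrCharacter (G ⧸ V), ¬ r ∣ charDegree (χ : G ⧸ V → ℂ)) : False := by
  classical
  obtain ⟨R, hR, S⟩ := exists_setting hVmin hVr hρr hr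
  haveI := hR
  have hpp : p.Prime := Fact.out
  have hqp : q.Prime := Fact.out
  have hrp : r.Prime := Fact.out
  have cpq : p.Coprime q := (Nat.coprime_primes hpp hqp).mpr hpq
  have cpr : p.Coprime r := (Nat.coprime_primes hpp hrp).mpr hpr
  have cqr : q.Coprime r := (Nat.coprime_primes hqp hrp).mpr hqr
  have hV1 : V ≠ ⊥ := hVmin.2.1
  have hgp : ∀ lam : V →* ℂˣ, lam ≠ 1 → GoodAt (G ⧸ R) p (stab S.actV lam) := fun lam h =>
    S.good_lam (fun χ h1 h2 => hno_pr χ (cpr.mul_dvd_of_dvd_of_dvd h2 h1)) h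
  have hgq : ∀ lam : V →* ℂˣ, lam ≠ 1 → GoodAt (G ⧸ R) q (stab S.actV lam) := fun lam h =>
    S.good_lam (fun χ h1 h2 => hno_qr χ (cqr.mul_dvd_of_dvd_of_dvd h2 h1)) h
  obtain ⟨P₀⟩ : Nonempty (Sylow p (G ⧸ R)) := inferInstance
  obtain ⟨Q₀⟩ : Nonempty (Sylow q (G ⧸ R)) := inferInstance
  obtain ⟨Pt⟩ : Nonempty (Sylow p G) := inferInstance
  obtain ⟨Qt⟩ : Nonempty (Sylow q G) := inferInstance
  by_cases hPn : (P₀ : Subgroup (G ⧸ R)).Normal
  · have hnP := fun P' => all_normal hPn P'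
    by_cases hQn : (Q₀ : Subgroup (G ⧸ R)).Normal
    · have hnQ := fun Q' => all_normal hQn Q'
      obtain ⟨χ, hχ⟩ := caseB1 hpq Pt Qt (sup_normal Pt hnP) (sup_normal Qt hnQ)
        (exists_moved S hpr hV1 Pt hnP hgp hρp) (exists_moved S hqr hV1 Qt hnQ hgq hρq)
      exact hno_pq χ hχ
    · exact caseB2 S hpr hV1 (fun χ h => hno_pq χ (by rwa [mul_comm])) cpq.symm cqr cpr hno_qr hno_pr
        hρp Pt hnP Q₀ hQn
  · by_cases hQn : (Q₀ : Subgroup (G ⧸ R)).Normal
    · have hnQ := fun Q' => all_normal hQn Q'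
      exact caseB2 S hqr hV1 hno_pq cpq cpr cqr hno_pr hno_qr hρq Qt hnQ P₀ hPn
    · obtain ⟨n, hn⟩ := IsPGroup.iff_card.mp (S.hRr.to_le S.hVR)
      have hn0 : 0 < n := by
        rcases Nat.eq_zero_or_pos n with rfl | h0
        · exfalso
          apply hV1
          apply Subgroup.eq_bot_of_card_eq
          simpa using hn
        · exact h0
      have hcomm : ∀ a b : V, a * b = b * a := fun a b =>
        Subtype.ext (S.hcen a a.2 b (S.hVR b.2))
      have hW : Nat.card (V →* ℂˣ) = r ^ n := by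
        rw [card_hom, commutator_eq_bot_of_comm hcomm, Subgroup.index_bot, hn]
      obtain ⟨χ, hχ⟩ := exists_deg_mul S.actV hpq hrp hW hn0 hgp hgq P₀ Q₀ hPn hQn
      obtain ⟨χ', hχ'⟩ := inflate χ
      apply hno_pq χ'
      rw [hχ']
      exact hχ

/-- The two cases. -/
theorem core {p q r : ℕ} [Fact p.Prime] [Fact q.Prime] [Fact r.Prime] (hpq : p ≠ q)
    (hpr : p ≠ r) (hqr : q ≠ r) {V : Subgroup G} [hV : V.Normal]
    (hVmin : IsMinNormal V)
    (hno_pq : ∀ χ : IrrCharacter G, ¬ p * q ∣ charDegree (χ : G → ℂ))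
    (hno_pr : ∀ χ : IrrCharacter G, ¬ p * r ∣ charDegree (χ : G → ℂ))
    (hno_qr : ∀ χ : IrrCharacter G, ¬ q * r ∣ charDegree (χ : G → ℂ))
    (hρp : ∃ χ : IrrCharacter G, p ∣ charDegree (χ : G → ℂ))
    (hρq : ∃ χ : IrrCharacter G, q ∣ charDegree (χ : G → ℂ))
    (hρr : ∃ χ : IrrCharacter G, r ∣ charDegree (χ : G → ℂ))
    (hr : ∀ χ : IrrCharacter (G ⧸ V), ¬ r ∣ charDegree (χ : G ⧸ V → ℂ)) : False := by
  obtain ⟨s, hs, hexp⟩ := isMinNormal_exponent hVmin
  haveI : Fact s.Prime := ⟨hs⟩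
  have hVs : IsPGroup s V := by
    rintro ⟨x, hx⟩
    refine ⟨1, Subtype.ext ?_⟩
    simpa using hexp x hx
  by_cases hsr : s = r
  · subst hsr
    exact caseB hpq hpr hqr hVmin hVs hno_pq hno_pr hno_qr hρp hρq hρr hr
  · exact caseA hpq ((Nat.coprime_primes Fact.out Fact.out).mpr hpr)
      ((Nat.coprime_primes Fact.out Fact.out).mpr hqr) hVmin (isMinNormal_comm hVmin) hVs hsr
      hno_pq hno_pr hno_qr hρp hρq hρr hr

/-- **Pálfy's theorem.** -/
theorem palfy_aux (n : ℕ) : ∀ (G : Type u) [Group G] [Finite G] [Group.IsSolvable G],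
    Nat.card G ≤ n → ∀ (p q r : ℕ) [Fact p.Prime] [Fact q.Prime] [Fact r.Prime],
    p ≠ q → q ≠ r → p ≠ r →
    (∃ χ : IrrCharacter G, p ∣ charDegree (χ : G → ℂ)) →
    (∃ χ : IrrCharacter G, q ∣ charDegree (χ : G → ℂ)) →
    (∃ χ : IrrCharacter G, r ∣ charDegree (χ : G → ℂ)) →
    (∃ χ : IrrCharacter G, p * q ∣ charDegree (χ : G → ℂ)) ∨
    (∃ χ : IrrCharacter G, q * r ∣ charDegree (χ : G → ℂ)) ∨
    (∃ χ : IrrCharacter G, p * r ∣ charDegree (χ : G → ℂ)) := by
  induction n with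
  | zero =>
    intro G _ _ _ hn
    have : 0 < Nat.card G := Nat.card_pos
    omega
  | succ n ih =>
    intro G _ _ _ hn p q r _ _ _ hpq hqr hpr hρp hρq hρr
    by_contra hcon
    push Not at hcon
    obtain ⟨hno_pq, hno_qr, hno_pr⟩ := hcon
    have hG : Nontrivial G := by
      by_contra hc
      rw [not_nontrivial_iff_subsingleton] at hc
      obtain ⟨χ, hχ⟩ := hρp
      have h1 := Cfsg.Agent.Lib.Char.Linear.isIrr_deg_one_of_comm
        (fun a b => Subsingleton.elim _ _) χ.2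
      have h2 : charDegree (χ : G → ℂ) = 1 :=
        charDegree_eq_of_eq_natCast (n := 1) (by simpa using h1)
      rw [h2] at hχ
      exact (Fact.out : p.Prime).one_lt.ne' (Nat.dvd_one.mp hχ)
    obtain ⟨V, hVmin, -⟩ := exists_isMinNormal_le (⊤ : Subgroup G) inferInstance top_ne_bot
    haveI hV : V.Normal := hVmin.1
    have hcard : Nat.card (G ⧸ V) ≤ n := by
      have h1 : Nat.card V * V.index = Nat.card G := Subgroup.card_mul_index V
      have h2 : 1 < Nat.card V := by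
        rw [Subgroup.one_lt_card_iff_ne_bot]
        exact hVmin.2.1
      have h3 : Nat.card (G ⧸ V) = V.index := rfl
      have h4 : 0 < V.index := Nat.pos_of_ne_zero Subgroup.index_ne_zero_of_finite
      rw [h3]
      nlinarith
    by_cases h1 : ∀ χ : IrrCharacter (G ⧸ V), ¬ r ∣ charDegree (χ : G ⧸ V → ℂ)
    · exact core hpq hpr hqr hVmin hno_pq hno_pr hno_qr hρp hρq hρr h1
    by_cases h2 : ∀ χ : IrrCharacter (G ⧸ V), ¬ q ∣ charDegree (χ : G ⧸ V → ℂ)
    · exact core hpr hpq hqr.symm hVmin hno_pr hno_pq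
        (fun χ h => hno_qr χ (by rwa [mul_comm])) hρp hρr hρq h2
    by_cases h3 : ∀ χ : IrrCharacter (G ⧸ V), ¬ p ∣ charDegree (χ : G ⧸ V → ℂ)
    · exact core hqr hpq.symm hpr.symm hVmin hno_qr
        (fun χ h => hno_pq χ (by rwa [mul_comm])) (fun χ h => hno_pr χ (by rwa [mul_comm]))
        hρq hρr hρp h3
    push Not at h1 h2 h3
    rcases ih (G ⧸ V) hcard p q r hpq hqr hpr h3 h2 h1 with ⟨χ, hχ⟩ | ⟨χ, hχ⟩ | ⟨χ, hχ⟩
    · obtain ⟨χ', hχ'⟩ := inflate χ
      exact hno_pq χ' (by rw [hχ']; exact hχ)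
    · obtain ⟨χ', hχ'⟩ := inflate χ
      exact hno_qr χ' (by rw [hχ']; exact hχ)
    · obtain ⟨χ', hχ'⟩ := inflate χ
      exact hno_pr χ' (by rw [hχ']; exact hχ)

end Cfsg.Agent.Lib.Palfy.Main
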