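import Mathlib

/-!
# Minimal invariant subgroups of an abelian group under a group action

Elementary Clifford-type lemmas for an additive group `M` with an action of `H`: minimal `X`-invariant
subgroups, the "graph" dichotomy for the `X`-submodule generated by a sum of two vectors in distinct
minimal invariant subgroups.
-/

set_option autoImplicit false

namespace Cfsg.Agent.Lib.Palfy.Mod

open scoped Pointwise

universe u v

variable {H : Type u} [Group H] {M : Type v} [AddCommGroup M] [DistribMulAction H M]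

/-- `U` is invariant under `X`. -/
def IsInv (X : Subgroup H) (U : AddSubgroup M) : Prop := ∀ x ∈ X, ∀ u ∈ U, x • u ∈ U

/-- `U` is a minimal nonzero `X`-invariant subgroup. -/
structure IsMinInv (X : Subgroup H) (U : AddSubgroup M) : Prop where
  ne : U ≠ ⊥
  inv : IsInv X U
  min : ∀ W : AddSubgroup M, W ≤ U → IsInv X W → W = ⊥ ∨ W = U

/-- `X`-equivariant isomorphism between subgroups. -/
def EqIso (X : Subgroup H) (U₁ U₂ : AddSubgroup M) : Prop :=
  ∃ φ : U₁ →+ U₂, Function.Bijective φ ∧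
    ∀ x ∈ X, ∀ u u' : U₁, (u' : M) = x • (u : M) → (φ u' : M) = x • (φ u : M)

theorem EqIso.refl (X : Subgroup H) (U : AddSubgroup M) : EqIso X U U :=
  ⟨AddMonoidHom.id _, Function.bijective_id, fun _ _ _ _ h => h⟩

theorem EqIso.symm {X : Subgroup H} {U₁ U₂ : AddSubgroup M}
    (hinv₁ : IsInv X U₁) (h : EqIso X U₁ U₂) : EqIso X U₂ U₁ := by
  obtain ⟨φ, hφ, he⟩ := h
  let e := AddEquiv.ofBijective φ hφ
  refine ⟨e.symm.toAddMonoidHom, e.symm.bijective, ?_⟩
  intro x hx u u' huu'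
  have h1 := he x hx (e.symm u) ⟨x • ((e.symm u : U₁) : M), hinv₁ x hx _ (e.symm u).2⟩ rfl
  have h2 : φ (e.symm u) = u := e.apply_symm_apply u
  have h3 : (φ ⟨x • ((e.symm u : U₁) : M), hinv₁ x hx _ (e.symm u).2⟩ : M) = (u' : M) := by
    rw [h1, h2, huu']
  have h4 : φ ⟨x • ((e.symm u : U₁) : M), hinv₁ x hx _ (e.symm u).2⟩ = u' := Subtype.ext h3
  have h5 : e.symm u' = ⟨x • ((e.symm u : U₁) : M), hinv₁ x hx _ (e.symm u).2⟩ := by
    rw [AddEquiv.symm_apply_eq]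
    exact h4.symm
  change ((e.symm u' : U₁) : M) = x • ((e.symm u : U₁) : M)
  rw [h5]

theorem EqIso.trans {X : Subgroup H} {U₁ U₂ U₃ : AddSubgroup M}
    (h₁ : EqIso X U₁ U₂) (h₂ : EqIso X U₂ U₃) : EqIso X U₁ U₃ := by
  obtain ⟨φ, hφ, he⟩ := h₁
  obtain ⟨ψ, hψ, hf⟩ := h₂
  refine ⟨ψ.comp φ, hψ.comp hφ, ?_⟩
  intro x hx u u' h
  have h1 := he x hx u u' h
  exact hf x hx (φ u) (φ u') h1

theorem EqIso.fix {X : Subgroup H} {U₁ U₂ : AddSubgroup M} (h : EqIso X U₁ U₂) {x : H} (hx : x ∈ X)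
    (hfix : ∀ u ∈ U₁, x • u = u) : ∀ u ∈ U₂, x • u = u := by
  obtain ⟨φ, hφ, he⟩ := h
  intro u hu
  obtain ⟨a, ha⟩ := hφ.2 ⟨u, hu⟩
  have h1 := he x hx a a (hfix _ a.2).symm
  rw [ha] at h1
  exact h1.symm

theorem IsMinInv.inf_eq_bot {X : Subgroup H} {U₁ U₂ : AddSubgroup M} (h₁ : IsMinInv X U₁)
    (h₂ : IsMinInv X U₂) (hne : U₁ ≠ U₂) : U₁ ⊓ U₂ = ⊥ := by
  have hinv : IsInv X (U₁ ⊓ U₂) := fun x hx u hu => ⟨h₁.inv x hx u hu.1, h₂.inv x hx u hu.2⟩
  rcases h₁.min _ inf_le_left hinv with h | h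
  · exact h
  · rcases h₂.min _ inf_le_right hinv with h' | h'
    · exact h'
    · exact absurd (h.symm.trans h') hne

/-- A nonzero invariant subgroup of the sum, meeting both summands trivially, gives an isomorphism. -/
theorem eqIso_of_graph {X : Subgroup H} {U₁ U₂ W : AddSubgroup M} (h₁ : IsMinInv X U₁)
    (h₂ : IsMinInv X U₂) (h12 : U₁ ⊓ U₂ = ⊥) (hW : IsInv X W) (hle : W ≤ U₁ ⊔ U₂)
    (hW1 : W ⊓ U₁ = ⊥) (hW2 : W ⊓ U₂ = ⊥) (hne : W ≠ ⊥) :
    ∃ φ : U₁ →+ U₂, Function.Bijective φ ∧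
      (∀ x ∈ X, ∀ u u' : U₁, (u' : M) = x • (u : M) → (φ u' : M) = x • (φ u : M)) ∧
      ∀ (a : U₁) (b : U₂), (a : M) + b ∈ W → φ a = b := by
  classical
  obtain ⟨⟨w, hw⟩, hw0'⟩ := (AddSubgroup.ne_bot_iff_exists_ne_zero).mp hne
  have hw0 : w ≠ 0 := fun h => hw0' (Subtype.ext h)
  obtain ⟨a₀, ha₀, b₀, hb₀, hab₀⟩ := AddSubgroup.mem_sup.mp (hle hw)
  -- existence on the left
  let S : AddSubgroup M :=
    { carrier := {a | a ∈ U₁ ∧ ∃ b ∈ U₂, a + b ∈ W}
      zero_mem' := ⟨U₁.zero_mem, 0, U₂.zero_mem, by simpa using W.zero_mem⟩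
      add_mem' := by
        rintro a a' ⟨ha, b, hb, hab⟩ ⟨ha', b', hb', hab'⟩
        refine ⟨U₁.add_mem ha ha', b + b', U₂.add_mem hb hb', ?_⟩
        have := W.add_mem hab hab'
        convert this using 1
        abel
      neg_mem' := by
        rintro a ⟨ha, b, hb, hab⟩
        refine ⟨U₁.neg_mem ha, -b, U₂.neg_mem hb, ?_⟩
        have := W.neg_mem hab
        convert this using 1
        abel }
  have hSinv : IsInv X S := by
    rintro x hx a ⟨ha, b, hb, hab⟩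
    refine ⟨h₁.inv x hx a ha, x • b, h₂.inv x hx b hb, ?_⟩
    have := hW x hx _ hab
    rwa [smul_add] at this
  have hSle : S ≤ U₁ := fun a ha => ha.1
  have hS : S = U₁ := by
    rcases h₁.min S hSle hSinv with h | h
    · exfalso
      have h0 : a₀ ∈ S := ⟨ha₀, b₀, hb₀, by rw [hab₀]; exact hw⟩
      rw [h, AddSubgroup.mem_bot] at h0
      have h3 : w ∈ W ⊓ U₂ := ⟨hw, by rw [← hab₀, h0, zero_add]; exact hb₀⟩
      rw [hW2, AddSubgroup.mem_bot] at h3
      exact hw0 h3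
    · exact h
  -- existence on the right
  let T : AddSubgroup M :=
    { carrier := {b | b ∈ U₂ ∧ ∃ a ∈ U₁, a + b ∈ W}
      zero_mem' := ⟨U₂.zero_mem, 0, U₁.zero_mem, by simpa using W.zero_mem⟩
      add_mem' := by
        rintro a a' ⟨ha, b, hb, hab⟩ ⟨ha', b', hb', hab'⟩
        refine ⟨U₂.add_mem ha ha', b + b', U₁.add_mem hb hb', ?_⟩
        have := W.add_mem hab hab'
        convert this using 1
        abel
      neg_mem' := by
        rintro a ⟨ha, b, hb, hab⟩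
        refine ⟨U₂.neg_mem ha, -b, U₁.neg_mem hb, ?_⟩
        have := W.neg_mem hab
        convert this using 1
        abel }
  have hTinv : IsInv X T := by
    rintro x hx a ⟨ha, b, hb, hab⟩
    refine ⟨h₂.inv x hx a ha, x • b, h₁.inv x hx b hb, ?_⟩
    have := hW x hx _ hab
    rwa [smul_add] at this
  have hTle : T ≤ U₂ := fun a ha => ha.1
  have hT : T = U₂ := by
    rcases h₂.min T hTle hTinv with h | h
    · exfalso
      have h0 : b₀ ∈ T := ⟨hb₀, a₀, ha₀, by rw [hab₀]; exact hw⟩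
      rw [h, AddSubgroup.mem_bot] at h0
      have h3 : w ∈ W ⊓ U₁ := ⟨hw, by rw [← hab₀, h0, add_zero]; exact ha₀⟩
      rw [hW1, AddSubgroup.mem_bot] at h3
      exact hw0 h3
    · exact h
  -- uniqueness
  have huniq : ∀ (a : M) (b b' : M), b ∈ U₂ → b' ∈ U₂ → a + b ∈ W → a + b' ∈ W → b = b' := by
    intro a b b' hb hb' h h'
    have h3 : b - b' ∈ W ⊓ U₂ := by
      refine ⟨?_, U₂.sub_mem hb hb'⟩
      have e : b - b' = (a + b) - (a + b') := by abel
      rw [e]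
      exact W.sub_mem h h'
    rw [hW2, AddSubgroup.mem_bot] at h3
    exact sub_eq_zero.mp h3
  have hex : ∀ a : U₁, ∃ b : U₂, (a : M) + b ∈ W := by
    intro a
    have : (a : M) ∈ S := by rw [hS]; exact a.2
    obtain ⟨-, b, hb, hab⟩ := this
    exact ⟨⟨b, hb⟩, hab⟩
  choose f hf using hex
  have hfu : ∀ (a : U₁) (b : U₂), (a : M) + b ∈ W → f a = b := fun a b h =>
    Subtype.ext (huniq _ _ _ (f a).2 b.2 (hf a) h)
  let φ : U₁ →+ U₂ := AddMonoidHom.mk' f (by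
    intro a a'
    apply hfu
    have := W.add_mem (hf a) (hf a')
    convert this using 1
    simp only [AddSubgroup.coe_add]
    abel)
  refine ⟨φ, ⟨?_, ?_⟩, ?_, fun a b h => hfu a b h⟩
  · rw [injective_iff_map_eq_zero]
    intro a ha
    have h3 : (a : M) ∈ W ⊓ U₁ := by
      refine ⟨?_, a.2⟩
      have := hf a
      have h4 : f a = 0 := ha
      rw [h4] at this
      simpa using this
    rw [hW1, AddSubgroup.mem_bot] at h3
    exact Subtype.ext h3
  · intro b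
    have : (b : M) ∈ T := by rw [hT]; exact b.2
    obtain ⟨-, a, ha, hab⟩ := this
    exact ⟨⟨a, ha⟩, hfu _ _ hab⟩
  · intro x hx u u' h
    have h3 := hW x hx _ (hf u)
    rw [smul_add, ← h] at h3
    have h4 := huniq (u' : M) _ _ (f u').2 (h₂.inv x hx _ (f u).2) (hf u') h3
    exact h4

/-- The `X`-invariant subgroup generated by `v`. -/
def gen (X : Subgroup H) (v : M) : AddSubgroup M :=
  AddSubgroup.closure {y | ∃ x ∈ X, y = x • v}

theorem mem_gen_self (X : Subgroup H) (v : M) : v ∈ gen X v :=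
  AddSubgroup.subset_closure ⟨1, X.one_mem, (one_smul _ _).symm⟩

theorem gen_inv (X : Subgroup H) (v : M) : IsInv X (gen X v) := by
  intro x hx u hu
  induction hu using AddSubgroup.closure_induction with
  | mem y hy =>
    obtain ⟨x', hx', rfl⟩ := hy
    exact AddSubgroup.subset_closure ⟨x * x', X.mul_mem hx hx', (mul_smul _ _ _).symm⟩
  | zero => simp
  | add a b _ _ ha hb =>
    rw [smul_add]
    exact (gen X v).add_mem ha hb
  | neg a _ ha =>
    rw [smul_neg]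
    exact (gen X v).neg_mem ha

theorem gen_le {X : Subgroup H} {W : AddSubgroup M} (hW : IsInv X W) {v : M} (hv : v ∈ W) :
    gen X v ≤ W := by
  refine (AddSubgroup.closure_le _).2 ?_
  rintro _ ⟨x, hx, rfl⟩
  exact hW x hx v hv

/-- A group element normalizing `X` and fixing `v` stabilizes `gen X v`. -/
theorem smul_mem_gen {X : Subgroup H} (hX : X.Normal) {g : H} {v : M} (hg : g • v = v) {a : M}
    (ha : a ∈ gen X v) : g • a ∈ gen X v := by
  induction ha using AddSubgroup.closure_induction with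
  | mem y hy =>
    obtain ⟨x, hx, rfl⟩ := hy
    refine AddSubgroup.subset_closure ⟨g * x * g⁻¹, hX.conj_mem x hx g, ?_⟩
    have hg' : g⁻¹ • v = v := by
      conv_lhs => rw [← hg]
      exact inv_smul_smul g v
    rw [mul_smul, mul_smul, hg']
  | zero => simp
  | add a b _ _ ha hb =>
    rw [smul_add]
    exact (gen X v).add_mem ha hb
  | neg a _ ha =>
    rw [smul_neg]
    exact (gen X v).neg_mem ha

/-- Dichotomy for `gen X (v₁ + v₂)`. -/
theorem gen_add_dichotomy {X : Subgroup H} {U₁ U₂ : AddSubgroup M} (h₁ : IsMinInv X U₁)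
    (h₂ : IsMinInv X U₂) (hne : U₁ ≠ U₂) {v₁ v₂ : M} (hv₁ : v₁ ∈ U₁) (hv₂ : v₂ ∈ U₂)
    (hv₁0 : v₁ ≠ 0) (hv₂0 : v₂ ≠ 0) :
    (v₁ ∈ gen X (v₁ + v₂) ∧ v₂ ∈ gen X (v₁ + v₂)) ∨
      ∃ φ : U₁ →+ U₂, Function.Bijective φ ∧
        (∀ x ∈ X, ∀ u u' : U₁, (u' : M) = x • (u : M) → (φ u' : M) = x • (φ u : M)) ∧
        φ ⟨v₁, hv₁⟩ = ⟨v₂, hv₂⟩ := by
  by_cases h : v₁ ∈ gen X (v₁ + v₂)
  · left
    refine ⟨h, ?_⟩
    have := (gen X (v₁ + v₂)).sub_mem (mem_gen_self X (v₁ + v₂)) h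
    simpa using this
  right
  have h12 := h₁.inf_eq_bot h₂ hne
  set W := gen X (v₁ + v₂) with hW
  have hWinv : IsInv X W := gen_inv X _
  have hsup : IsInv X (U₁ ⊔ U₂) := by
    intro x hx u hu
    obtain ⟨a, ha, b, hb, rfl⟩ := AddSubgroup.mem_sup.mp hu
    rw [smul_add]
    exact (U₁ ⊔ U₂).add_mem (AddSubgroup.mem_sup_left (h₁.inv x hx a ha))
      (AddSubgroup.mem_sup_right (h₂.inv x hx b hb))
  have hle : W ≤ U₁ ⊔ U₂ :=
    gen_le hsup ((U₁ ⊔ U₂).add_mem (AddSubgroup.mem_sup_left hv₁) (AddSubgroup.mem_sup_right hv₂))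
  have hinfinv₁ : IsInv X (W ⊓ U₁) := fun x hx u hu => ⟨hWinv x hx u hu.1, h₁.inv x hx u hu.2⟩
  have hinfinv₂ : IsInv X (W ⊓ U₂) := fun x hx u hu => ⟨hWinv x hx u hu.1, h₂.inv x hx u hu.2⟩
  have hW1 : W ⊓ U₁ = ⊥ := by
    rcases h₁.min _ inf_le_right hinfinv₁ with h' | h'
    · exact h'
    · exfalso
      apply h
      have : v₁ ∈ W ⊓ U₁ := by rw [h']; exact hv₁
      exact this.1
  have hW2 : W ⊓ U₂ = ⊥ := by
    rcases h₂.min _ inf_le_right hinfinv₂ with h' | h'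
    · exact h'
    · exfalso
      apply h
      have h3 : v₂ ∈ W ⊓ U₂ := by rw [h']; exact hv₂
      have := W.sub_mem (mem_gen_self X (v₁ + v₂)) h3.1
      simpa using this
  have hWne : W ≠ ⊥ := by
    intro h0
    have h3 : v₁ + v₂ ∈ W := mem_gen_self X _
    rw [h0, AddSubgroup.mem_bot] at h3
    have h4 : v₁ ∈ U₁ ⊓ U₂ := by
      refine ⟨hv₁, ?_⟩
      have : v₁ = -v₂ := eq_neg_of_add_eq_zero_left h3
      rw [this]
      exact U₂.neg_mem hv₂
    rw [h12, AddSubgroup.mem_bot] at h4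
    exact hv₁0 h4
  obtain ⟨φ, hφ, he, hab⟩ := eqIso_of_graph h₁ h₂ h12 hWinv hle hW1 hW2 hWne
  exact ⟨φ, hφ, he, hab _ _ (mem_gen_self X _)⟩

/-- If the two are not isomorphic, the vectors are in the generated subgroup. -/
theorem mem_gen_of_not_eqIso {X : Subgroup H} {U₁ U₂ : AddSubgroup M} (h₁ : IsMinInv X U₁)
    (h₂ : IsMinInv X U₂) (hni : ¬ EqIso X U₁ U₂) {v₁ v₂ : M} (hv₁ : v₁ ∈ U₁) (hv₂ : v₂ ∈ U₂)
    (hv₁0 : v₁ ≠ 0) (hv₂0 : v₂ ≠ 0) : v₁ ∈ gen X (v₁ + v₂) ∧ v₂ ∈ gen X (v₁ + v₂) := by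
  have hne : U₁ ≠ U₂ := by
    rintro rfl
    exact hni (EqIso.refl X U₁)
  rcases gen_add_dichotomy h₁ h₂ hne hv₁ hv₂ hv₁0 hv₂0 with h | ⟨φ, hφ, he, -⟩
  · exact h
  · exact absurd ⟨φ, hφ, he⟩ hni

theorem gen_eq_of_minInv {X : Subgroup H} {U : AddSubgroup M} (h : IsMinInv X U) {v : M} (hv : v ∈ U)
    (hv0 : v ≠ 0) : gen X v = U := by
  rcases h.min _ (gen_le h.inv hv) (gen_inv X v) with h' | h'
  · exfalso
    have := mem_gen_self X v
    rw [h', AddSubgroup.mem_bot] at this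
    exact hv0 this
  · exact h'

/-- Any minimal invariant subgroup of `U₁ ⊔ U₂` for non-isomorphic minimal `U₁`, `U₂` is one of them. -/
theorem minInv_le_sup {X : Subgroup H} {U₁ U₂ W : AddSubgroup M} (h₁ : IsMinInv X U₁)
    (h₂ : IsMinInv X U₂) (hni : ¬ EqIso X U₁ U₂) (hW : IsMinInv X W) (hle : W ≤ U₁ ⊔ U₂) :
    W = U₁ ∨ W = U₂ := by
  by_contra hcon
  push Not at hcon
  have hne : U₁ ≠ U₂ := by
    rintro rfl
    exact hni (EqIso.refl X U₁)
  obtain ⟨φ, hφ, he, -⟩ := eqIso_of_graph h₁ h₂ (h₁.inf_eq_bot h₂ hne) hW.inv hle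
    (hW.inf_eq_bot h₁ hcon.1) (hW.inf_eq_bot h₂ hcon.2) hW.ne
  exact hni ⟨φ, hφ, he⟩

theorem smul_eq_bot {U : AddSubgroup M} {g : H} (h : g • U = ⊥) : U = ⊥ := by
  rw [eq_bot_iff]
  intro a ha
  have h1 : g • a ∈ g • U := AddSubgroup.smul_mem_pointwise_smul _ _ _ ha
  rw [h, AddSubgroup.mem_bot] at h1
  rw [AddSubgroup.mem_bot]
  have := congrArg (g⁻¹ • ·) h1
  simpa using this

/-- The translate of an invariant subgroup is invariant under a normal subgroup. -/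
theorem IsInv.smul {X : Subgroup H} (hX : X.Normal) {U : AddSubgroup M} (h : IsInv X U) (g : H) :
    IsInv X (g • U) := by
  intro x hx u hu
  rw [AddSubgroup.mem_pointwise_smul_iff_inv_smul_mem] at hu ⊢
  have h1 := h (g⁻¹ * x * g) (by simpa using hX.conj_mem x hx g⁻¹) _ hu
  have h2 : (g⁻¹ * x * g) • g⁻¹ • u = g⁻¹ • x • u := by
    rw [mul_smul, mul_smul, smul_inv_smul]
  rwa [h2] at h1

theorem IsMinInv.smul {X : Subgroup H} (hX : X.Normal) {U : AddSubgroup M} (h : IsMinInv X U) (g : H) :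
    IsMinInv X (g • U) := by
  refine ⟨?_, h.inv.smul hX g, ?_⟩
  · intro h0
    exact h.ne (smul_eq_bot h0)
  · intro W hW hWinv
    have h1 : g⁻¹ • W ≤ U := by
      intro a ha
      rw [AddSubgroup.mem_pointwise_smul_iff_inv_smul_mem, inv_inv] at ha
      have := hW ha
      rwa [AddSubgroup.mem_pointwise_smul_iff_inv_smul_mem, inv_smul_smul] at this
    rcases h.min _ h1 (hWinv.smul hX g⁻¹) with h2 | h2
    · left
      exact smul_eq_bot h2
    · right
      rw [← h2, smul_inv_smul]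

variable [Finite M]

/-- A nonzero invariant subgroup contains a minimal invariant subgroup. -/
theorem exists_minInv_le {X : Subgroup H} {U : AddSubgroup M} (h : IsInv X U) (hne : U ≠ ⊥) :
    ∃ W ≤ U, IsMinInv X W := by
  obtain ⟨W, hW⟩ := exists_minimal_of_wellFoundedLT
    (fun W : AddSubgroup M => W ≠ ⊥ ∧ IsInv X W ∧ W ≤ U) ⟨U, hne, h, le_rfl⟩
  refine ⟨W, hW.1.2.2, hW.1.1, hW.1.2.1, ?_⟩
  intro W' hW' hinv
  by_cases h0 : W' = ⊥
  · exact Or.inl h0
  · right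
    exact le_antisymm hW' (hW.2 ⟨h0, hinv, hW'.trans hW.1.2.2⟩ hW')

/-- A subgroup containing all minimal `X`-invariant subgroups is everything. -/
theorem eq_top_of_minInv_le {X : Subgroup H} (hX : X.Normal)
    (hirr : ∀ W : AddSubgroup M, (∀ g : H, ∀ w ∈ W, g • w ∈ W) → W = ⊥ ∨ W = ⊤) [Nontrivial M]
    {S : AddSubgroup M} (hS : ∀ U : AddSubgroup M, IsMinInv X U → U ≤ S) : S = ⊤ := by
  obtain ⟨U, -, hU⟩ := exists_minInv_le (X := X) (U := (⊤ : AddSubgroup M))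
    (fun _ _ _ _ => AddSubgroup.mem_top _) top_ne_bot
  let W : AddSubgroup M := ⨆ g : H, g • U
  have hWinv : ∀ g : H, ∀ w ∈ W, g • w ∈ W := by
    intro g w hw
    have h1 : W ≤ W.comap (DistribSMul.toAddMonoidHom M g) := by
      refine iSup_le fun g' a ha => ?_
      rw [AddSubgroup.mem_comap]
      have h2 : g • a ∈ (g * g') • U := by
        rw [mul_smul]
        exact AddSubgroup.smul_mem_pointwise_smul _ _ _ ha
      exact (le_iSup (fun g : H => g • U) (g * g')) h2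
    exact h1 hw
  have hW : W = ⊤ := by
    rcases hirr W hWinv with h0 | h0
    · exfalso
      apply hU.ne
      have h1 : (1 : H) • U ≤ W := le_iSup (fun g : H => g • U) 1
      rw [one_smul, h0] at h1
      exact le_bot_iff.mp h1
    · exact h0
  rw [eq_top_iff, ← hW]
  exact iSup_le fun g => hS _ (hU.smul hX g)

end Cfsg.Agent.Lib.Palfy.Mod
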