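import Cfsg.Agent.Lib.Palfy.Setting

/-!
# Sylow subgroups normal modulo `R`
-/

set_option autoImplicit false
set_option linter.unusedSectionVars false
set_option linter.style.haveILetI false
set_option linter.deprecated false

namespace Cfsg.Agent.Lib.Palfy.NormalSyl

open Cfsg Cfsg.Agent.Lib.Palfy.DualAct Cfsg.Agent.Lib.Palfy.Class2 Cfsg.Agent.Lib.Palfy.Spread
open Cfsg.Agent.Lib.Palfy.Setting Cfsg.Agent.Lib.Palfy.Moved
open Cfsg.Agent.Lib.Char.Basic Cfsg.Agent.Lib.Char.Ortho Cfsg.Agent.Lib.Char.Complete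
open Cfsg.Agent.Lib.Char.Conj Cfsg.Agent.Lib.Char.Degree
open Cfsg.Agent.Lib.Char.Clifford Cfsg.Agent.Lib.Char.CliffordCorr
open scoped ComplexConjugate commutatorElement

universe u

theorem commutator_eq_bot_of_comm {X : Type*} [Group X] (h : ∀ a b : X, a * b = b * a) :
    commutator X = ⊥ := by
  rw [commutator_def, Subgroup.commutator_eq_bot_iff_le_centralizer]
  intro a _
  rw [Subgroup.mem_centralizer_iff]
  intro b _
  exact h b a

variable {G : Type u} [Group G] [Finite G] [Group.IsSolvable G]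
variable {R V : Subgroup G} [hR : R.Normal] [hV : V.Normal] {r : ℕ} [Fact r.Prime]
variable {x : ℕ} [Fact x.Prime]

theorem sup_normal (Q : Sylow x G) (hn : ∀ Q' : Sylow x (G ⧸ R), (Q' : Subgroup (G ⧸ R)).Normal) :
    ((Q : Subgroup G) ⊔ R).Normal := by
  let Q' : Sylow x (G ⧸ R) := Q.mapSurjective (QuotientGroup.mk'_surjective R)
  have h1 : (Q' : Subgroup (G ⧸ R)) = (Q : Subgroup G).map (QuotientGroup.mk' R) :=
    Sylow.coe_mapSurjective _ _
  have h2 := (hn Q').comap (QuotientGroup.mk' R)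
  rw [h1, Subgroup.comap_map_eq, QuotientGroup.ker_mk'] at h2
  exact h2

theorem mem_of_good (Q : Sylow x G) (hn : ∀ Q' : Sylow x (G ⧸ R), (Q' : Subgroup (G ⧸ R)).Normal)
    {S' : Subgroup (G ⧸ R)} (hg : GoodAt (G ⧸ R) x S') {g : G} (hgQ : g ∈ (Q : Subgroup G)) :
    (g : G ⧸ R) ∈ S' := by
  obtain ⟨Q₁, hQ₁, -, -⟩ := hg
  let Q' : Sylow x (G ⧸ R) := Q.mapSurjective (QuotientGroup.mk'_surjective R)
  have h1 : (Q' : Subgroup (G ⧸ R)) = (Q : Subgroup G).map (QuotientGroup.mk' R) :=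
    Sylow.coe_mapSurjective _ _
  have h2 : Q₁ = Q' := by
    obtain ⟨k, hk⟩ := MulAction.exists_smul_eq (G ⧸ R) Q' Q₁
    haveI := hn Q'
    rw [← hk, Sylow.smul_eq_of_normal]
  apply hQ₁
  rw [h2, h1]
  exact ⟨g, hgQ, rfl⟩

variable (S : Setting R V r)

include S

theorem fix_of_normal (Q : Sylow x G) (hn : ∀ Q' : Sylow x (G ⧸ R), (Q' : Subgroup (G ⧸ R)).Normal)
    (hgx : ∀ lam : V →* ℂˣ, lam ≠ 1 → GoodAt (G ⧸ R) x (stab S.actV lam)) {g : G}
    (hgQ : g ∈ (Q : Subgroup G)) (lam : V →* ℂˣ) : dualAct hV g lam = lam := by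
  by_cases hlam : lam = 1
  · rw [hlam, map_one]
  · exact mem_of_good Q hn (hgx lam hlam) hgQ

theorem centralizes_V (Q : Sylow x G)
    (hn : ∀ Q' : Sylow x (G ⧸ R), (Q' : Subgroup (G ⧸ R)).Normal)
    (hgx : ∀ lam : V →* ℂˣ, lam ≠ 1 → GoodAt (G ⧸ R) x (stab S.actV lam)) {g : G}
    (hgQ : g ∈ (Q : Subgroup G)) {v : G} (hv : v ∈ V) : g⁻¹ * v * g = v := by
  have hcomm : ∀ a b : V, a * b = b * a := fun a b =>
    Subtype.ext (S.hcen a a.2 b (S.hVR b.2))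
  have h1 : commutator V = ⊥ := commutator_eq_bot_of_comm hcomm
  have hmem : g⁻¹ * v * g⁻¹⁻¹ ∈ V := hV.conj_mem v hv g⁻¹
  have h2 : (⟨g⁻¹ * v * g⁻¹⁻¹, hmem⟩ : V) * (⟨v, hv⟩ : V)⁻¹ ∈ commutator V := by
    apply mem_commutator_of_forall
    intro lam
    have h3 := fix_of_normal S Q hn hgx hgQ lam
    have h4 : dualAct hV g lam ⟨v, hv⟩ = lam ⟨g⁻¹ * v * g⁻¹⁻¹, hmem⟩ := dualAct_apply hV g lam ⟨v, hv⟩
    rw [h3] at h4
    rw [map_mul, map_inv, ← h4, mul_inv_cancel]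
  rw [h1, Subgroup.mem_bot, mul_inv_eq_one] at h2
  have h5 := congrArg Subtype.val h2
  simpa using h5

/-- `Q` acts nontrivially on the linear characters of `R`. -/
theorem exists_moved (hxr : x ≠ r) (hV1 : V ≠ ⊥) (Q : Sylow x G)
    (hn : ∀ Q' : Sylow x (G ⧸ R), (Q' : Subgroup (G ⧸ R)).Normal)
    (hgx : ∀ lam : V →* ℂˣ, lam ≠ 1 → GoodAt (G ⧸ R) x (stab S.actV lam))
    (hρ : ∃ χ : IrrCharacter G, x ∣ charDegree (χ : G → ℂ)) :
    ∃ g ∈ (Q : Subgroup G), ∃ μ : R →* ℂˣ, dualAct hR g μ ≠ μ := by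
  classical
  by_contra hcon
  push Not at hcon
  have hxp : x.Prime := Fact.out
  have hrp : r.Prime := Fact.out
  have hdisj := IsPGroup.disjoint_of_ne x r hxr _ _ Q.isPGroup' S.hRr
  -- the commutator lies in `V`
  have h1 : ∀ g ∈ (Q : Subgroup G), ∀ u ∈ R, g⁻¹ * u * g⁻¹⁻¹ * u⁻¹ ∈ V := by
    intro g hg u hu
    have hmem : g⁻¹ * u * g⁻¹⁻¹ ∈ R := hR.conj_mem u hu g⁻¹
    have h2 : (⟨g⁻¹ * u * g⁻¹⁻¹, hmem⟩ : R) * (⟨u, hu⟩ : R)⁻¹ ∈ commutator R := by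
      apply mem_commutator_of_forall
      intro μ
      have h3 := hcon g hg μ
      have h4 : dualAct hR g μ ⟨u, hu⟩ = μ ⟨g⁻¹ * u * g⁻¹⁻¹, hmem⟩ := dualAct_apply hR g μ ⟨u, hu⟩
      rw [h3] at h4
      rw [map_mul, map_inv, ← h4, mul_inv_cancel]
    exact (S.hcomm _).mp h2
  -- the coprime action
  have hAK : (Q : Subgroup G) ≤ Subgroup.normalizer (R : Set G) := Subgroup.le_normalizer_of_normal
  have hcop : (Nat.card (Q : Subgroup G)).Coprime (Nat.card R) := by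
    obtain ⟨a, ha⟩ := IsPGroup.iff_card.mp Q.isPGroup'
    obtain ⟨b, hb⟩ := IsPGroup.iff_card.mp S.hRr
    rw [ha, hb]
    exact Nat.Coprime.pow _ _ ((Nat.coprime_primes hxp hrp).mpr hxr)
  have hsolv : Group.IsSolvable (Q : Subgroup G) ∨ Group.IsSolvable R := Or.inr inferInstance
  have h2 := Cfsg.Agent.Lib.Coprime.Action.commutator_commutator_eq hAK hcop hsolv
  have h3 : ⁅R, (Q : Subgroup G)⁆ ≤ V := by
    rw [Subgroup.commutator_le]
    intro u hu g hg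
    have h4 := h1 g⁻¹ (Q.toSubgroup.inv_mem hg) u hu
    have h5 : ⁅u, g⁆ = (g⁻¹⁻¹ * u * g⁻¹⁻¹⁻¹ * u⁻¹)⁻¹ := by
      rw [commutatorElement_def]
      group
    rw [h5]
    exact V.inv_mem (by simpa using h4)
  have h4 : ⁅⁅R, (Q : Subgroup G)⁆, (Q : Subgroup G)⁆ = ⊥ := by
    rw [eq_bot_iff, Subgroup.commutator_le]
    intro a ha g hg
    have h5 := centralizes_V S Q hn hgx (Q.toSubgroup.inv_mem hg) (h3 ha)
    rw [Subgroup.mem_bot, commutatorElement_def]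
    have h6 : g * a * g⁻¹ = a := by simpa using h5
    have h7 : g * a = a * g := by
      rw [mul_inv_eq_iff_eq_mul] at h6
      exact h6
    rw [← h7]
    group
  rw [h4] at h2
  have hcent : ∀ u ∈ R, ∀ g ∈ (Q : Subgroup G), u * g = g * u := by
    intro u hu g hg
    have h5 := Subgroup.commutator_mem_commutator hu hg
    rw [← h2, Subgroup.mem_bot, commutatorElement_def, mul_inv_eq_one, mul_inv_eq_iff_eq_mul] at h5
    exact h5
  -- `Q` is normal and abelian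
  have hN := sup_normal (R := R) Q hn
  have hall : ∀ Q' : Sylow x G, Q' = Q := by
    intro Q'
    obtain ⟨k, hk, rfl⟩ := Cfsg.Agent.Lib.Palfy.KCore.exists_conj_of_sup_normal Q R hN Q'
    exact smul_sylow_eq_of_centralizes (fun a ha => hcent k hk a ha)
  haveI : Subsingleton (Sylow x G) := ⟨fun a b => by rw [hall a, hall b]⟩
  have hQn : (Q : Subgroup G).Normal := Sylow.normal_of_subsingleton Q
  have hQc : IsMulCommutative (Q : Subgroup G) := by
    have hlam₀ : ∃ lam : V →* ℂˣ, lam ≠ 1 := by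
      obtain ⟨v₀, hv₀⟩ := Subgroup.ne_bot_iff_exists_ne_one.mp hV1
      have hcomm : ∀ a b : V, a * b = b * a := fun a b =>
        Subtype.ext (S.hcen a a.2 b (S.hVR b.2))
      have h5 : v₀ ∉ commutator V := by
        rw [commutator_eq_bot_of_comm hcomm, Subgroup.mem_bot]
        exact hv₀
      obtain ⟨lam, -, hlam⟩ := exists_annihil_ne_one le_rfl h5
      refine ⟨lam, fun h => hlam ?_⟩
      rw [h]
      rfl
    obtain ⟨lam, hlam⟩ := hlam₀
    obtain ⟨Q₁, -, -, hQ₁c⟩ := hgx lam hlam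
    let Q' : Sylow x (G ⧸ R) := Q.mapSurjective (QuotientGroup.mk'_surjective R)
    have he : (Q' : Subgroup (G ⧸ R)) = (Q : Subgroup G).map (QuotientGroup.mk' R) :=
      Sylow.coe_mapSurjective _ _
    have hQ₁ : Q₁ = Q' := by
      obtain ⟨k, hk⟩ := MulAction.exists_smul_eq (G ⧸ R) Q' Q₁
      haveI := hn Q'
      rw [← hk, Sylow.smul_eq_of_normal]
    have hQ'c : ∀ a ∈ (Q' : Subgroup (G ⧸ R)), ∀ b ∈ (Q' : Subgroup (G ⧸ R)), a * b = b * a := by
      rw [← hQ₁]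
      exact hQ₁c
    refine ⟨⟨fun a b => ?_⟩⟩
    have ha : ((a : G) : G ⧸ R) ∈ (Q' : Subgroup (G ⧸ R)) := by
      rw [he]
      exact ⟨a, a.2, rfl⟩
    have hb : ((b : G) : G ⧸ R) ∈ (Q' : Subgroup (G ⧸ R)) := by
      rw [he]
      exact ⟨b, b.2, rfl⟩
    have h5 := hQ'c _ ha _ hb
    have h8 : ((a : G) * (b : G))⁻¹ * ((b : G) * (a : G)) ∈ R := by
      apply QuotientGroup.eq.mp
      rw [QuotientGroup.mk_mul, QuotientGroup.mk_mul, h5]
    have h9 : ((a : G) * (b : G))⁻¹ * ((b : G) * (a : G)) ∈ (Q : Subgroup G) :=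
      Q.toSubgroup.mul_mem (Q.toSubgroup.inv_mem (Q.toSubgroup.mul_mem a.2 b.2))
        (Q.toSubgroup.mul_mem b.2 a.2)
    have h10 := Subgroup.disjoint_def.mp hdisj h9 h8
    rw [inv_mul_eq_one] at h10
    exact Subtype.ext h10
  obtain ⟨χ, hχ⟩ := hρ
  exact (Cfsg.Agent.Lib.Blk89.ItoMichler.normal_comm_iff x
    Cfsg.Agent.Lib.Core.PSolvable2.isPSolvable_of_isSolvable Q).mp ⟨hQn, hQc⟩ χ hχ

omit S in
/-- The index of an inertia group. -/
theorem dvd_index_hom (Q : Sylow x G) (hN : ((Q : Subgroup G) ⊔ R).Normal) {g : G}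
    (hg : g ∈ (Q : Subgroup G)) {μ : R →* ℂˣ} (hμ : dualAct hR g μ ≠ μ) :
    x ∣ (inertia hR (linChar μ)).index := by
  classical
  have hRT : R ≤ inertia hR (linChar μ) := fun n hn => (mem_inertia_iff hR n μ).mpr (triv_R n hn μ)
  exact dvd_index_of_moved _ R hRT Q
    (Cfsg.Agent.Lib.Palfy.KCore.exists_conj_of_sup_normal Q R hN) hg
    (fun h => hμ ((mem_inertia_iff hR g μ).mp h))

omit S in
/-- Characters over `μ` have degree divisible by the index of the inertia group. -/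
theorem index_dvd_deg (μ : R →* ℂˣ) :
    ∃ χ : IrrCharacter G, (inertia hR (linChar μ)).index ∣ charDegree (χ : G → ℂ) := by
  classical
  letI := Fintype.ofFinite G
  letI : Fintype R := Fintype.ofFinite _
  obtain ⟨χ, hχ⟩ := Cfsg.Agent.Lib.Blk89.ItoMichler.exists_irr_over (G := G) (N := R)
    (isIrr_linChar μ)
  exact ⟨χ, (Dvd.intro _ rfl).trans
    (Cfsg.Agent.Lib.Blk89.ItoMichler.deg_mul_index_dvd hR χ.2 (isIrr_linChar μ) hχ)⟩

omit S in
/-- Two subgroups do not cover. -/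
theorem exists_not_mem_both {X : Type*} [Group X] (A B : Subgroup X) (hA : A ≠ ⊤) (hB : B ≠ ⊤) :
    ∃ a, a ∉ A ∧ a ∉ B := by
  classical
  have hA' : ∃ a, a ∉ A := by
    by_contra hc
    push Not at hc
    exact hA ((Subgroup.eq_top_iff' A).mpr hc)
  have hB' : ∃ b, b ∉ B := by
    by_contra hc
    push Not at hc
    exact hB ((Subgroup.eq_top_iff' B).mpr hc)
  obtain ⟨a, ha⟩ := hA'
  obtain ⟨b, hb⟩ := hB'
  by_cases haB : a ∈ B
  · by_cases hbA : b ∈ A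
    · refine ⟨a * b, ?_, ?_⟩
      · intro h
        apply ha
        have := A.mul_mem h (A.inv_mem hbA)
        simpa using this
      · intro h
        apply hb
        have := B.mul_mem (B.inv_mem haB) h
        simpa using this
    · exact ⟨b, hbA, hb⟩
  · exact ⟨a, ha, haB⟩

omit S in
/-- Both Sylow subgroups are normal modulo `R`. -/
theorem caseB1 {p q : ℕ} [Fact p.Prime] [Fact q.Prime] (hpq : p ≠ q) (P : Sylow p G) (Q : Sylow q G)
    (hNP : ((P : Subgroup G) ⊔ R).Normal) (hNQ : ((Q : Subgroup G) ⊔ R).Normal)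
    (hmP : ∃ g ∈ (P : Subgroup G), ∃ μ : R →* ℂˣ, dualAct hR g μ ≠ μ)
    (hmQ : ∃ g ∈ (Q : Subgroup G), ∃ μ : R →* ℂˣ, dualAct hR g μ ≠ μ) :
    ∃ χ : IrrCharacter G, p * q ∣ charDegree (χ : G → ℂ) := by
  classical
  have hne : ∀ {x : ℕ} [Fact x.Prime] (Q₁ : Sylow x G),
      (∃ g ∈ (Q₁ : Subgroup G), ∃ μ : R →* ℂˣ, dualAct hR g μ ≠ μ) →
        fixW (W := R →* ℂˣ) (dualAct hR) (Q₁ : Subgroup G) ≠ ⊤ := by
    intro x _ Q₁ ⟨g, hg, μ, hμ⟩ h
    have h1 : μ ∈ fixW (W := R →* ℂˣ) (dualAct hR) (Q₁ : Subgroup G) := by rw [h]; trivial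
    exact hμ (h1 g hg)
  obtain ⟨μ, hμP, hμQ⟩ := exists_not_mem_both _ _ (hne P hmP) (hne Q hmQ)
  rw [mem_fixW] at hμP hμQ
  push Not at hμP hμQ
  obtain ⟨g₁, hg₁, hμ₁⟩ := hμP
  obtain ⟨g₂, hg₂, hμ₂⟩ := hμQ
  have h1 := dvd_index_hom P hNP hg₁ hμ₁
  have h2 := dvd_index_hom Q hNQ hg₂ hμ₂
  obtain ⟨χ, hχ⟩ := index_dvd_deg (G := G) μ
  refine ⟨χ, ?_⟩
  exact (Nat.Coprime.mul_dvd_of_dvd_of_dvd ((Nat.coprime_primes Fact.out Fact.out).mpr hpq) h1 h2).trans hχ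

end Cfsg.Agent.Lib.Palfy.NormalSyl
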