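import Cfsg.Agent.Lib.Palfy.ThmZ
import Cfsg.Agent.Lib.CharDeg.ItoMichlerSolv

/-!
# Reduction to a unique minimal normal subgroup
-/

set_option autoImplicit false
set_option linter.unusedSectionVars false
set_option linter.unusedVariables false

namespace Cfsg.Agent.Lib.Palfy.Red

open scoped Pointwise ComplexConjugate commutatorElement
open Cfsg Subgroup
open Cfsg.Agent.Lib.Char.Basic Cfsg.Agent.Lib.Char.Ortho Cfsg.Agent.Lib.Char.Complete
  Cfsg.Agent.Lib.Char.Clifford Cfsg.Agent.Lib.Char.CliffordCorr Cfsg.Agent.Lib.Char.Conj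
  Cfsg.Agent.Lib.Char.Degree Cfsg.Agent.Lib.Char.Linear Cfsg.Agent.Lib.CharDeg.SmallDegree
  Cfsg.Agent.Lib.CharDeg.ItoMichlerSolv Cfsg.Agent.Lib.Solvable.Basic

universe u

/-- The prime `p` divides a degree. -/
def Rho (G : Type u) [Group G] (p : ℕ) : Prop := ∃ χ : IrrCharacter G, p ∣ charDegree (χ : G → ℂ)

/-- No degree is divisible by both. -/
def NoPair (G : Type u) [Group G] (a b : ℕ) : Prop :=
  ∀ χ : IrrCharacter G, a ∣ charDegree (χ : G → ℂ) → ¬ b ∣ charDegree (χ : G → ℂ)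

theorem NoPair.symm {G : Type u} [Group G] {a b : ℕ} (h : NoPair G a b) : NoPair G b a :=
  fun χ hb ha => h χ ha hb

variable {G : Type u} [Group G] [Finite G]

omit [Finite G] in
theorem charDegree_comp {H : Type u} [Group H] (π : G →* H) (φ : H → ℂ) :
    charDegree (φ ∘ π) = charDegree φ := by
  simp [charDegree]

/-- Pull back an irreducible character along a surjection. -/
def pull {H : Type u} [Group H] [Finite H] (π : G →* H) (hπ : Function.Surjective π)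
    (φ : IrrCharacter H) : IrrCharacter G :=
  ⟨(φ : H → ℂ) ∘ π, Cfsg.Agent.Lib.Char.Linear.isIrrCharacter_comp π hπ φ.2⟩

theorem rho_of_surj {H : Type u} [Group H] [Finite H] (π : G →* H) (hπ : Function.Surjective π)
    {p : ℕ} (h : Rho H p) : Rho G p := by
  obtain ⟨φ, hφ⟩ := h
  refine ⟨pull π hπ φ, ?_⟩
  change p ∣ charDegree ((φ : H → ℂ) ∘ π)
  rwa [charDegree_comp]

theorem noPair_of_surj {H : Type u} [Group H] [Finite H] (π : G →* H) (hπ : Function.Surjective π)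
    {a b : ℕ} (h : NoPair G a b) : NoPair H a b := by
  intro φ ha hb
  apply h (pull π hπ φ)
  · change a ∣ charDegree ((φ : H → ℂ) ∘ π)
    rwa [charDegree_comp]
  · change b ∣ charDegree ((φ : H → ℂ) ∘ π)
    rwa [charDegree_comp]

/-- Characters trivial on `N` come from the quotient. -/
theorem exists_quot_of_ker {N : Subgroup G} [N.Normal] (χ : IrrCharacter G)
    (hk : ∀ n ∈ N, (χ : G → ℂ) n = (χ : G → ℂ) 1) :
    ∃ φ : IrrCharacter (G ⧸ N), (χ : G → ℂ) = (φ : G ⧸ N → ℂ) ∘ QuotientGroup.mk' N := by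
  obtain ⟨φ, hφ, he⟩ := isIrrCharacter_descend (QuotientGroup.mk' N) (QuotientGroup.mk'_surjective N)
    χ.2 (fun k hk' => hk k (by rwa [QuotientGroup.ker_mk'] at hk'))
  exact ⟨⟨φ, hφ⟩, he⟩

/-- The value of a character is unchanged by an element of the kernel. -/
theorem character_mul_of_ker {χ : G → ℂ} (hχ : IsCharacter G χ) {n : G} (hn : χ n = χ 1) (g : G) :
    χ (n * g) = χ g := by
  obtain ⟨k, ρ, rfl⟩ := hχ
  have h1 := (character_eq_one_iff ρ n).mp hn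
  simp only [Representation.character, map_mul, h1, one_mul]

/-- A linear constituent of a restriction takes the value `1` on the kernel. -/
theorem lin_eq_one_of_ker [Fintype G] {L : Subgroup G} [Fintype L] {χ : G → ℂ} (hχ : IsCharacter G χ)
    (ν : L →* ℂˣ) (hcon : classInner (fun l : L => χ l) (fun l : L => ((ν l : ℂˣ) : ℂ)) ≠ 0) {n : L}
    (hn : χ (n : G) = χ 1) : ν n = 1 := by
  classical
  have hS : ∑ l : L, χ l * conj (((ν l : ℂˣ) : ℂ)) ≠ 0 := by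
    intro h
    apply hcon
    unfold classInner
    rw [h, mul_zero]
  have h1 : ∑ l : L, χ l * conj (((ν l : ℂˣ) : ℂ)) =
      conj (((ν n : ℂˣ) : ℂ)) * ∑ l : L, χ l * conj (((ν l : ℂˣ) : ℂ)) := by
    rw [Finset.mul_sum]
    refine (Fintype.sum_equiv (Equiv.mulLeft n) _ _ ?_).symm
    intro l
    simp only [Equiv.coe_mulLeft, map_mul, Units.val_mul, Subgroup.coe_mul]
    rw [character_mul_of_ker hχ hn]
    ring
  have h2 : conj (((ν n : ℂˣ) : ℂ)) = 1 := by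
    have h3 : (1 - conj (((ν n : ℂˣ) : ℂ))) * ∑ l : L, χ l * conj (((ν l : ℂˣ) : ℂ)) = 0 := by
      rw [sub_mul, one_mul, ← h1, sub_self]
    rcases mul_eq_zero.mp h3 with h4 | h4
    · exact (sub_eq_zero.mp h4).symm
    · exact absurd h4 hS
  have h5 : ((ν n : ℂˣ) : ℂ) = 1 := by
    have := congrArg (starRingEnd ℂ) h2
    simpa using this
  exact Units.ext h5

/-- A linear constituent on a normal subgroup: commutators lie in the kernel. -/
theorem commutator_ker [Fintype G] {K : Subgroup G} [Fintype K] [DecidableEq (K → ℂ)] (hK : K.Normal)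
    {χ : G → ℂ} (hχ : IsIrrCharacter G χ) {θ : K → ℂ} (hθ : IsIrrCharacter K θ) (h1 : θ 1 = 1)
    (hcon : classInner (fun k : K => χ k) θ ≠ 0) {a b : G} (ha : a ∈ K) (hb : b ∈ K) :
    χ (a * b * a⁻¹ * b⁻¹) = χ 1 := by
  classical
  have hcl := clifford_restrict hK hχ hθ hcon
  have hd : a * b * a⁻¹ * b⁻¹ ∈ K := K.mul_mem (K.mul_mem (K.mul_mem ha hb) (K.inv_mem ha)) (K.inv_mem hb)
  have key : ∀ ψ ∈ orbitFinset hK θ, ψ ⟨_, hd⟩ = ψ 1 := by
    intro ψ hψ
    obtain ⟨g, rfl⟩ := (mem_orbitFinset hK θ _).mp hψ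
    have hirr := isIrrCharacter_conjOn hK g hθ
    have h2 : conjOn hK g θ 1 = 1 := by rw [conjOn_apply_one, h1]
    obtain ⟨lam, hlam⟩ := exists_hom_of_deg_one (isCharacter_of_isIrrCharacter hirr) h2
    rw [hlam]
    have e : (⟨_, hd⟩ : K) = (⟨a, ha⟩ : K) * ⟨b, hb⟩ * (⟨a, ha⟩ : K)⁻¹ * (⟨b, hb⟩ : K)⁻¹ := rfl
    simp only [e, map_mul, map_inv, map_one]
    rw [mul_comm (lam ⟨a, ha⟩) (lam ⟨b, hb⟩)]
    simp
  have e1 := congrFun hcl ⟨_, hd⟩
  have e2 := congrFun hcl 1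
  simp only [Pi.smul_apply, Finset.sum_apply, smul_eq_mul] at e1 e2
  have e3 : (((1 : K) : G)) = 1 := rfl
  rw [e3] at e2
  rw [e1, e2]
  congr 1
  exact Finset.sum_congr rfl key

/-- The degree of an irreducible character divides the index of an abelian normal subgroup. -/
theorem charDegree_dvd_index {χ : G → ℂ} (hχ : IsIrrCharacter G χ) (A : Subgroup G) [A.Normal]
    (hA : ∀ a ∈ A, ∀ b ∈ A, a * b = b * a) : charDegree χ ∣ A.index := by
  obtain ⟨n, ρ, hρ, rfl⟩ := hχ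
  rw [charDegree_character]
  haveI := hρ
  exact Cfsg.Agent.Lib.Char.Ito.finrank_dvd_index_of_abelian_normal ρ A hA

/-- **Step 2.** -/
theorem step2 [Group.IsSolvable G] {N : Subgroup G} (hN : IsMinNormal N) {r : ℕ} (hr : r.Prime)
    (hbad : ∀ χ : IrrCharacter G, (∀ n ∈ N, (χ : G → ℂ) n = (χ : G → ℂ) 1) →
      ¬ r ∣ charDegree (χ : G → ℂ))
    (hrho : Rho G r) (χ : IrrCharacter G) (hk : ∃ n ∈ N, (χ : G → ℂ) n ≠ (χ : G → ℂ) 1) :
    r ∣ charDegree (χ : G → ℂ) := by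
  classical
  by_contra hnd
  haveI : Fact r.Prime := ⟨hr⟩
  cases nonempty_fintype G
  haveI hNn : N.Normal := hN.1
  have hq : ∀ φ : IrrCharacter (G ⧸ N), ¬ r ∣ charDegree (φ : G ⧸ N → ℂ) := by
    intro φ hd
    apply hbad (pull (QuotientGroup.mk' N) (QuotientGroup.mk'_surjective N) φ)
    · intro n hn
      change (φ : G ⧸ N → ℂ) (QuotientGroup.mk' N n) = (φ : G ⧸ N → ℂ) (QuotientGroup.mk' N 1)
      have h0 : QuotientGroup.mk' N n = 1 := (QuotientGroup.eq_one_iff n).mpr hn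
      rw [map_one, h0]
    · change r ∣ charDegree ((φ : G ⧸ N → ℂ) ∘ QuotientGroup.mk' N)
      rwa [charDegree_comp]
  obtain ⟨R⟩ : Nonempty (Sylow r G) := inferInstance
  have hmk : Function.Surjective (QuotientGroup.mk' N) := QuotientGroup.mk'_surjective N
  have hRq := sylow_normal_of_not_dvd hr _ (G ⧸ N) rfl inferInstance hq (Sylow.mapSurjective hmk R)
  rw [Sylow.coe_mapSurjective] at hRq
  have hKn : ((R : Subgroup G) ⊔ N).Normal := by
    have h1 := hRq.comap (QuotientGroup.mk' N)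
    rwa [Subgroup.comap_map_eq, QuotientGroup.ker_mk'] at h1
  set K := (R : Subgroup G) ⊔ N with hK
  haveI : K.Normal := hKn
  have hRp : IsPGroup r ((R : Subgroup G).map (QuotientGroup.mk' N)) := R.isPGroup'.map _
  have hmem : ∀ a ∈ K, QuotientGroup.mk' N a ∈ (R : Subgroup G).map (QuotientGroup.mk' N) := by
    intro a ha
    obtain ⟨u, hu, v, hv, rfl⟩ := Subgroup.mem_sup_of_normal_right.mp ha
    refine ⟨u, hu, ?_⟩
    have h0 : QuotientGroup.mk' N v = 1 := (QuotientGroup.eq_one_iff v).mpr hv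
    rw [map_mul, h0, mul_one]
  have hcommN : ∀ a ∈ K, ∀ b ∈ K, a * b * a⁻¹ * b⁻¹ ∈ N := by
    intro a ha b hb
    have h1 := comm_of_normal_of_not_dvd hr hq hRq hRp ⟨_, hmem a ha⟩ ⟨_, hmem b hb⟩
    have h2 : QuotientGroup.mk' N a * QuotientGroup.mk' N b =
        QuotientGroup.mk' N b * QuotientGroup.mk' N a := congrArg Subtype.val h1
    rw [← QuotientGroup.eq_one_iff]
    change QuotientGroup.mk' N (a * b * a⁻¹ * b⁻¹) = 1
    simp only [map_mul, map_inv]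
    rw [h2]
    group
  -- a constituent on `K`
  obtain ⟨θ, hθ, hcon⟩ := exists_irr_constituent (G := K)
    (χ := fun k : K => (χ : G → ℂ) k)
    (isClassFunction_of_isCharacter (isCharacter_restrict K (isCharacter_of_isIrrCharacter χ.2)))
    (by
      intro h0
      have h1 := congrFun h0 1
      exact irr_one_ne_zero χ.2 h1)
  obtain ⟨e, he⟩ := charDegree_eq_mul_of_constituent hKn χ.2 hθ hcon
  have hθnd : ¬ r ∣ charDegree θ := by
    intro h
    apply hnd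
    rw [he]
    exact Dvd.dvd.mul_left h _
  haveI : (N.subgroupOf K).Normal := inferInstance
  have hNK : ∀ a ∈ N.subgroupOf K, ∀ b ∈ N.subgroupOf K, a * b = b * a := by
    intro a ha b hb
    exact Subtype.ext (isMinNormal_comm hN _ ha _ hb)
  have hθd := charDegree_dvd_index hθ (N.subgroupOf K) hNK
  have hidx : (N.subgroupOf K).index ∣ Nat.card R := by
    have h1 : (N.subgroupOf K).index = N.relIndex K := rfl
    rw [h1, hK, Subgroup.relIndex_sup_right]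
    exact Subgroup.relIndex_dvd_card _ _
  obtain ⟨k, hk'⟩ := IsPGroup.iff_card.mp R.isPGroup'
  rw [hk'] at hidx
  have hθ1 : charDegree θ = 1 := by
    obtain ⟨m, -, hm⟩ := (Nat.dvd_prime_pow hr).mp (hθd.trans hidx)
    rcases Nat.eq_zero_or_pos m with h0 | h0
    · rw [hm, h0, pow_zero]
    · exfalso
      apply hθnd
      rw [hm]
      exact dvd_pow_self r h0.ne'
  have hθone : θ 1 = 1 := by
    rw [← charDegree_natCast (isCharacter_of_isIrrCharacter hθ), hθ1, Nat.cast_one]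
  have hker : ∀ a ∈ K, ∀ b ∈ K, (χ : G → ℂ) (a * b * a⁻¹ * b⁻¹) = (χ : G → ℂ) 1 := by
    intro a ha b hb
    exact commutator_ker hKn χ.2 hθ hθone hcon ha hb
  let D : Subgroup G := ⁅K, K⁆
  have hDn : D.Normal := Subgroup.commutator_normal K K
  have hDN : D ≤ N := by
    rw [Subgroup.commutator_le]
    intro a ha b hb
    exact hcommN a ha b hb
  have hDk : D ≤ charKer (isCharacter_of_isIrrCharacter χ.2) := by
    rw [Subgroup.commutator_le]
    intro a ha b hb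
    exact hker a ha b hb
  rcases hN.2.2 D hDn hDN with h | h
  · -- `K` is abelian
    have hab : ∀ a ∈ K, ∀ b ∈ K, a * b = b * a := by
      intro a ha b hb
      have h1 := Subgroup.commutator_mem_commutator ha hb
      change ⁅a, b⁆ ∈ D at h1
      rw [h, Subgroup.mem_bot, commutatorElement_eq_one_iff_mul_comm] at h1
      exact h1
    have hRK : (R : Subgroup G) ≤ K := le_sup_left
    have hRn : (R : Subgroup G).Normal := by
      refine ⟨fun x hx g => ?_⟩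
      have hyK : g * x * g⁻¹ ∈ K := hKn.conj_mem x (hRK hx) g
      have hle : ((g • R : Sylow r G) : Subgroup G) ≤ K := by
        intro y hy
        have h1 : y ∈ MulAut.conj g • (R : Subgroup G) := by
          rw [← Sylow.coe_subgroup_smul]
          exact hy
        have h2 := (Subgroup.mem_pointwise_smul_iff_inv_smul_mem).mp h1
        have h3 : g⁻¹ * y * g ∈ (R : Subgroup G) := by
          simpa [MulAut.smul_def, MulAut.conj_apply, mul_assoc] using h2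
        have h4 := hKn.conj_mem _ (hRK h3) g
        have e : g * (g⁻¹ * y * g) * g⁻¹ = y := by group
        rwa [e] at h4
      have hnorm : K ≤ normalizer ((R : Subgroup G) : Set G) := by
        intro y hy
        apply Subgroup.centralizer_le_normalizer
        rw [Subgroup.mem_centralizer_iff]
        intro t ht
        exact hab t (hRK ht) y hy
      have h2 := IsPGroup.inf_normalizer_sylow (g • R).2 R
      have h3 : ((g • R : Sylow r G) : Subgroup G) ≤ (R : Subgroup G) := by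
        have h5 : ((g • R : Sylow r G) : Subgroup G) ≤
            ((g • R : Sylow r G) : Subgroup G) ⊓ normalizer ((R : Subgroup G) : Set G) :=
          le_inf le_rfl (hle.trans hnorm)
        exact (h5.trans h2.le).trans inf_le_right
      apply h3
      have h4 : g * x * g⁻¹ ∈ MulAut.conj g • (R : Subgroup G) := by
        refine ⟨x, hx, ?_⟩
        simp [MulAut.smul_def, MulAut.conj_apply]
      rw [← Sylow.coe_subgroup_smul] at h4
      exact h4
    obtain ⟨χ', hχ'⟩ := hrho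
    haveI := hRn
    have h5 := charDegree_dvd_index χ'.2 (R : Subgroup G) (fun a ha b hb => hab a (hRK ha) b (hRK hb))
    exact R.not_dvd_index (hχ'.trans h5)
  · -- `N` lies in the kernel
    obtain ⟨n, hn, hn1⟩ := hk
    apply hn1
    apply hDk
    rw [h]
    exact hn

/-- A character nontrivial on two elements of two disjoint abelian normal subgroups. -/
theorem exists_irr_two {N₁ N₂ : Subgroup G} (h₁ : N₁.Normal) (h₂ : N₂.Normal) (hd : N₁ ⊓ N₂ = ⊥)
    (hc₁ : ∀ a ∈ N₁, ∀ b ∈ N₁, a * b = b * a) (hc₂ : ∀ a ∈ N₂, ∀ b ∈ N₂, a * b = b * a) {n₁ n₂ : G}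
    (hn₁ : n₁ ∈ N₁) (hn₂ : n₂ ∈ N₂) (hn₁1 : n₁ ≠ 1) (hn₂1 : n₂ ≠ 1) :
    ∃ χ : IrrCharacter G, (χ : G → ℂ) n₁ ≠ (χ : G → ℂ) 1 ∧ (χ : G → ℂ) n₂ ≠ (χ : G → ℂ) 1 := by
  classical
  cases nonempty_fintype G
  have hdisj : Disjoint N₁ N₂ := disjoint_iff.mpr hd
  have h12 : ∀ a ∈ N₁, ∀ b ∈ N₂, a * b = b * a := fun a ha b hb =>
    Subgroup.commute_of_normal_of_disjoint _ _ h₁ h₂ hdisj a b ha hb
  haveI := h₂
  let L : Subgroup G := N₁ ⊔ N₂
  have hab : ∀ a ∈ L, ∀ b ∈ L, a * b = b * a := by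
    intro a ha b hb
    obtain ⟨a₁, ha₁, a₂, ha₂, rfl⟩ := Subgroup.mem_sup_of_normal_right.mp ha
    obtain ⟨b₁, hb₁, b₂, hb₂, rfl⟩ := Subgroup.mem_sup_of_normal_right.mp hb
    calc a₁ * a₂ * (b₁ * b₂) = a₁ * (a₂ * b₁) * b₂ := by group
      _ = a₁ * (b₁ * a₂) * b₂ := by rw [h12 b₁ hb₁ a₂ ha₂]
      _ = (a₁ * b₁) * (a₂ * b₂) := by group
      _ = (b₁ * a₁) * (b₂ * a₂) := by rw [hc₁ a₁ ha₁ b₁ hb₁, hc₂ a₂ ha₂ b₂ hb₂]
      _ = b₁ * (a₁ * b₂) * a₂ := by group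
      _ = b₁ * (b₂ * a₁) * a₂ := by rw [h12 a₁ ha₁ b₂ hb₂]
      _ = b₁ * b₂ * (a₁ * a₂) := by group
  letI : CommGroup L := { (inferInstance : Group L) with
    mul_comm := fun s t => Subtype.ext (hab s s.2 t t.2) }
  have hm₁ : n₁ ∈ L := (le_sup_left : N₁ ≤ L) hn₁
  have hm₂ : n₂ ∈ L := (le_sup_right : N₂ ≤ L) hn₂
  have hne₁ : (⟨n₁, hm₁⟩ : L) ≠ 1 := fun h => hn₁1 (congrArg Subtype.val h)
  have hne₂ : (⟨n₂, hm₂⟩ : L) ≠ 1 := fun h => hn₂1 (congrArg Subtype.val h)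
  obtain ⟨ν₁, hν₁⟩ := CommGroup.exists_apply_ne_one_of_hasEnoughRootsOfUnity L ℂ hne₁
  obtain ⟨ν₂, hν₂⟩ := CommGroup.exists_apply_ne_one_of_hasEnoughRootsOfUnity L ℂ hne₂
  obtain ⟨ν, h₁', h₂'⟩ : ∃ ν : L →* ℂˣ, ν ⟨n₁, hm₁⟩ ≠ 1 ∧ ν ⟨n₂, hm₂⟩ ≠ 1 := by
    by_cases h3 : ν₁ ⟨n₂, hm₂⟩ = 1
    · by_cases h4 : ν₂ ⟨n₁, hm₁⟩ = 1
      · refine ⟨ν₁ * ν₂, ?_, ?_⟩
        · rw [MonoidHom.mul_apply, h4, mul_one]
          exact hν₁
        · rw [MonoidHom.mul_apply, h3, one_mul]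
          exact hν₂
      · exact ⟨ν₂, h4, hν₂⟩
    · exact ⟨ν₁, hν₁, h3⟩
  obtain ⟨χ, hχ, hcon⟩ := exists_irr_constituent_restrict L (isIrrCharacter_of_hom ν)
  refine ⟨⟨χ, hχ⟩, ?_, ?_⟩
  · intro h
    exact h₁' (lin_eq_one_of_ker (isCharacter_of_isIrrCharacter hχ) ν hcon (n := ⟨n₁, hm₁⟩) h)
  · intro h
    exact h₂' (lin_eq_one_of_ker (isCharacter_of_isIrrCharacter hχ) ν hcon (n := ⟨n₂, hm₂⟩) h)

/-- A character trivial on a normal subgroup but not at a given element. -/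
theorem exists_irr_quot {N : Subgroup G} (hN : N.Normal) {n : G} (hn : n ∉ N) :
    ∃ χ : IrrCharacter G, (∀ m ∈ N, (χ : G → ℂ) m = (χ : G → ℂ) 1) ∧ (χ : G → ℂ) n ≠ (χ : G → ℂ) 1 := by
  haveI := hN
  have h1 : (QuotientGroup.mk' N n) ≠ 1 := fun h => hn ((QuotientGroup.eq_one_iff n).mp h)
  by_contra hcon
  push Not at hcon
  apply h1
  apply eq_one_of_forall_irr
  intro φ
  have := hcon (pull (QuotientGroup.mk' N) (QuotientGroup.mk'_surjective N) φ) (by
    intro m hm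
    change (φ : G ⧸ N → ℂ) (QuotientGroup.mk' N m) = (φ : G ⧸ N → ℂ) (QuotientGroup.mk' N 1)
    have h0 : QuotientGroup.mk' N m = 1 := (QuotientGroup.eq_one_iff m).mpr hm
    rw [map_one, h0])
  change (φ : G ⧸ N → ℂ) (QuotientGroup.mk' N n) = (φ : G ⧸ N → ℂ) (QuotientGroup.mk' N 1) at this
  rw [map_one] at this
  exact this

/-- **Step 3.** Two minimal normal subgroups coincide. -/
theorem step3 [Group.IsSolvable G] {N₁ N₂ : Subgroup G} (h₁ : IsMinNormal N₁) (h₂ : IsMinNormal N₂)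
    {r₁ r₂ : ℕ}
    (hk₁ : ∀ χ : IrrCharacter G, (∃ n ∈ N₁, (χ : G → ℂ) n ≠ (χ : G → ℂ) 1) → r₁ ∣ charDegree (χ : G → ℂ))
    (hk₂ : ∀ χ : IrrCharacter G, (∃ n ∈ N₂, (χ : G → ℂ) n ≠ (χ : G → ℂ) 1) → r₂ ∣ charDegree (χ : G → ℂ))
    (hb₂ : ∀ χ : IrrCharacter G, (∀ n ∈ N₂, (χ : G → ℂ) n = (χ : G → ℂ) 1) → ¬ r₂ ∣ charDegree (χ : G → ℂ))
    (hpair : r₁ ≠ r₂ → NoPair G r₁ r₂) : N₁ = N₂ := by
  classical
  by_contra hne
  have hd : N₁ ⊓ N₂ = ⊥ := by
    haveI := h₁.1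
    haveI := h₂.1
    rcases h₁.2.2 (N₁ ⊓ N₂) inferInstance inf_le_left with h | h
    · exact h
    · exfalso
      have hle : N₁ ≤ N₂ := inf_eq_left.mp h
      rcases h₂.2.2 N₁ h₁.1 hle with h' | h'
      · exact h₁.2.1 h'
      · exact hne h'
  obtain ⟨⟨n₁, hn₁⟩, hn₁1⟩ := (Subgroup.ne_bot_iff_exists_ne_one (H := N₁)).mp h₁.2.1 |>.imp
    (fun _ h => h)
  obtain ⟨⟨n₂, hn₂⟩, hn₂1⟩ := (Subgroup.ne_bot_iff_exists_ne_one (H := N₂)).mp h₂.2.1 |>.imp
    (fun _ h => h)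
  have hn₁1' : n₁ ≠ 1 := fun h => hn₁1 (Subtype.ext h)
  have hn₂1' : n₂ ≠ 1 := fun h => hn₂1 (Subtype.ext h)
  by_cases hr : r₁ = r₂
  · subst hr
    have hnot : n₁ ∉ N₂ := by
      intro h
      have : n₁ ∈ N₁ ⊓ N₂ := ⟨hn₁, h⟩
      rw [hd, Subgroup.mem_bot] at this
      exact hn₁1' this
    obtain ⟨χ, hχ, hχn⟩ := exists_irr_quot h₂.1 hnot
    exact hb₂ χ hχ (hk₁ χ ⟨n₁, hn₁, hχn⟩)
  · obtain ⟨χ, hχ₁, hχ₂⟩ := exists_irr_two h₁.1 h₂.1 hd (isMinNormal_comm h₁) (isMinNormal_comm h₂)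
      hn₁ hn₂ hn₁1' hn₂1'
    exact hpair hr χ (hk₁ χ ⟨n₁, hn₁, hχ₁⟩) (hk₂ χ ⟨n₂, hn₂, hχ₂⟩)

/-- The situation after the reductions. -/
structure Ctx (G : Type u) [Group G] [Finite G] (N : Subgroup G) (p q r : ℕ) : Prop where
  solv : Group.IsSolvable G
  hp : p.Prime
  hq : q.Prime
  hr : r.Prime
  hpq : p ≠ q
  hqr : q ≠ r
  hpr : p ≠ r
  min : IsMinNormal N
  npq : NoPair G p q
  nqr : NoPair G q r
  npr : NoPair G p r
  rp : Rho G p
  rq : Rho G q
  rr : Rho G r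
  hk : ∀ χ : IrrCharacter G, (∃ n ∈ N, (χ : G → ℂ) n ≠ (χ : G → ℂ) 1) → r ∣ charDegree (χ : G → ℂ)
  hb : ∀ χ : IrrCharacter G, (∀ n ∈ N, (χ : G → ℂ) n = (χ : G → ℂ) 1) → ¬ r ∣ charDegree (χ : G → ℂ)
  uniq : ∀ D : Subgroup G, D.Normal → D ≠ ⊥ → N ≤ D

end Cfsg.Agent.Lib.Palfy.Red
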