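import Cfsg.Agent.Lib.Palfy.Class2
import Cfsg.Agent.Lib.Coprime.Ext

/-!
# Irreducible characters of a normal subgroup of class two
-/

set_option autoImplicit false
set_option linter.unusedSectionVars false
set_option linter.style.haveILetI false
set_option linter.deprecated false

namespace Cfsg.Agent.Lib.Palfy.Setting

open Cfsg Cfsg.Agent.Lib.Palfy.DualAct Cfsg.Agent.Lib.Palfy.Class2 Cfsg.Agent.Lib.Palfy.Spread
open Cfsg.Agent.Lib.Char.Basic Cfsg.Agent.Lib.Char.Ortho Cfsg.Agent.Lib.Char.Complete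
open Cfsg.Agent.Lib.Char.Conj Cfsg.Agent.Lib.Char.Degree
open Cfsg.Agent.Lib.Char.Clifford Cfsg.Agent.Lib.Char.CliffordCorr
open scoped ComplexConjugate

universe u

variable {G : Type u} [Group G] [Finite G]

/-- Glauberman's lemma for multiplication by linear characters. -/
theorem exists_invariant_homMul {R : Subgroup G} (hR : R.Normal) {r : ℕ} [Fact r.Prime]
    (hRr : IsPGroup r R) (A : Subgroup G) (hA : ¬ r ∣ Nat.card A) {θ₁ : R → ℂ}
    (hθ₁ : IsIrrCharacter R θ₁) (h : ∀ a ∈ A, ∃ μ : R →* ℂˣ, conjOn hR a θ₁ = homMul μ θ₁) :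
    ∃ μ₀ : R →* ℂˣ, ∀ a ∈ A, conjOn hR a (homMul μ₀ θ₁) = homMul μ₀ θ₁ := by
  classical
  have hrp : r.Prime := Fact.out
  have := finite_irrCharacter (G := R)
  let Y := IrrCharacter R
  let f : (R →* ℂˣ) →* Equiv.Perm Y :=
    { toFun := fun μ =>
        { toFun := fun θ => ⟨homMul μ θ, isIrr_homMul μ θ.2⟩
          invFun := fun θ => ⟨homMul μ⁻¹ θ, isIrr_homMul μ⁻¹ θ.2⟩
          left_inv := fun θ => Subtype.ext (by
            show homMul μ⁻¹ (homMul μ (θ : R → ℂ)) = θ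
            have h1 : μ⁻¹ * μ = 1 := by
              ext u
              simp
            rw [homMul_homMul, h1, homMul_one])
          right_inv := fun θ => Subtype.ext (by
            show homMul μ (homMul μ⁻¹ (θ : R → ℂ)) = θ
            have h1 : μ * μ⁻¹ = 1 := by
              ext u
              simp
            rw [homMul_homMul, h1, homMul_one]) }
      map_one' := by
        ext θ : 1
        exact Subtype.ext (homMul_one _)
      map_mul' := fun a b => by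
        ext θ : 1
        exact Subtype.ext (homMul_homMul a b _).symm }
  let g : G →* Equiv.Perm Y :=
    { toFun := fun a =>
        { toFun := fun θ => ⟨conjOn hR a⁻¹ θ, isIrrCharacter_conjOn hR _ θ.2⟩
          invFun := fun θ => ⟨conjOn hR a θ, isIrrCharacter_conjOn hR _ θ.2⟩
          left_inv := fun θ => Subtype.ext (conjOn_conjOn_inv hR a _)
          right_inv := fun θ => Subtype.ext (conjOn_inv_conjOn hR a _) }
      map_one' := by
        ext θ : 1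
        apply Subtype.ext
        show conjOn hR (1 : G)⁻¹ (θ : R → ℂ) = θ
        rw [inv_one, conjOn_one]
      map_mul' := fun a b => by
        ext θ : 1
        apply Subtype.ext
        show conjOn hR (a * b)⁻¹ (θ : R → ℂ) = conjOn hR a⁻¹ (conjOn hR b⁻¹ (θ : R → ℂ))
        rw [mul_inv_rev, conjOn_mul] }
  have hg : ∀ (a : G) (θ : Y), ((g a θ : Y) : R → ℂ) = conjOn hR a⁻¹ θ := fun _ _ => rfl
  have hf : ∀ (μ : R →* ℂˣ) (θ : Y), ((f μ θ : Y) : R → ℂ) = homMul μ θ := fun _ _ => rfl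
  let K : Subgroup (Equiv.Perm Y) := f.range
  let A' : Subgroup (Equiv.Perm Y) := A.map g
  have hconj : ∀ (a : G) (μ : R →* ℂˣ), g a * f μ * (g a)⁻¹ = f (dualAct hR a μ) := by
    intro a μ
    ext θ : 1
    apply Subtype.ext
    have h1 : (g a)⁻¹ = g a⁻¹ := (map_inv g a).symm
    rw [h1, Equiv.Perm.mul_apply, Equiv.Perm.mul_apply, hg, hf, hg, hf, inv_inv]
    funext u
    simp only [conjOn_apply, homMul_apply]
    rw [dualAct_apply]
    congr 1
    congr 1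
    refine congrArg (θ : R → ℂ) (Subtype.ext ?_)
    show a * (a⁻¹ * (u : G) * a⁻¹⁻¹) * a⁻¹ = u
    group
  have hAK : A' ≤ Subgroup.normalizer (K : Set (Equiv.Perm Y)) := by
    rw [Subgroup.le_normalizer_iff]
    rintro _ ⟨a, -, rfl⟩ _ ⟨μ, rfl⟩
    exact ⟨_, (hconj a μ).symm⟩
  obtain ⟨m, hm⟩ := IsPGroup.iff_card.mp hRr
  have hKr : IsPGroup r K := by
    rintro ⟨_, μ, rfl⟩
    refine ⟨m, ?_⟩
    apply Subtype.ext
    show (f μ) ^ r ^ m = 1
    rw [← map_pow]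
    have h1 : μ ^ r ^ m = 1 := by
      ext u
      simp only [MonoidHom.pow_apply, MonoidHom.one_apply]
      rw [← map_pow, ← hm, pow_card_eq_one']
      simp
    rw [h1, map_one]
  have hcop : (Nat.card A').Coprime (Nat.card K) := by
    obtain ⟨n, hn⟩ := IsPGroup.iff_card.mp hKr
    rw [hn]
    apply Nat.Coprime.pow_right
    rw [Nat.coprime_comm, hrp.coprime_iff_not_dvd]
    intro h
    exact hA (h.trans (Subgroup.card_map_dvd A g))
  have hsolv : Group.IsSolvable A' ∨ Group.IsSolvable K := by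
    right
    haveI := hKr.isNilpotent
    infer_instance
  obtain ⟨k, ⟨μ₀, rfl⟩, hk⟩ := Cfsg.Agent.Lib.Coprime.Ext.exists_fixed_point (A := A') (K := K)
    (⟨θ₁, hθ₁⟩ : Y) hAK hcop hsolv (by
      rintro _ ⟨a, ha, rfl⟩
      obtain ⟨μ, hμ⟩ := h a⁻¹ (A.inv_mem ha)
      exact ⟨f μ, ⟨μ, rfl⟩, Subtype.ext hμ.symm⟩)
  refine ⟨μ₀, fun a ha => ?_⟩
  have h1 := hk (g a⁻¹) ⟨a⁻¹, A.inv_mem ha, rfl⟩
  have h2 : conjOn hR a⁻¹⁻¹ (homMul μ₀ θ₁) = homMul μ₀ θ₁ := congrArg Subtype.val h1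
  rwa [inv_inv] at h2

/-- A normal subgroup of class two with commutator subgroup `V`. -/
structure Setting (R V : Subgroup G) (r : ℕ) : Prop where
  hVR : V ≤ R
  hRr : IsPGroup r R
  hidx : ¬ r ∣ R.index
  hcomm : ∀ u : R, u ∈ commutator R ↔ (u : G) ∈ V
  hcen : ∀ v ∈ V, ∀ u ∈ R, v * u = u * v

section

variable {R V : Subgroup G} [hR : R.Normal] [hV : V.Normal] {r : ℕ} [Fact r.Prime]

theorem triv_R : ∀ n ∈ R, ∀ μ : R →* ℂˣ, dualAct hR n μ = μ := by
  intro n hn μ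
  ext u
  rw [dualAct_apply]
  have h1 : (⟨n⁻¹ * u * n⁻¹⁻¹, hR.conj_mem u u.2 n⁻¹⟩ : R) = (⟨n, hn⟩ : R)⁻¹ * u * (⟨n, hn⟩ : R) := by
    apply Subtype.ext
    simp
  rw [h1, map_mul, map_mul, map_inv]
  congr 1
  rw [mul_comm, ← mul_assoc, mul_inv_cancel, one_mul]

variable (S : Setting R V r)

include S

theorem Setting.coprime : (Nat.card R).Coprime R.index := by
  have hrp : r.Prime := Fact.out
  obtain ⟨m, hm⟩ := IsPGroup.iff_card.mp S.hRr
  rw [hm]
  apply Nat.Coprime.pow_left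
  exact (hrp.coprime_iff_not_dvd).mpr S.hidx

theorem Setting.central : ∀ z ∈ commutator R, ∀ u, z * u = u * z := by
  intro z hz u
  have h1 := S.hcen z ((S.hcomm z).mp hz) u u.2
  exact Subtype.ext h1

theorem Setting.triv_V : ∀ n ∈ R, ∀ lam : V →* ℂˣ, dualAct hV n lam = lam := by
  intro n hn lam
  ext v
  rw [dualAct_apply]
  have h1 : (⟨n⁻¹ * v * n⁻¹⁻¹, hV.conj_mem v v.2 n⁻¹⟩ : V) = v := by
    apply Subtype.ext
    have h2 := S.hcen v v.2 n⁻¹ (R.inv_mem hn)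
    show n⁻¹ * (v : G) * n⁻¹⁻¹ = v
    rw [← h2]
    group
  rw [h1]

/-- The action on the dual of `V`. -/
noncomputable def Setting.actV : (G ⧸ R) →* MulAut (V →* ℂˣ) := dualActQ hV S.triv_V

omit S in
/-- The action on the linear characters of `R`. -/
noncomputable def actX : (G ⧸ R) →* MulAut (R →* ℂˣ) := dualActQ hR triv_R

omit S in
/-- `θ` lies over `lam`. -/
def Over (hVR : V ≤ R) (lam : V →* ℂˣ) (θ : R → ℂ) : Prop :=
  ∀ v : V, θ ⟨v, hVR v.2⟩ = θ 1 * ((lam v : ℂˣ) : ℂ)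

theorem Setting.hom_V (μ : R →* ℂˣ) (v : V) : μ ⟨v, S.hVR v.2⟩ = 1 :=
  hom_commutator μ ((S.hcomm _).mpr v.2)

theorem Setting.over_homMul {lam : V →* ℂˣ} {θ : R → ℂ} (h : Over S.hVR lam θ) (μ : R →* ℂˣ) :
    Over S.hVR lam (homMul μ θ) := by
  intro v
  rw [homMul_apply, S.hom_V, h v, homMul_one_apply]
  simp

theorem Setting.over_conjOn {lam : V →* ℂˣ} {θ : R → ℂ} (h : Over S.hVR lam θ) {t : G}
    (ht : t ∈ inertia hV (linChar lam)) : Over S.hVR lam (conjOn hR t θ) := by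
  intro v
  have h1 : conjOn hV t (linChar lam) = linChar lam := ht
  have h2 := congrFun h1 v
  simp only [conjOn_apply, linChar_apply] at h2
  rw [conjOn_apply_one, ← h2, ← h ⟨t * v * t⁻¹, hV.conj_mem v v.2 t⟩]
  rfl

theorem Setting.exists_over (lam : V →* ℂˣ) : ∃ θ : IrrCharacter R, Over S.hVR lam θ := by
  classical
  let Z : Subgroup R := V.subgroupOf R
  let eqv : Z ≃* V := Subgroup.subgroupOfEquivOfLe S.hVR
  have hZ : ∀ z ∈ Z, ∀ u : R, z * u = u * z := by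
    intro z hz u
    exact Subtype.ext (S.hcen z hz u u.2)
  obtain ⟨θ, hθ⟩ := exists_irr_over_central Z hZ (lam.comp eqv.toMonoidHom)
  refine ⟨θ, fun v => ?_⟩
  have h1 := hθ ⟨⟨v, S.hVR v.2⟩, by simpa [Z, Subgroup.mem_subgroupOf] using v.2⟩
  exact h1

theorem Setting.exists_hom_of_over {lam : V →* ℂˣ} {θ₁ θ₂ : R → ℂ} (h₁ : IsIrrCharacter R θ₁)
    (h₂ : IsIrrCharacter R θ₂) (o₁ : Over S.hVR lam θ₁) (o₂ : Over S.hVR lam θ₂) :
    ∃ μ : R →* ℂˣ, θ₂ = homMul μ θ₁ := by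
  apply exists_hom_mul_eq S.central h₁ h₂
  intro z hz
  have hz' := (S.hcomm z).mp hz
  have a₁ := o₁ ⟨z, hz'⟩
  have a₂ := o₂ ⟨z, hz'⟩
  have e : (⟨((⟨z, hz'⟩ : V) : G), S.hVR (⟨z, hz'⟩ : V).2⟩ : R) = z := rfl
  rw [e] at a₁ a₂
  rw [a₁, a₂]
  ring

/-- There is an invariant character over every invariant linear character. -/
theorem Setting.exists_invariant (lam : V →* ℂˣ) :
    ∃ θ₀ : IrrCharacter R, Over S.hVR lam θ₀ ∧
      ∀ t ∈ inertia hV (linChar lam), conjOn hR t (θ₀ : R → ℂ) = θ₀ := by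
  classical
  obtain ⟨θ₁, hθ₁⟩ := S.exists_over lam
  obtain ⟨C₀, hC₀⟩ := Subgroup.exists_right_complement'_of_coprime S.coprime
  set T := inertia hV (linChar lam) with hT
  have hRT : R ≤ T := by
    intro n hn
    exact (mem_inertia_iff hV n lam).mpr (S.triv_V n hn lam)
  have hcardC : Nat.card C₀ = R.index := hC₀.symm.index_eq_card.symm
  have hA : ¬ r ∣ Nat.card ↥(T ⊓ C₀) := by
    intro h
    apply S.hidx
    rw [← hcardC]
    exact h.trans (Subgroup.card_dvd_of_le inf_le_right)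
  obtain ⟨μ₀, hμ₀⟩ := exists_invariant_homMul hR S.hRr (T ⊓ C₀) hA θ₁.2 (by
    intro a ha
    exact S.exists_hom_of_over θ₁.2 (isIrrCharacter_conjOn hR a θ₁.2) hθ₁
      (S.over_conjOn hθ₁ ha.1))
  refine ⟨⟨homMul μ₀ θ₁, isIrr_homMul μ₀ θ₁.2⟩, S.over_homMul hθ₁ μ₀, ?_⟩
  intro t ht
  obtain ⟨⟨u, c⟩, huc⟩ := hC₀.2 t
  have huc' : (u : G) * (c : G) = t := huc
  have hcT : (c : G) ∈ T := by
    have h1 := T.mul_mem (T.inv_mem (hRT u.2)) ht
    rwa [← huc', inv_mul_cancel_left] at h1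
  rw [← huc', conjOn_mul, conjOn_of_mem hR
    (isClassFunction_of_isIrrCharacter (isIrr_homMul μ₀ θ₁.2)) u.2]
  exact hμ₀ c ⟨hcT, c.2⟩

theorem Setting.inertia_eq {lam : V →* ℂˣ} {θ₀ : R → ℂ} (hθ₀ : IsIrrCharacter R θ₀)
    (o : Over S.hVR lam θ₀) (hinv : ∀ t ∈ inertia hV (linChar lam), conjOn hR t θ₀ = θ₀) :
    inertia hR θ₀ = inertia hV (linChar lam) := by
  apply le_antisymm
  · intro g hg
    have h1 : conjOn hR g θ₀ = θ₀ := hg
    show conjOn hV g (linChar lam) = linChar lam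
    funext v
    have h2 := congrFun h1 ⟨v, S.hVR v.2⟩
    simp only [conjOn_apply] at h2
    have h3 := o ⟨g * v * g⁻¹, hV.conj_mem v v.2 g⟩
    have h4 := o v
    have h5 : θ₀ ⟨g * v * g⁻¹, hR.conj_mem _ (S.hVR v.2) g⟩ = θ₀ 1 * ((lam ⟨g * v * g⁻¹, hV.conj_mem v v.2 g⟩ : ℂˣ) : ℂ) := h3
    rw [h5, h4] at h2
    exact mul_left_cancel₀ (irr_one_ne_zero hθ₀) h2
  · exact hinv

theorem Setting.ne_one_of_over {lam : V →* ℂˣ} (hlam : lam ≠ 1) {θ : R → ℂ}
    (hθ : IsIrrCharacter R θ) (o : Over S.hVR lam θ) : θ 1 ≠ 1 := by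
  intro h1
  apply hlam
  obtain ⟨ν, hν⟩ := Cfsg.Agent.Lib.Char.Linear.exists_hom_of_deg_one (isCharacter_of_isIrrCharacter hθ) h1
  ext v
  have h2 := o v
  rw [h1, one_mul, hν] at h2
  simp only [S.hom_V] at h2
  simpa using h2.symm

theorem Setting.r_dvd_of_ne_one {θ : R → ℂ} (hθ : IsIrrCharacter R θ) (h1 : θ 1 ≠ 1) :
    r ∣ charDegree θ := by
  have hrp : r.Prime := Fact.out
  have h2 := charDegree_dvd_card hθ
  obtain ⟨m, hm⟩ := IsPGroup.iff_card.mp S.hRr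
  rw [hm] at h2
  obtain ⟨j, -, hj⟩ := (Nat.dvd_prime_pow hrp).mp h2
  rcases Nat.eq_zero_or_pos j with rfl | h0
  · exfalso
    apply h1
    have h3 := charDegree_natCast (isCharacter_of_isIrrCharacter hθ)
    rw [hj, pow_zero, Nat.cast_one] at h3
    exact h3.symm
  · rw [hj]
    exact dvd_pow_self r h0.ne'

theorem Setting.r_dvd_deg [Fintype R] {θ : R → ℂ} (hθ : IsIrrCharacter R θ) (h1 : θ 1 ≠ 1)
    (χ : IrrCharacter G)
    (hχ : classInner (fun n : R => (χ : G → ℂ) n) θ ≠ 0) : r ∣ charDegree (χ : G → ℂ) := by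
  classical
  letI := Fintype.ofFinite G
  have h2 := Cfsg.Agent.Lib.Blk89.ItoMichler.deg_mul_index_dvd hR χ.2 hθ hχ
  exact (S.r_dvd_of_ne_one hθ h1).trans ((Dvd.intro_left _ rfl).trans h2)

/-- Stabilizers of nontrivial linear characters of `V` in `G / R` are good. -/
theorem Setting.good_lam [Group.IsSolvable G] {x : ℕ} [Fact x.Prime]
    (hx : ∀ χ : IrrCharacter G, r ∣ charDegree (χ : G → ℂ) → ¬ x ∣ charDegree (χ : G → ℂ))
    {lam : V →* ℂˣ} (hlam : lam ≠ 1) : GoodAt (G ⧸ R) x (stab S.actV lam) := by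
  classical
  letI : Fintype R := Fintype.ofFinite _
  obtain ⟨θ₀, o, hinv⟩ := S.exists_invariant lam
  have h1 : stab S.actV lam = (inertia hR (θ₀ : R → ℂ)).map (QuotientGroup.mk' R) := by
    rw [S.inertia_eq θ₀.2 o hinv]
    exact stab_dualActQ hV S.triv_V lam
  rw [h1]
  exact good_of_coprime hR S.coprime θ₀.2 (fun χ hχ =>
    hx χ (S.r_dvd_deg θ₀.2 (S.ne_one_of_over hlam θ₀.2 o) χ hχ))

/-- Stabilizers on the dual of `R` are good, once the characters over them have degree prime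
to `x`. -/
theorem Setting.good_hom [Group.IsSolvable G] {x : ℕ} [Fact x.Prime] [Fintype R] (y : R →* ℂˣ)
    (hx : ∀ χ : IrrCharacter G, classInner (fun n : R => (χ : G → ℂ) n) (linChar y) ≠ 0 →
      ¬ x ∣ charDegree (χ : G → ℂ)) : GoodAt (G ⧸ R) x (stab (actX (R := R)) y) := by
  have h1 : stab (actX (R := R)) y = (inertia hR (linChar y)).map (QuotientGroup.mk' R) :=
    stab_dualActQ hR triv_R y
  rw [h1]
  exact good_of_coprime hR S.coprime (isIrr_linChar y) hx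

end


end Cfsg.Agent.Lib.Palfy.Setting
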