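import Cfsg.Agent.Lib.Palfy.Extra
import Cfsg.Agent.Lib.Solvable.Fitting
import Cfsg.Agent.Lib.FGS.SylowMax

/-!
# Two primes acting with Sylow subgroups fixing each vector
-/

set_option autoImplicit false
set_option linter.unusedSectionVars false
set_option linter.unusedVariables false

namespace Cfsg.Agent.Lib.Palfy.ThmZ

open scoped Pointwise
open Cfsg Cfsg.Agent.Lib.Palfy.Mod Cfsg.Agent.Lib.Palfy.Uniq Cfsg.Agent.Lib.Palfy.Field
  Cfsg.Agent.Lib.Palfy.Center Cfsg.Agent.Lib.Palfy.Extra Subgroup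
open Cfsg.Agent.Lib.FusionTheory.CoprimeAut Cfsg.Agent.Lib.Core.Basic Cfsg.Agent.Lib.Solvable.Fitting

universe u v

variable {H : Type u} [Group H] [Finite H] {M : Type v} [AddCommGroup M] [DistribMulAction H M]

section spread

/-- Some element of a Sylow subgroup moves a non-normal Sylow subgroup. -/
theorem exists_move {u : ℕ} [Fact u.Prime] (P₀ : Sylow u H) (hn : ¬ (P₀ : Subgroup H).Normal) :
    ∃ P' : Sylow u H, ∃ y ∈ (P' : Subgroup H), y • P₀ ≠ P₀ := by
  by_contra hcon
  push Not at hcon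
  apply hn
  have huniq : ∀ P' : Sylow u H, P' = P₀ := by
    intro P'
    have h1 : (P' : Subgroup H) ≤ normalizer ((P₀ : Subgroup H) : Set H) := by
      intro y hy
      exact Sylow.smul_eq_iff_mem_normalizer.mp (hcon P' y hy)
    have h2 := IsPGroup.inf_normalizer_sylow P'.2 P₀
    have h3 : (P' : Subgroup H) ≤ P₀ := by
      have h5 : (P' : Subgroup H) ≤ (P' : Subgroup H) ⊓ normalizer ((P₀ : Subgroup H) : Set H) :=
        le_inf le_rfl h1
      exact (h5.trans h2.le).trans inf_le_right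
    exact Sylow.ext (P'.is_maximal' P₀.isPGroup' h3).symm
  haveI : Subsingleton (Sylow u H) := ⟨fun a b => by rw [huniq a, huniq b]⟩
  exact Sylow.normal_of_subsingleton P₀

omit [Finite H] in
theorem smul_sylow_le_stab {u : ℕ} [Fact u.Prime] {P : Sylow u H} {v : M}
    (hP : (P : Subgroup H) ≤ MulAction.stabilizer H v) (g : H) :
    ((g • P : Sylow u H) : Subgroup H) ≤ MulAction.stabilizer H (g • v) := by
  intro x hx
  have h1 : x ∈ MulAut.conj g • (P : Subgroup H) := by
    rw [← Sylow.coe_subgroup_smul]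
    exact hx
  have h2 := (Subgroup.mem_pointwise_smul_iff_inv_smul_mem).mp h1
  have h3 : g⁻¹ * x * g ∈ (P : Subgroup H) := by
    simpa [MulAut.smul_def, MulAut.conj_apply, mul_assoc] using h2
  have h4 : (g⁻¹ * x * g) • v = v := hP h3
  rw [MulAction.mem_stabilizer_iff]
  calc x • g • v = g • (g⁻¹ * x * g) • v := by
        simp only [smul_smul]
        congr 1
        group
    _ = g • v := by rw [h4]

variable [Finite M] [FaithfulSMul H M] [Nontrivial M]

/-- **The spread trick.** If Sylow subgroups for `u` and `w` commute, one of them is trivial. -/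
theorem false_of_commuting {u w : ℕ} [Fact u.Prime] [Fact w.Prime] (hU : UniqSyl H M u)
    (hW : UniqSyl H M w) (hdu : u ∣ Nat.card H) (hdw : w ∣ Nat.card H)
    (hcomm : ∀ P : Sylow u H, ∀ Q : Sylow w H, ∀ x ∈ (P : Subgroup H), ∀ y ∈ (Q : Subgroup H),
      x * y = y * x) : False := by
  obtain ⟨v, hv0⟩ := exists_ne (0 : M)
  obtain ⟨P₀, hP₀, -⟩ := hU v hv0
  obtain ⟨Q₀, hQ₀, -⟩ := hW v hv0
  have hnP : ¬ (P₀ : Subgroup H).Normal := by
    intro h
    have h1 := normal_pGroup_eq_bot hU h P₀.isPGroup'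
    exact Sylow.ne_bot_of_dvd_card P₀ hdu h1
  have hnQ : ¬ (Q₀ : Subgroup H).Normal := by
    intro h
    have h1 := normal_pGroup_eq_bot hW h Q₀.isPGroup'
    exact Sylow.ne_bot_of_dvd_card Q₀ hdw h1
  obtain ⟨P', y, hy, hyP⟩ := exists_move P₀ hnP
  obtain ⟨Q', k, hk, hkQ⟩ := exists_move Q₀ hnQ
  set v₁ := y • v with hv₁
  set v₂ := k • v with hv₂
  have hv₁0 : v₁ ≠ 0 := by
    intro h
    apply hv0
    have := congrArg (fun t => y⁻¹ • t) h
    simpa [hv₁] using this
  have hv₂0 : v₂ ≠ 0 := by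
    intro h
    apply hv0
    have := congrArg (fun t => k⁻¹ • t) h
    simpa [hv₂] using this
  have hP₁ : ((y • P₀ : Sylow u H) : Subgroup H) ≤ MulAction.stabilizer H v₁ := smul_sylow_le_stab hP₀ y
  have hQ₂ : ((k • Q₀ : Sylow w H) : Subgroup H) ≤ MulAction.stabilizer H v₂ := smul_sylow_le_stab hQ₀ k
  have hQ₁ : (Q₀ : Subgroup H) ≤ MulAction.stabilizer H v₁ := by
    intro t ht
    rw [MulAction.mem_stabilizer_iff, hv₁, smul_smul, ← hcomm P' Q₀ y hy t ht, mul_smul]
    exact congrArg (fun s => y • s) (hQ₀ ht : t • v = v)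
  have hP₂ : (P₀ : Subgroup H) ≤ MulAction.stabilizer H v₂ := by
    intro t ht
    rw [MulAction.mem_stabilizer_iff, hv₂, smul_smul, hcomm P₀ Q' t ht k hk, mul_smul]
    exact congrArg (fun s => k • s) (hP₀ ht : t • v = v)
  have hv₃0 : v₁ + v₂ ≠ 0 := by
    intro h
    have h1 : v₂ = -v₁ := by
      rw [eq_neg_iff_add_eq_zero, add_comm]
      exact h
    have h2 : (P₀ : Subgroup H) ≤ MulAction.stabilizer H v₁ := by
      intro t ht
      have h3 : t • v₂ = v₂ := hP₂ ht
      rw [h1, smul_neg, neg_inj] at h3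
      exact h3
    exact hyP (sylow_eq hU hv₁0 hP₁ h2)
  obtain ⟨P₃, hP₃, -⟩ := hU _ hv₃0
  have hfix : ∀ x ∈ (P₃ : Subgroup H), x • v₁ = v₁ ∧ x • v₂ = v₂ := by
    intro x hx
    have h1 : x • (v₁ + v₂) = v₁ + v₂ := hP₃ hx
    rw [smul_add] at h1
    have h2 : x • v₁ - v₁ = v₂ - x • v₂ := by
      rw [sub_eq_sub_iff_add_eq_add, h1, add_comm]
    by_cases h3 : x • v₁ - v₁ = 0
    · have h4 : x • v₁ = v₁ := sub_eq_zero.mp h3
      refine ⟨h4, ?_⟩
      rw [h3] at h2
      exact (sub_eq_zero.mp h2.symm).symm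
    · exfalso
      apply hkQ
      have hA : (Q₀ : Subgroup H) ≤ MulAction.stabilizer H (x • v₁ - v₁) := by
        intro t ht
        have h5 : t • v₁ = v₁ := hQ₁ ht
        have h6 : ∀ m : M, t • x • m = x • t • m := by
          intro m
          rw [← mul_smul, ← mul_smul, hcomm P₃ Q₀ x hx t ht]
        rw [MulAction.mem_stabilizer_iff, smul_sub, h6, h5]
      have hB : ((k • Q₀ : Sylow w H) : Subgroup H) ≤ MulAction.stabilizer H (x • v₁ - v₁) := by
        intro t ht
        have h5 : t • v₂ = v₂ := hQ₂ ht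
        have h6 : ∀ m : M, t • x • m = x • t • m := by
          intro m
          rw [← mul_smul, ← mul_smul, hcomm P₃ _ x hx t ht]
        rw [h2, MulAction.mem_stabilizer_iff, smul_sub, h6, h5]
      exact sylow_eq hW h3 hB hA
  have h1 : (P₃ : Subgroup H) ≤ MulAction.stabilizer H v₁ := fun x hx => (hfix x hx).1
  have h2 : (P₃ : Subgroup H) ≤ MulAction.stabilizer H v₂ := fun x hx => (hfix x hx).2
  exact hyP ((sylow_eq hU hv₁0 hP₁ h1).trans (sylow_eq hU hv₂0 h2 hP₂))

end spread

section fitting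

omit [Finite H] in
theorem commute_of_fitting [Finite H] [Group.IsSolvable H] {C : Subgroup H} (hC : C.Normal) {y : H}
    (hcop : (orderOf y).Coprime (Nat.card C))
    (hF : ∀ (s : ℕ) (_ : s.Prime) (T : Subgroup H), T.Normal → T ≤ C → IsPGroup s T →
      ∀ t ∈ T, y * t = t * y) : ∀ c ∈ C, y * c = c * y := by
  classical
  let F : Subgroup C := fittingSubgroup C
  let Fi : Subgroup H := F.map C.subtype
  have hyF : ∀ g ∈ Fi, y * g = g * y := by
    have hle : Fi ≤ centralizer ({y} : Set H) := by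
      have e : F = ⨆ p : Nat.Primes, pCore (p : ℕ) C := fittingSubgroup_eq_iSup_pCore
      change F.map C.subtype ≤ _
      rw [e, Subgroup.map_iSup]
      refine iSup_le fun s => ?_
      haveI : Fact (s : ℕ).Prime := ⟨s.2⟩
      intro t ht
      rw [Subgroup.mem_centralizer_iff]
      intro a ha
      rw [Set.mem_singleton_iff] at ha
      subst ha
      haveI : (pCore (s : ℕ) C).Characteristic := pCore_characteristic
      have hn : ((pCore (s : ℕ) C).map C.subtype).Normal := inferInstance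
      have hle' : (pCore (s : ℕ) C).map C.subtype ≤ C := by
        rintro _ ⟨b, -, rfl⟩
        exact b.2
      exact hF s s.2 _ hn hle' (pCore_isPGroup.map _) t ht
    intro g hg
    have h := Subgroup.mem_centralizer_iff.mp (hle hg) y (Set.mem_singleton y)
    exact h
  intro c hc
  set e := c⁻¹ * (y * c * y⁻¹) with he
  have heC : e ∈ C := C.mul_mem (C.inv_mem hc) (hC.conj_mem c hc y)
  have hFi : ∀ g ∈ Fi, c * g * c⁻¹ ∈ Fi := by
    rintro _ ⟨g, hg, rfl⟩
    have h1 := (fittingSubgroup_normal (G := C)).conj_mem g hg ⟨c, hc⟩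
    exact ⟨_, h1, rfl⟩
  have hyinv : ∀ g ∈ Fi, y⁻¹ * g * y = g := by
    intro g hg
    rw [mul_assoc, ← hyF g hg]
    group
  have heF : e ∈ Fi := by
    have hcen : (⟨e, heC⟩ : C) ∈ centralizer ((F : Subgroup C) : Set C) := by
      rw [Subgroup.mem_centralizer_iff]
      intro g hg
      apply Subtype.ext
      have hg' : (g : H) ∈ Fi := ⟨g, hg, rfl⟩
      have h1 : e * (g : H) * e⁻¹ = (g : H) := by
        have h2 := hFi _ hg'
        have e3 : e * (g : H) * e⁻¹ = c⁻¹ * (y * (c * (y⁻¹ * (g : H) * y) * c⁻¹) * y⁻¹) * c := by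
          rw [he]; group
        have h3 : y * (c * (g : H) * c⁻¹) * y⁻¹ = c * (g : H) * c⁻¹ := by
          rw [hyF _ h2]
          group
        rw [e3, hyinv _ hg', h3]
        group
      show (g : H) * e = e * (g : H)
      calc (g : H) * e = (e * (g : H) * e⁻¹) * e := by rw [h1]
        _ = e * (g : H) := by group
    have h2 := centralizer_fittingSubgroup_le (G := C) hcen
    exact ⟨_, h2, rfl⟩
  have hord : orderOf e ∣ Nat.card C := by
    have := orderOf_dvd_natCard (⟨e, heC⟩ : C)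
    rwa [Subgroup.orderOf_mk] at this
  exact commute_of_quot (d := e) (by rw [he]; group) (hyF e heF)
    (Nat.Coprime.coprime_dvd_right hord hcop)

end fitting

section central

variable [Finite M] [FaithfulSMul H M] [Nontrivial M]

/-- The stabilizer in `H` of a linear character of a normal subgroup. -/
def stabHom (A : Subgroup H) [A.Normal] (ν : A →* ℂˣ) : Subgroup H where
  carrier := {g | ∀ a : A, ν (MulAut.conjNormal g a) = ν a}
  one_mem' := by
    intro a
    simp
  mul_mem' := by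
    intro g₁ g₂ h₁ h₂ a
    rw [map_mul, MulAut.mul_apply, h₁, h₂]
  inv_mem' := by
    intro g h a
    have h1 := h (MulAut.conjNormal g⁻¹ a)
    rw [← MulAut.mul_apply, ← map_mul, mul_inv_cancel, map_one, MulAut.one_apply] at h1
    exact h1.symm

/-- A subgroup of index prime to `u` contains a Sylow `u`-subgroup whose conjugates act in the same way. -/
theorem exists_prime_central {r : ℕ} [Fact r.Prime] (hG : Good H M r) {p q : ℕ} [Fact p.Prime]
    [Fact q.Prime] (A : Subgroup H) [hAn : A.Normal] (hc : ∀ a ∈ A, ∀ b ∈ A, a * b = b * a)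
    (hZ4 : ∀ ν : A →* ℂˣ, ¬ (p ∣ (stabHom A ν).index ∧ q ∣ (stabHom A ν).index)) :
    (∀ P : Sylow p H, ∀ x ∈ (P : Subgroup H), ∀ a ∈ A, x * a = a * x) ∨
      (∀ P : Sylow q H, ∀ x ∈ (P : Subgroup H), ∀ a ∈ A, x * a = a * x) := by
  classical
  have hcyc : IsCyclic A := isCyclic_of_normal hG hAn hc
  have hcomm : ∀ g h : H, (MulAut.conjNormal g : MulAut A) * MulAut.conjNormal h =
      MulAut.conjNormal h * MulAut.conjNormal g := by
    intro g h
    apply (IsCyclic.mulAutMulEquiv A).injective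
    rw [map_mul, map_mul, mul_comm]
  have hconj : ∀ g y : H, (MulAut.conjNormal (g * y * g⁻¹) : MulAut A) = MulAut.conjNormal y := by
    intro g y
    rw [map_mul, map_mul, hcomm g y, mul_assoc, ← map_mul, mul_inv_cancel, map_one, mul_one]
  let Cu : (u : ℕ) → [Fact u.Prime] → (A →* ℂˣ) → Prop := fun u _ ν =>
    ∀ P : Sylow u H, ∀ x ∈ (P : Subgroup H), ∀ a : A, ν (MulAut.conjNormal x a) = ν a
  have hone : ∀ (u : ℕ) [Fact u.Prime] (ν : A →* ℂˣ), ¬ u ∣ (stabHom A ν).index → Cu u ν := by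
    intro u _ ν hnd P x hx a
    obtain ⟨P₀, hP₀⟩ := Cfsg.Agent.Lib.FGS.SylowMax.exists_sylow_le_of_not_dvd_index hnd
    obtain ⟨g, rfl⟩ := MulAction.exists_smul_eq H P₀ P
    have hx' : g⁻¹ * x * g ∈ (P₀ : Subgroup H) := by
      have h1 : x ∈ MulAut.conj g • (P₀ : Subgroup H) := by
        rw [← Sylow.coe_subgroup_smul]
        exact hx
      have h2 := (Subgroup.mem_pointwise_smul_iff_inv_smul_mem).mp h1
      simpa [MulAut.smul_def, MulAut.conj_apply, mul_assoc] using h2
    have h3 := hP₀ hx' a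
    have e : g * (g⁻¹ * x * g) * g⁻¹ = x := by group
    rw [← hconj g, e] at h3
    exact h3
  have hdich : ∀ ν : A →* ℂˣ, Cu p ν ∨ Cu q ν := by
    intro ν
    rcases not_and_or.mp (hZ4 ν) with h | h
    · exact Or.inl (hone p ν h)
    · exact Or.inr (hone q ν h)
  have hmul : ∀ (u : ℕ) [Fact u.Prime] (ν₁ ν₂ : A →* ℂˣ), Cu u ν₁ → Cu u ν₂ → Cu u (ν₁ * ν₂) := by
    intro u _ ν₁ ν₂ h₁ h₂ P x hx a
    rw [MonoidHom.mul_apply, MonoidHom.mul_apply, h₁ P x hx, h₂ P x hx]
  have hinv : ∀ (u : ℕ) [Fact u.Prime] (ν : A →* ℂˣ), Cu u ν → Cu u ν⁻¹ := by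
    intro u _ ν h P x hx a
    rw [MonoidHom.inv_apply, MonoidHom.inv_apply, h P x hx]
  have hall : (∀ ν, Cu p ν) ∨ (∀ ν, Cu q ν) := by
    by_contra hcon
    push Not at hcon
    obtain ⟨⟨ν₁, h₁⟩, ⟨ν₂, h₂⟩⟩ := hcon
    have h₁' : Cu q ν₁ := (hdich ν₁).resolve_left h₁
    have h₂' : Cu p ν₂ := (hdich ν₂).resolve_right h₂
    rcases hdich (ν₁ * ν₂) with h | h
    · apply h₁
      have := hmul p _ _ h (hinv p ν₂ h₂')
      have e : ν₁ * ν₂ * ν₂⁻¹ = ν₁ := by
        ext a
        simp
      rwa [e] at this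
    · apply h₂
      have := hmul q _ _ (hinv q ν₁ h₁') h
      have e : ν₁⁻¹ * (ν₁ * ν₂) = ν₂ := by
        ext a
        simp
      rwa [e] at this
  have hsep : ∀ (u : ℕ) [Fact u.Prime], (∀ ν, Cu u ν) →
      ∀ P : Sylow u H, ∀ x ∈ (P : Subgroup H), ∀ a ∈ A, x * a = a * x := by
    intro u _ hu P x hx a ha
    letI : CommGroup A := { (inferInstance : Group A) with
      mul_comm := fun s t => Subtype.ext (hc s s.2 t t.2) }
    have h1 : (MulAut.conjNormal x ⟨a, ha⟩ : A) = ⟨a, ha⟩ := by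
      by_contra hne
      have hne' : (MulAut.conjNormal x ⟨a, ha⟩ : A) * (⟨a, ha⟩ : A)⁻¹ ≠ 1 := fun h =>
        hne (mul_inv_eq_one.mp h)
      obtain ⟨ν, hν⟩ := CommGroup.exists_apply_ne_one_of_hasEnoughRootsOfUnity A ℂ hne'
      apply hν
      rw [map_mul, map_inv, hu ν P x hx, mul_inv_cancel]
    have h2 : x * a * x⁻¹ = a := by
      have := congrArg Subtype.val h1
      simpa [MulAut.conjNormal_apply] using this
    calc x * a = x * a * x⁻¹ * x := by group
      _ = a * x := by rw [h2]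
  rcases hall with h | h
  · exact Or.inl (hsep p h)
  · exact Or.inr (hsep q h)

theorem exists_ne_one_zc {s : ℕ} [Fact s.Prime] {S₀ : Subgroup H} (hp : IsPGroup s S₀) (hne : S₀ ≠ ⊥) :
    ∃ c ∈ zc S₀, c ≠ 1 := by
  haveI : Nontrivial S₀ := (Subgroup.nontrivial_iff_ne_bot S₀).mpr hne
  haveI := hp.center_nontrivial
  obtain ⟨c, hc⟩ := exists_ne (1 : Subgroup.center S₀)
  refine ⟨((c : S₀) : H), ⟨(c : S₀).2, Subgroup.mem_centralizer_iff.mpr ?_⟩, ?_⟩
  · intro b hb
    have h1 := (Subgroup.mem_center_iff.mp c.2) ⟨b, hb⟩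
    exact congrArg Subtype.val h1
  · intro h
    exact hc (Subtype.ext (Subtype.ext h))

/-- The main contradiction. -/
theorem main_of_central [Group.IsSolvable H] {r : ℕ} [Fact r.Prime] (hG : Good H M r) {u w : ℕ}
    [Fact u.Prime] [Fact w.Prime] (huw : u ≠ w) (hUu : UniqSyl H M u) (hUw : UniqSyl H M w)
    (hdu : u ∣ Nat.card H) (hdw : w ∣ Nat.card H)
    (hA : ∀ P : Sylow u H, ∀ x ∈ (P : Subgroup H), ∀ a ∈ zc (fittingSubgroup H), x * a = a * x) :
    False := by
  classical
  haveI : Fact (Nat.Prime 2) := ⟨Nat.prime_two⟩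
  have hu : u.Prime := Fact.out
  have hw : w.Prime := Fact.out
  have hFsup : fittingSubgroup H = ⨆ p : Nat.Primes, pCore (p : ℕ) H := fittingSubgroup_eq_iSup_pCore
  -- commuting with all cores means lying in the Fitting subgroup
  have hcentF : ∀ x : H, (∀ (s : ℕ) [Fact s.Prime], ∀ y ∈ pCore s H, x * y = y * x) →
      x ∈ fittingSubgroup H := by
    intro x hx
    apply centralizer_fittingSubgroup_le
    rw [Subgroup.mem_centralizer_iff]
    intro g hg
    have hle : fittingSubgroup H ≤ centralizer ({x} : Set H) := by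
      rw [hFsup]
      refine iSup_le fun s => ?_
      haveI : Fact (s : ℕ).Prime := ⟨s.2⟩
      intro y hy
      rw [Subgroup.mem_centralizer_iff]
      intro a ha
      rw [Set.mem_singleton_iff] at ha
      subst ha
      exact hx _ y hy
    have h := Subgroup.mem_centralizer_iff.mp (hle hg) x (Set.mem_singleton x)
    exact h.symm
  have hzc : ∀ (s : ℕ) [Fact s.Prime], zc (pCore s H) ≤ zc (fittingSubgroup H) := by
    intro s _ y hy
    refine ⟨pCore_le_fittingSubgroup s hy.1, Subgroup.mem_centralizer_iff.mpr ?_⟩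
    intro g hg
    have hle : fittingSubgroup H ≤ centralizer ({y} : Set H) := by
      rw [hFsup]
      refine iSup_le fun s' => ?_
      haveI : Fact (s' : ℕ).Prime := ⟨s'.2⟩
      intro t ht
      rw [Subgroup.mem_centralizer_iff]
      intro a ha
      rw [Set.mem_singleton_iff] at ha
      subst ha
      by_cases hss : (s' : ℕ) = s
      · rw [hss] at ht
        exact zc_comm _ hy ht
      · have hdisj : Disjoint (pCore s H) (pCore (s' : ℕ) H) :=
          IsPGroup.disjoint_of_ne s (s' : ℕ) (Ne.symm hss) _ _ pCore_isPGroup pCore_isPGroup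
        exact Subgroup.commute_of_normal_of_disjoint _ _ (pCore_normal _ H) (pCore_normal _ H) hdisj
          _ _ hy.1 ht
    have h := Subgroup.mem_centralizer_iff.mp (hle hg) y (Set.mem_singleton y)
    exact h.symm
  have hcoreU : pCore u H = ⊥ := normal_pGroup_eq_bot hUu (pCore_normal u H) pCore_isPGroup
  -- odd cores
  have hodd : ∀ (s : ℕ) [Fact s.Prime], s ≠ 2 → ∀ P : Sylow u H, ∀ x ∈ (P : Subgroup H),
      ∀ y ∈ pCore s H, x * y = y * x := by
    intro s _ hs2 P x hx y hy
    by_cases hsu : s = u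
    · subst hsu
      rw [hcoreU, Subgroup.mem_bot] at hy
      rw [hy]
      simp
    by_cases hbot : pCore s H = ⊥
    · rw [hbot, Subgroup.mem_bot] at hy
      rw [hy]
      simp
    have hsmall : smallExp s ∣ Nat.card (zc (pCore s H)) := by
      obtain ⟨c, hc, hc1⟩ := exists_ne_one_zc pCore_isPGroup hbot
      have h2 : IsPGroup s (zc (pCore s H)) := (pCore_isPGroup (p := s)).to_le (zc_le _)
      obtain ⟨n, hn⟩ := IsPGroup.iff_card.mp h2
      have hn0 : n ≠ 0 := by
        rintro rfl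
        rw [pow_zero] at hn
        have := (Nat.card_eq_one_iff_unique.mp hn).1
        exact hc1 (congrArg Subtype.val (this.elim ⟨c, hc⟩ 1))
      have e : smallExp s = s := by simp [smallExp, hs2]
      rw [e, hn]
      exact dvd_pow_self s hn0
    exact sylow_commute_of_center hG hUu (Ne.symm hsu) (pCore_normal s H) pCore_isPGroup hsmall
      (fun P x hx z hz => hA P x hx z (hzc s hz)) P x hx y hy
  -- elements of the Fitting subgroup of `u`-power order
  have hF1 : ∀ x ∈ fittingSubgroup H, (∃ k, orderOf x = u ^ k) → x = 1 := by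
    rintro x hx ⟨k, hk⟩
    haveI : Group.IsNilpotent (fittingSubgroup H) := fittingSubgroup_isNilpotent
    have hp : IsPGroup u (zpowers (⟨x, hx⟩ : fittingSubgroup H)) := by
      apply IsPGroup.of_card (n := k)
      rw [Nat.card_zpowers, Subgroup.orderOf_mk, hk]
    obtain ⟨P', hP'⟩ := hp.exists_le_sylow
    have hPn : (P' : Subgroup (fittingSubgroup H)).Normal := inferInstance
    have hPc : (P' : Subgroup (fittingSubgroup H)).Characteristic := Sylow.characteristic_of_normal P' hPn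
    have hmn : ((P' : Subgroup (fittingSubgroup H)).map (fittingSubgroup H).subtype).Normal :=
      inferInstance
    have h5 := normal_pGroup_eq_bot hUu hmn (P'.isPGroup'.map _)
    have h6 : x ∈ (P' : Subgroup (fittingSubgroup H)).map (fittingSubgroup H).subtype :=
      ⟨⟨x, hx⟩, hP' (mem_zpowers _), rfl⟩
    rw [h5] at h6
    exact Subgroup.mem_bot.mp h6
  set S := pCore 2 H with hSdef
  have hSn : S.Normal := pCore_normal 2 H
  have hS2 : IsPGroup 2 S := pCore_isPGroup
  -- the core for `2` is not centralized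
  have hnot : ¬ ∀ P : Sylow u H, ∀ x ∈ (P : Subgroup H), ∀ y ∈ S, x * y = y * x := by
    intro hall
    obtain ⟨P⟩ : Nonempty (Sylow u H) := inferInstance
    apply Sylow.ne_bot_of_dvd_card P hdu
    rw [eq_bot_iff]
    intro x hx
    rw [Subgroup.mem_bot]
    apply hF1 x _ (Extra.orderOf_sylow P hx)
    apply hcentF
    intro s _ y hy
    by_cases hs2 : s = 2
    · subst hs2
      exact hall P x hx y hy
    · exact hodd s hs2 P x hx y hy
  have hSne : S ≠ ⊥ := by
    intro h
    apply hnot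
    intro P x hx y hy
    rw [h, Subgroup.mem_bot] at hy
    rw [hy]
    simp
  have hu2 : u ≠ 2 := by
    intro h
    apply hSne
    rw [hSdef, ← h]
    exact hcoreU
  have hZ2 : Nat.card (zc S) = 2 := by
    obtain ⟨c, hc, hc1⟩ := exists_ne_one_zc hS2 hSne
    have h2 : IsPGroup 2 (zc S) := hS2.to_le (zc_le _)
    obtain ⟨n, hn⟩ := IsPGroup.iff_card.mp h2
    have hn0 : n ≠ 0 := by
      rintro rfl
      rw [pow_zero] at hn
      have := (Nat.card_eq_one_iff_unique.mp hn).1
      exact hc1 (congrArg Subtype.val (this.elim ⟨c, hc⟩ 1))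
    have hn1 : n = 1 := by
      by_contra h3
      apply hnot
      apply sylow_commute_of_center hG hUu hu2 hSn hS2 _ (fun P x hx z hz => hA P x hx z (hzc 2 hz))
      have e : smallExp 2 = 4 := by simp [smallExp]
      rw [e, hn]
      exact pow_dvd_pow 2 (show 2 ≤ n by omega)
    rw [hn, hn1]
    norm_num
  have hu3 : u = 3 := by
    by_contra h3
    exact hnot (sylow_commute_two hG hUu hu2 h3 hSn hS2 hZ2)
  have hw2 : w ≠ 2 := by
    intro h
    apply hSne
    rw [hSdef, ← h]
    exact normal_pGroup_eq_bot hUw (pCore_normal w H) pCore_isPGroup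
  have hw3 : w ≠ 3 := fun h => huw (hu3.trans h.symm)
  have hwS := sylow_commute_two hG hUw hw2 hw3 hSn hS2 hZ2
  -- the centralizer of `S`
  let C : Subgroup H := centralizer (S : Set H)
  haveI : S.Normal := hSn
  have hCn : C.Normal := inferInstance
  have hC1 : ∀ y ∈ C, (∃ k, orderOf y = u ^ k) → y = 1 := by
    rintro y hy ⟨k, hk⟩
    have hp : IsPGroup u (zpowers y) := by
      apply IsPGroup.of_card (n := k)
      rw [Nat.card_zpowers, hk]
    obtain ⟨P, hP⟩ := hp.exists_le_sylow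
    have hyP : y ∈ (P : Subgroup H) := hP (mem_zpowers y)
    apply hF1 y _ ⟨k, hk⟩
    apply hcentF
    intro s _ t ht
    by_cases hs2 : s = 2
    · subst hs2
      exact (Subgroup.mem_centralizer_iff.mp hy t ht).symm
    · exact hodd s hs2 P y hyP t ht
  have hC2 : (Nat.card C).Coprime u := by
    rw [Nat.coprime_comm, Nat.Prime.coprime_iff_not_dvd hu]
    intro hd
    obtain ⟨x, hx⟩ := exists_prime_orderOf_dvd_card' u hd
    have h1 : (x : H) = 1 := by
      apply hC1 _ x.2
      exact ⟨1, by rw [Subgroup.orderOf_coe, hx, pow_one]⟩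
    have h2 : x = 1 := Subtype.ext h1
    rw [h2, orderOf_one] at hx
    exact hu.one_lt.ne hx
  have hC3 : ∀ P : Sylow u H, ∀ y ∈ (P : Subgroup H), ∀ c ∈ C, y * c = c * y := by
    intro P y hy
    obtain ⟨k, hk⟩ := Extra.orderOf_sylow P hy
    have hcop : (orderOf y).Coprime (Nat.card C) := by
      rw [hk]
      exact Nat.Coprime.pow_left k hC2.symm
    apply commute_of_fitting hCn hcop
    intro s hs T₁ hT₁n hT₁C hT₁p t ht
    haveI : Fact s.Prime := ⟨hs⟩
    have hle : T₁ ≤ pCore s H := le_pCore hT₁n hT₁p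
    by_cases hs2 : s = 2
    · subst hs2
      apply hA P y hy t
      apply hzc 2
      exact ⟨hle ht, hT₁C ht⟩
    · exact hodd s hs2 P y hy t (hle ht)
  refine false_of_commuting hUu hUw hdu hdw ?_
  intro P Q x hx y hy
  apply hC3 P x hx y
  rw [Subgroup.mem_centralizer_iff]
  intro t ht
  exact (hwS Q y hy t ht).symm

/-- **Theorem Z.** -/
theorem theoremZ [Group.IsSolvable H] {p q : ℕ} [Fact p.Prime] [Fact q.Prime] (hpq : p ≠ q)
    (hUp : UniqSyl H M p) (hUq : UniqSyl H M q)
    (hirr : ∀ W : AddSubgroup M, (∀ g : H, ∀ w ∈ W, g • w ∈ W) → W = ⊥ ∨ W = ⊤)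
    (hdp : p ∣ Nat.card H) (hdq : q ∣ Nat.card H)
    (hZ4 : ∀ (A : Subgroup H) [A.Normal], (∀ a ∈ A, ∀ b ∈ A, a * b = b * a) → ∀ ν : A →* ℂˣ,
      ¬ (p ∣ (stabHom A ν).index ∧ q ∣ (stabHom A ν).index)) : False := by
  have haux : ∀ {r : ℕ} [Fact r.Prime], Good H M r → False := by
    intro r _ hG
    let A := zc (fittingSubgroup H)
    haveI hAn : A.Normal := zc_normal inferInstance
    rcases exists_prime_central hG A (fun a ha b hb => zc_comm _ ha (zc_le _ hb))
      (hZ4 A (fun a ha b hb => zc_comm _ ha (zc_le _ hb))) with h | h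
    · exact main_of_central hG hpq hUp hUq hdp hdq h
    · exact main_of_central hG hpq.symm hUq hUp hdq hdp h
  by_cases hp2 : p = 2
  · have hq2 : q ≠ 2 := fun h => hpq (hp2.trans h.symm)
    exact haux (r := q) ⟨hUq, hq2, hdq, hirr⟩
  · exact haux (r := p) ⟨hUp, hp2, hdp, hirr⟩

end central

end Cfsg.Agent.Lib.Palfy.ThmZ
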