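import Cfsg.Agent.Lib.Palfy.Mod

/-!
# Actions in which every nonzero vector is fixed by a unique Sylow subgroup
-/

set_option autoImplicit false

namespace Cfsg.Agent.Lib.Palfy.Uniq

open scoped Pointwise
open Cfsg.Agent.Lib.Palfy.Mod Subgroup

universe u v

variable {H : Type u} [Group H] [Finite H] {M : Type v} [AddCommGroup M] [DistribMulAction H M]

/-- Every nonzero vector is fixed by a Sylow `u`-subgroup which is normal in its stabilizer. -/
def UniqSyl (H : Type u) [Group H] (M : Type v) [AddCommGroup M] [DistribMulAction H M] (u : ℕ)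
    [Fact u.Prime] : Prop :=
  ∀ v : M, v ≠ 0 → ∃ P : Sylow u H, (P : Subgroup H) ≤ MulAction.stabilizer H v ∧
    MulAction.stabilizer H v ≤ normalizer ((P : Subgroup H) : Set H)

variable {p : ℕ} [Fact p.Prime]

omit [Finite H] in
theorem fix_of_le_stab {P : Subgroup H} {v : M} (h : P ≤ MulAction.stabilizer H v) {x : H}
    (hx : x ∈ P) : x • v = v := h hx

/-- Uniqueness of the Sylow subgroup fixing a vector. -/
theorem sylow_eq (hU : UniqSyl H M p) {v : M} (hv : v ≠ 0) {P₁ P₂ : Sylow p H}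
    (h₁ : (P₁ : Subgroup H) ≤ MulAction.stabilizer H v)
    (h₂ : (P₂ : Subgroup H) ≤ MulAction.stabilizer H v) : P₁ = P₂ := by
  obtain ⟨P, -, hN⟩ := hU v hv
  have key : ∀ R : Sylow p H, (R : Subgroup H) ≤ MulAction.stabilizer H v → R = P := by
    intro R hR
    have h1 : (R : Subgroup H) ≤ normalizer ((P : Subgroup H) : Set H) := hR.trans hN
    have h2 := IsPGroup.inf_normalizer_sylow R.2 P
    have h3 : (R : Subgroup H) ≤ P := by
      have h5 : (R : Subgroup H) ≤ (R : Subgroup H) ⊓ normalizer ((P : Subgroup H) : Set H) :=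
        le_inf le_rfl h1
      exact (h5.trans h2.le).trans inf_le_right
    exact Sylow.ext (R.is_maximal' P.isPGroup' h3).symm
  rw [key P₁ h₁, key P₂ h₂]

/-- A Sylow subgroup of odd order acting on a pair of non-isomorphic minimal invariant subgroups. -/
theorem fix_components (hodd : p ≠ 2) {X : Subgroup H} (hX : X.Normal) {U₁ U₂ : AddSubgroup M}
    (h₁ : IsMinInv X U₁) (h₂ : IsMinInv X U₂) (hni : ¬ EqIso X U₁ U₂) {v₁ v₂ : M} (hv₁ : v₁ ∈ U₁)
    (hv₂ : v₂ ∈ U₂) (hv₁0 : v₁ ≠ 0) (hv₂0 : v₂ ≠ 0) (P : Sylow p H)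
    (hP : (P : Subgroup H) ≤ MulAction.stabilizer H (v₁ + v₂)) :
    (P : Subgroup H) ≤ MulAction.stabilizer H v₁ ∧ (P : Subgroup H) ≤ MulAction.stabilizer H v₂ := by
  have hne : U₁ ≠ U₂ := by
    rintro rfl
    exact hni (EqIso.refl X U₁)
  have h12 := h₁.inf_eq_bot h₂ hne
  obtain ⟨hm₁, hm₂⟩ := mem_gen_of_not_eqIso h₁ h₂ hni hv₁ hv₂ hv₁0 hv₂0
  have hU₁ : U₁ ≤ gen X (v₁ + v₂) := by
    rw [← gen_eq_of_minInv h₁ hv₁ hv₁0]
    exact gen_le (gen_inv X _) hm₁
  have hU₂ : U₂ ≤ gen X (v₁ + v₂) := by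
    rw [← gen_eq_of_minInv h₂ hv₂ hv₂0]
    exact gen_le (gen_inv X _) hm₂
  have hgen : gen X (v₁ + v₂) ≤ U₁ ⊔ U₂ := by
    refine gen_le ?_ (AddSubgroup.add_mem_sup hv₁ hv₂)
    intro x hx u hu
    obtain ⟨a, ha, b, hb, rfl⟩ := AddSubgroup.mem_sup.mp hu
    rw [smul_add]
    exact AddSubgroup.add_mem_sup (h₁.inv x hx a ha) (h₂.inv x hx b hb)
  -- the elements of P permute the two components
  have hperm : ∀ g ∈ (P : Subgroup H), ∀ U : AddSubgroup M, IsMinInv X U → U ≤ U₁ ⊔ U₂ →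
      g • U = U₁ ∨ g • U = U₂ := by
    intro g hg U hU hUle
    apply minInv_le_sup h₁ h₂ hni (hU.smul hX g)
    intro a ha
    rw [AddSubgroup.mem_pointwise_smul_iff_inv_smul_mem] at ha
    have h3 : g⁻¹ • a ∈ gen X (v₁ + v₂) := (sup_le hU₁ hU₂) (hUle ha)
    have h4 : g • g⁻¹ • a ∈ gen X (v₁ + v₂) := smul_mem_gen hX (hP hg) h3
    rw [smul_inv_smul] at h4
    exact hgen h4
  -- odd elements fix each component
  have hfixU : ∀ g ∈ (P : Subgroup H), ∀ U : AddSubgroup M, IsMinInv X U → U ≤ U₁ ⊔ U₂ → g • U = U := by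
    intro g hg U hU hUle
    have hUc : U = U₁ ∨ U = U₂ := minInv_le_sup h₁ h₂ hni hU hUle
    have h3 : ∀ g ∈ (P : Subgroup H), ∀ U' : AddSubgroup M, (U' = U₁ ∨ U' = U₂) →
        g • U' = U₁ ∨ g • U' = U₂ := by
      intro g hg U' hU'
      rcases hU' with rfl | rfl
      · exact hperm g hg _ h₁ le_sup_left
      · exact hperm g hg _ h₂ le_sup_right
    -- g^2 fixes U
    have h4 : (g * g) • U = U := by
      rw [mul_smul]
      rcases hUc with e | e
      · rw [e]
        rcases h3 g hg U₁ (Or.inl rfl) with h5 | h5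
        · rw [h5, h5]
        · rw [h5]
          rcases h3 g hg U₂ (Or.inr rfl) with h6 | h6
          · exact h6
          · exfalso
            apply hne
            have := h5.trans h6.symm
            exact smul_left_cancel g this
      · rw [e]
        rcases h3 g hg U₂ (Or.inr rfl) with h5 | h5
        · rw [h5]
          rcases h3 g hg U₁ (Or.inl rfl) with h6 | h6
          · exfalso
            apply hne
            have := h6.trans h5.symm
            exact smul_left_cancel g this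
          · exact h6
        · rw [h5, h5]
    -- g has odd order
    have hord : Odd (orderOf g) := by
      obtain ⟨k, hk⟩ := (IsPGroup.iff_orderOf.mp P.isPGroup') ⟨g, hg⟩
      have h5 : orderOf g = p ^ k := by
        rw [← Subgroup.orderOf_mk g hg]
        exact hk
      rw [h5]
      exact (Nat.Prime.odd_of_ne_two Fact.out hodd).pow
    obtain ⟨m, hm⟩ := hord
    have h5 : g = (g * g) ^ (m + 1) := by
      have h6 : (g * g) ^ (m + 1) = g ^ (2 * m + 1) * g := by
        rw [← pow_two, ← pow_mul]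
        rw [show 2 * (m + 1) = (2 * m + 1) + 1 by ring, pow_succ]
      rw [h6, ← hm, pow_orderOf_eq_one, one_mul]
    have h7 : ∀ n : ℕ, ((g * g) ^ n) • U = U := by
      intro n
      induction n with
      | zero => simp
      | succ n ih => rw [pow_succ, mul_smul, h4, ih]
    conv_lhs => rw [h5]
    exact h7 _
  -- conclusion
  have hcomp : ∀ g ∈ (P : Subgroup H), g • v₁ = v₁ ∧ g • v₂ = v₂ := by
    intro g hg
    have e1 : g • v₁ ∈ U₁ := by
      have : g • v₁ ∈ g • U₁ := AddSubgroup.smul_mem_pointwise_smul _ _ _ hv₁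
      rwa [hfixU g hg U₁ h₁ le_sup_left] at this
    have e2 : g • v₂ ∈ U₂ := by
      have : g • v₂ ∈ g • U₂ := AddSubgroup.smul_mem_pointwise_smul _ _ _ hv₂
      rwa [hfixU g hg U₂ h₂ le_sup_right] at this
    have e3 : g • v₁ + g • v₂ = v₁ + v₂ := by
      rw [← smul_add]
      exact hP hg
    have e4 : g • v₁ - v₁ ∈ U₁ ⊓ U₂ := by
      refine ⟨U₁.sub_mem e1 hv₁, ?_⟩
      have e5 : g • v₁ - v₁ = v₂ - g • v₂ := by
        rw [sub_eq_sub_iff_add_eq_add, e3, add_comm]
      rw [e5]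
      exact U₂.sub_mem hv₂ e2
    rw [h12, AddSubgroup.mem_bot, sub_eq_zero] at e4
    refine ⟨e4, ?_⟩
    rw [e4] at e3
    exact add_left_cancel e3
  exact ⟨fun g hg => (hcomp g hg).1, fun g hg => (hcomp g hg).2⟩

variable [Finite M]

/-- Homogeneity: for `p` odd dividing `|H|`, all minimal invariant subgroups of a normal subgroup are
isomorphic. -/
theorem eqIso_of_normal [FaithfulSMul H M] [Nontrivial M] (hU : UniqSyl H M p) (hodd : p ≠ 2)
    (hdvd : p ∣ Nat.card H)
    (hirr : ∀ W : AddSubgroup M, (∀ g : H, ∀ w ∈ W, g • w ∈ W) → W = ⊥ ∨ W = ⊤)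
    {X : Subgroup H} (hX : X.Normal) {U₁ U₂ : AddSubgroup M} (h₁ : IsMinInv X U₁)
    (h₂ : IsMinInv X U₂) : EqIso X U₁ U₂ := by
  by_contra hni
  have hne : U₁ ≠ U₂ := by
    rintro rfl
    exact hni (EqIso.refl X U₁)
  have h12 := h₁.inf_eq_bot h₂ hne
  obtain ⟨⟨v₁, hv₁⟩, hv₁0'⟩ := (AddSubgroup.ne_bot_iff_exists_ne_zero).mp h₁.ne
  obtain ⟨⟨v₂, hv₂⟩, hv₂0'⟩ := (AddSubgroup.ne_bot_iff_exists_ne_zero).mp h₂.ne
  have hv₁0 : v₁ ≠ 0 := fun h => hv₁0' (Subtype.ext h)
  have hv₂0 : v₂ ≠ 0 := fun h => hv₂0' (Subtype.ext h)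
  have hsum : ∀ {a b : M}, a ∈ U₁ → b ∈ U₂ → a ≠ 0 → a + b ≠ 0 := by
    intro a b ha hb ha0 h0
    have h4 : a ∈ U₁ ⊓ U₂ := by
      refine ⟨ha, ?_⟩
      rw [eq_neg_of_add_eq_zero_left h0]
      exact U₂.neg_mem hb
    rw [h12, AddSubgroup.mem_bot] at h4
    exact ha0 h4
  -- the common Sylow subgroup
  obtain ⟨P₀, hP₀, -⟩ := hU (v₁ + v₂) (hsum hv₁ hv₂ hv₁0)
  obtain ⟨hP₀₁, hP₀₂⟩ := fix_components hodd hX h₁ h₂ hni hv₁ hv₂ hv₁0 hv₂0 P₀ hP₀
  -- a general step: non-isomorphic pair, fixed second vector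
  have step : ∀ (U V : AddSubgroup M), IsMinInv X U → IsMinInv X V → ¬ EqIso X U V → ∀ a ∈ U, ∀ b ∈ V,
      a ≠ 0 → b ≠ 0 → (P₀ : Subgroup H) ≤ MulAction.stabilizer H b →
      (P₀ : Subgroup H) ≤ MulAction.stabilizer H a := by
    intro U V hUm hVm hUV a ha b hb ha0 hb0 hb'
    have hUVne : U ≠ V := by
      rintro rfl
      exact hUV (EqIso.refl X U)
    have hUV0 := hUm.inf_eq_bot hVm hUVne
    have hab : a + b ≠ 0 := by
      intro h0
      have h4 : a ∈ U ⊓ V := by
        refine ⟨ha, ?_⟩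
        rw [eq_neg_of_add_eq_zero_left h0]
        exact V.neg_mem hb
      rw [hUV0, AddSubgroup.mem_bot] at h4
      exact ha0 h4
    obtain ⟨P', hP', -⟩ := hU (a + b) hab
    obtain ⟨h5, h6⟩ := fix_components hodd hX hUm hVm hUV ha hb ha0 hb0 P' hP'
    rw [sylow_eq hU hb0 hb' h6]
    exact h5
  -- everything is fixed
  have hall : ∀ U : AddSubgroup M, IsMinInv X U → ∀ a ∈ U, a ≠ 0 →
      (P₀ : Subgroup H) ≤ MulAction.stabilizer H a := by
    intro U hUm a ha ha0
    by_cases hU1 : EqIso X U U₁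
    · have hU2 : ¬ EqIso X U U₂ := fun h => hni ((hU1.symm hUm.inv).trans h)
      exact step U U₂ hUm h₂ hU2 a ha v₂ hv₂ ha0 hv₂0 hP₀₂
    · exact step U U₁ hUm h₁ hU1 a ha v₁ hv₁ ha0 hv₁0 hP₀₁
  -- P₀ acts trivially
  let S : AddSubgroup M :=
    { carrier := {m | ∀ x ∈ (P₀ : Subgroup H), x • m = m}
      zero_mem' := fun x _ => smul_zero x
      add_mem' := fun {a b} ha hb x hx => by rw [smul_add, ha x hx, hb x hx]
      neg_mem' := fun {a} ha x hx => by rw [smul_neg, ha x hx] }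
  have hS : S = ⊤ := by
    apply eq_top_of_minInv_le hX hirr
    intro U hUm a ha x hx
    by_cases ha0 : a = 0
    · rw [ha0]
      exact smul_zero x
    · exact hall U hUm a ha ha0 hx
  have htriv : (P₀ : Subgroup H) = ⊥ := by
    rw [eq_bot_iff]
    intro x hx
    rw [Subgroup.mem_bot]
    apply FaithfulSMul.eq_of_smul_eq_smul (α := M)
    intro m
    have : m ∈ S := by rw [hS]; exact AddSubgroup.mem_top m
    rw [this x hx, one_smul]
  -- but p divides the order
  have hc := P₀.card_eq_multiplicity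
  rw [htriv, Subgroup.card_bot] at hc
  have h1 : p ^ (Nat.card H).factorization p = 1 := hc.symm
  have h2 : (Nat.card H).factorization p ≠ 0 := by
    have := (Fact.out : p.Prime).factorization_pos_of_dvd Nat.card_pos.ne' hdvd
    omega
  rcases Nat.pow_eq_one.mp h1 with h3 | h3
  · exact (Fact.out : p.Prime).one_lt.ne' h3
  · exact h2 h3

/-- An element of an abelian normal subgroup fixing a minimal invariant subgroup is trivial. -/
theorem eq_one_of_fix [FaithfulSMul H M] [Nontrivial M] (hU : UniqSyl H M p) (hodd : p ≠ 2)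
    (hdvd : p ∣ Nat.card H)
    (hirr : ∀ W : AddSubgroup M, (∀ g : H, ∀ w ∈ W, g • w ∈ W) → W = ⊥ ∨ W = ⊤)
    {X : Subgroup H} (hX : X.Normal) {U : AddSubgroup M} (hUm : IsMinInv X U) {x : H} (hx : x ∈ X)
    (hfix : ∀ u ∈ U, x • u = u) : x = 1 := by
  let S : AddSubgroup M :=
    { carrier := {m | x • m = m}
      zero_mem' := smul_zero x
      add_mem' := fun {a b} ha hb => by
        change x • (a + b) = a + b
        have ha' : x • a = a := ha
        have hb' : x • b = b := hb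
        rw [smul_add, ha', hb']
      neg_mem' := fun {a} ha => by
        change x • (-a) = -a
        have ha' : x • a = a := ha
        rw [smul_neg, ha'] }
  have hS : S = ⊤ := by
    apply eq_top_of_minInv_le hX hirr
    intro V hVm a ha
    exact (eqIso_of_normal hU hodd hdvd hirr hX hUm hVm).fix hx hfix a ha
  apply FaithfulSMul.eq_of_smul_eq_smul (α := M)
  intro m
  have : m ∈ S := by rw [hS]; exact AddSubgroup.mem_top m
  rw [one_smul]
  exact this

/-- A normal `p`-subgroup is trivial. -/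
theorem normal_pGroup_eq_bot [FaithfulSMul H M] [Nontrivial M] (hU : UniqSyl H M p) {D : Subgroup H}
    (hD : D.Normal) (hp : IsPGroup p D) : D = ⊥ := by
  rw [eq_bot_iff]
  intro x hx
  rw [Subgroup.mem_bot]
  apply FaithfulSMul.eq_of_smul_eq_smul (α := M)
  intro m
  rw [one_smul]
  by_cases hm : m = 0
  · rw [hm, smul_zero]
  obtain ⟨P, hP, -⟩ := hU m hm
  have h1 : D ≤ P := by
    have h2 : IsPGroup p ((P : Subgroup H) ⊔ D : Subgroup H) :=
      P.isPGroup'.to_sup_of_normal_right hp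
    have h3 := P.is_maximal' h2 le_sup_left
    rw [← h3]
    exact le_sup_right
  exact hP (h1 hx)

/-- An element of a normal subgroup of order prime to `p` fixing a vector commutes with the Sylow
subgroup fixing this vector. -/
theorem commute_of_fix (hU : UniqSyl H M p) {S : Subgroup H} (hS : S.Normal)
    (hcop : (Nat.card S).Coprime p) {v : M} (hv : v ≠ 0) {P : Sylow p H}
    (hP : (P : Subgroup H) ≤ MulAction.stabilizer H v) {a : H} (ha : a ∈ S) (hav : a • v = v) {y : H}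
    (hy : y ∈ (P : Subgroup H)) : a * y = y * a := by
  obtain ⟨P', hP', hN⟩ := hU v hv
  have hPP' : P = P' := sylow_eq hU hv hP hP'
  subst hPP'
  have h1 : a ∈ normalizer ((P : Subgroup H) : Set H) := hN hav
  have h2 : a * y * a⁻¹ ∈ (P : Subgroup H) := (Subgroup.mem_normalizer_iff.mp h1 y).mp hy
  have h3 : a * y * a⁻¹ * y⁻¹ ∈ (P : Subgroup H) := (P : Subgroup H).mul_mem h2 ((P : Subgroup H).inv_mem hy)
  have h4 : a * y * a⁻¹ * y⁻¹ ∈ S := by
    have h5 : y * a⁻¹ * y⁻¹ ∈ S := hS.conj_mem _ (S.inv_mem ha) y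
    have h6 : a * y * a⁻¹ * y⁻¹ = a * (y * a⁻¹ * y⁻¹) := by group
    rw [h6]
    exact S.mul_mem ha h5
  have h7 : a * y * a⁻¹ * y⁻¹ = 1 := by
    have h8 : Nat.Coprime (Nat.card S) (Nat.card (P : Subgroup H)) := by
      rcases IsPGroup.iff_card.mp P.isPGroup' with ⟨k, hk⟩
      rw [hk]
      exact Nat.Coprime.pow_right k hcop
    have := Subgroup.inf_eq_bot_of_coprime h8
    have h9 : a * y * a⁻¹ * y⁻¹ ∈ S ⊓ (P : Subgroup H) := ⟨h4, h3⟩
    rwa [this, Subgroup.mem_bot] at h9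
  have h8 : a * y * a⁻¹ = y := by
    have := mul_eq_one_iff_eq_inv.mp h7
    rwa [inv_inv] at this
  calc a * y = a * y * a⁻¹ * a := by group
    _ = y * a := by rw [h8]

end Cfsg.Agent.Lib.Palfy.Uniq
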